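import Cfsg.Agent.H60.AbelianPrimeSimple
import Cfsg.Agent.H60.AutomiserFree
import Cfsg.Agent.H35.Quotient
import Cfsg.Agent.H35.ZJThompson
import Cfsg.Agent.S3370
import Cfsg.Agent.H25.Burnside
import Mathlib.GroupTheory.FixedPointFree

/-!
The end of the proof that a group in which subgroups of order prime to `p` are abelian of exponent
dividing `p - 1` is solvable: transfer, or counting involutions.
-/

set_option autoImplicit false

namespace Cfsg.Agent.H60.PP

open Subgroup
open Cfsg.Agent.H61 (cj)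
open scoped Pointwise

universe u

variable {p : ℕ} [Fact p.Prime] {G : Type u} [Group G] [Finite G] {S : Sylow 2 G} {M : Subgroup G}

omit [Fact p.Prime] in
theorem card_sup_dvd' {A B : Subgroup G} (h : B ≤ normalizer (A : Set G)) :
    Nat.card ↥(A ⊔ B) ∣ Nat.card A * Nat.card B := by
  haveI : (A.subgroupOf (A ⊔ B)).Normal :=
    (normal_subgroupOf_iff_le_normalizer le_sup_left).2 (sup_le le_normalizer h)
  have h1 := H19.card_sup_dvd (A.subgroupOf (A ⊔ B)) (B.subgroupOf (A ⊔ B))
  rwa [← subgroupOf_sup le_sup_left le_sup_right, subgroupOf_self, card_top,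
    Nat.card_congr (subgroupOfEquivOfLe (le_sup_left : A ≤ A ⊔ B)).toEquiv,
    Nat.card_congr (subgroupOfEquivOfLe (le_sup_right : B ≤ A ⊔ B)).toEquiv] at h1

/-- What the action of `N(S)` on `S` looks like. -/
structure AutFacts (p : ℕ) (S : Sylow 2 G) : Prop where
  card : Nat.card (S : Subgroup G) = p + 1
  sq : ∀ x ∈ (S : Subgroup G), x ^ 2 = 1
  free : ∀ n ∈ normalizer ((S : Subgroup G) : Set G), ∀ t ∈ (S : Subgroup G), t ≠ 1 →
    n * t * n⁻¹ = t → n ∈ centralizer ((S : Subgroup G) : Set G)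
  index : (centralizer ((S : Subgroup G) : Set G)).relIndex
    (normalizer ((S : Subgroup G) : Set G)) = p

theorem autFacts (h : TopCtx p S M) : AutFacts p S := by
  haveI : Fact (Nat.Prime 2) := ⟨Nat.prime_two⟩
  have hm := h.toMinCtx
  have hp5 := h.five
  haveI hSc := sylow_two_abelian hm S
  set N := normalizer ((S : Subgroup G) : Set G) with hN
  let ψ : N →* Equiv.Perm (S : Subgroup G) :=
    { toFun := fun n => (normalizerMonoidHom (S : Subgroup G) n).toEquiv
      map_one' := by ext x; simp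
      map_mul' := fun a b => by ext x; simp }
  have hψ : ∀ (n : N) (x : (S : Subgroup G)), ((ψ n x : (S : Subgroup G)) : G) = n * x * (n : G)⁻¹ :=
    fun _ _ => rfl
  have hker : ψ.ker = (centralizer ((S : Subgroup G) : Set G)).subgroupOf N := by
    ext n
    rw [MonoidHom.mem_ker, mem_subgroupOf, mem_centralizer_iff]
    constructor
    · intro e x hx
      have h1 := hψ n ⟨x, hx⟩
      rw [e] at h1
      exact (mul_inv_eq_iff_eq_mul.1 h1.symm).symm
    · intro e
      refine Equiv.ext fun x => Subtype.ext ?_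
      rw [hψ, ← e x x.2]
      simp
  have hA : IsPGroup p ψ.range := by
    rintro ⟨_, n, rfl⟩
    obtain ⟨a, b, hsplit, ⟨k, hk⟩, hb⟩ := H50.exists_p_p'_split (p := p) (n : G)
    refine ⟨k, Subtype.ext ?_⟩
    have h1 : ψ (n ^ b) = 1 := by
      rw [← MonoidHom.mem_ker, hker, mem_subgroupOf]
      exact mem_centralizer_of_coprime hm S (pow_mem n.2 b) hb
    have h2 : (n ^ a) ^ p ^ k = 1 :=
      Subtype.ext (by rw [← hk]; exact pow_orderOf_eq_one _)
    have h3 : n = n ^ a * n ^ b := Subtype.ext hsplit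
    show ψ n ^ p ^ k = 1
    rw [h3, map_mul, h1, mul_one, ← map_pow, h2, map_one]
  have h8 := eight_le_omega hm S
  obtain ⟨t, htΩ, ht1⟩ : ∃ t ∈ omegaS S, t ≠ 1 := by
    refine (bot_or_exists_ne_one _).resolve_left fun e => ?_
    rw [e, card_bot] at h8
    norm_num at h8
  have htS := H72.omegaOne_le 2 _ htΩ
  have horb : ∀ x : ↥(S : Subgroup G), (Subtype.val x : G) ≠ 1 → (Subtype.val x : G) ^ 2 = 1 →
      x ∈ MulAction.orbit ψ.range (⟨t, htS⟩ : (S : Subgroup G)) := by
    intro x hx1 hx2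
    obtain ⟨n, hn, e⟩ := transitive_omega h htS (orderOf_omegaS hm htΩ ht1) x.2 (orderOf_eq_prime hx2 hx1)
    exact ⟨⟨ψ ⟨n, hn⟩, ⟨n, hn⟩, rfl⟩, Subtype.ext e⟩
  have horb' : (Subtype.val : ↥(S : Subgroup G) → G) '' MulAction.orbit ψ.range (⟨t, htS⟩ : (S : Subgroup G)) =
      (omegaS S : Set G) \ {1} := by
    ext x
    constructor
    · rintro ⟨_, ⟨⟨_, n, rfl⟩, rfl⟩, rfl⟩
      exact ⟨(mem_normalizer_iff.1 (H72.normalizer_le_normalizer_omegaOne 2 _ n.2) t).1 htΩ,
        fun e => ht1 (conj_eq_one_iff.1 e)⟩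
    · rintro ⟨hx, hx1⟩
      exact ⟨⟨x, H72.omegaOne_le 2 _ hx⟩, horb ⟨x, H72.omegaOne_le 2 _ hx⟩ hx1 ((omegaS_elem hm S).2 x hx), rfl⟩
  have hcardorb : Nat.card (MulAction.orbit ψ.range (⟨t, htS⟩ : (S : Subgroup G))) =
      Nat.card (omegaS S) - 1 := by
    rw [Nat.card_coe_set_eq, ← Set.ncard_image_of_injective _ Subtype.val_injective, horb',
      Set.ncard_diff_singleton_of_mem (one_mem (omegaS S)), ← Nat.card_coe_set_eq]
    rfl
  obtain ⟨r, hr⟩ := (H52.elem_isPGroup (omegaS_elem hm S)).exists_card_eq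
  haveI := Fintype.ofFinite (MulAction.orbit ψ.range (⟨t, htS⟩ : (S : Subgroup G)))
  obtain ⟨k, hk⟩ := hA.card_orbit (⟨t, htS⟩ : (S : Subgroup G))
  rw [hcardorb, hr] at hk
  have hk1 : k = 1 := by
    refine Cfsg.Agent.S3370.mersenne_exponent (p := p) (n := r) (Fact.out : p.Prime) ?_ ?_
    · rintro rfl
      rw [pow_zero] at hk
      omega
    · omega
  subst hk1
  rw [pow_one] at hk
  have hsq : ∀ x ∈ (S : Subgroup G), x ^ 2 = 1 := by
    intro x hx
    obtain ⟨j, hj⟩ := (IsPGroup.iff_orderOf.1 S.2) ⟨x, hx⟩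
    rw [Subgroup.orderOf_mk] at hj
    obtain ⟨i, hi⟩ := S.2.exists_card_eq
    have hd : orderOf x ∣ p - 1 :=
      orderOf_dvd_of_pow_eq_one ((h.hyp _ (by rw [hi]; exact coprime_two_pow hp5 i)).2 x hx)
    rw [hj] at hd
    have hj1 : j ≤ 1 := by
      by_contra hj2
      have h4 : 4 ∣ p - 1 := dvd_trans (by norm_num : 4 ∣ 2 ^ 2)
        (dvd_trans (pow_dvd_pow 2 (by omega)) hd)
      have h4' : 4 ∣ 2 ^ r := by
        have : 3 ≤ r := by
          by_contra hr3
          have : 2 ^ r < 2 ^ 3 := Nat.pow_lt_pow_right (by norm_num) (by omega)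
          omega
        exact dvd_trans (by norm_num : 4 ∣ 2 ^ 2) (pow_dvd_pow 2 (by omega))
      omega
    rw [← orderOf_dvd_iff_pow_eq_one, hj]
    exact dvd_trans (pow_dvd_pow 2 hj1) (dvd_of_eq (pow_one 2))
  have hcard : Nat.card (S : Subgroup G) = p + 1 := by
    have e : omegaS S = (S : Subgroup G) :=
      le_antisymm (H72.omegaOne_le 2 _) fun x hx => H72.mem_omegaOne hx (hsq x hx)
    rw [e] at hr h8
    omega
  have hindex : (MulAction.stabilizer ψ.range (⟨t, htS⟩ : (S : Subgroup G))).index = p := by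
    rw [MulAction.index_stabilizer, ← Nat.card_coe_set_eq, hcardorb, hr, hk]
  have hAcard : Nat.card ψ.range = p := by
    obtain ⟨m, hm'⟩ := hA.exists_card_eq
    have h1 : p ∣ Nat.card ψ.range := hindex ▸ index_dvd_card _
    have h2 : Nat.card ψ.range ∣ (p + 1).factorial := by
      rw [← hcard, ← Nat.card_perm]
      exact card_subgroup_dvd_card _
    have hm1 : m ≤ 1 := by
      by_contra hm2
      have h3 : p ^ 2 ∣ (p + 1).factorial := dvd_trans (pow_dvd_pow p (by omega)) (hm' ▸ h2)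
      obtain ⟨q, rfl⟩ : ∃ q, p = q + 1 := ⟨p - 1, by omega⟩
      rw [Nat.factorial_succ, Nat.factorial_succ, pow_two, mul_left_comm] at h3
      rcases (Fact.out : (q + 1).Prime).dvd_mul.1 (Nat.dvd_of_mul_dvd_mul_left (by omega) h3) with h4 | h4
      · rw [Nat.dvd_add_right dvd_rfl] at h4
        exact (Fact.out : (q + 1).Prime).ne_one (Nat.dvd_one.1 h4)
      · have := (Fact.out : (q + 1).Prime).dvd_factorial.1 h4
        omega
    interval_cases m
    · rw [pow_zero] at hm'
      rw [hm'] at h1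
      exact absurd (Nat.dvd_one.1 h1) (Fact.out : p.Prime).ne_one
    · rwa [pow_one] at hm'
  refine ⟨hcard, hsq, fun n hn s hs hs1 he => ?_, ?_⟩
  · obtain ⟨⟨_, g, rfl⟩, hg⟩ := horb ⟨s, hs⟩ hs1 (hsq s hs)
    have hstab : MulAction.stabilizer ψ.range (⟨s, hs⟩ : (S : Subgroup G)) = ⊥ := by
      have hi : (MulAction.stabilizer ψ.range (⟨s, hs⟩ : (S : Subgroup G))).index = p := by
        rw [MulAction.index_stabilizer,
          MulAction.orbit_eq_iff.2 (horb ⟨s, hs⟩ hs1 (hsq s hs)), ← MulAction.index_stabilizer,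
          hindex]
      refine card_eq_one.1 ?_
      have := card_mul_index (MulAction.stabilizer ψ.range (⟨s, hs⟩ : (S : Subgroup G)))
      rw [hi, hAcard] at this
      exact Nat.eq_one_of_mul_eq_one_left (m := 1) (by nlinarith [(Fact.out : p.Prime).pos])
    have h1 : (⟨ψ ⟨n, hn⟩, ⟨n, hn⟩, rfl⟩ : ψ.range) ∈
        MulAction.stabilizer ψ.range (⟨s, hs⟩ : (S : Subgroup G)) :=
      MulAction.mem_stabilizer_iff.2 (Subtype.ext he)
    rw [hstab, mem_bot, Subtype.ext_iff] at h1
    have h2 : (⟨n, hn⟩ : N) ∈ ψ.ker := h1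
    rwa [hker, mem_subgroupOf] at h2
  · show ((centralizer ((S : Subgroup G) : Set G)).subgroupOf N).index = p
    rw [← hker, index_ker, hAcard]

/-- The transfer case: `S` is not normal in `M`. -/
theorem transfer_case (h : TopCtx p S M) (hn : ¬ M ≤ normalizer ((S : Subgroup G) : Set G)) :
    False := by
  haveI : Fact (Nat.Prime 2) := ⟨Nat.prime_two⟩
  have hm := h.toMinCtx
  have hp5 := h.five
  have haut := autFacts h
  haveI := h.solv M h.ne_top
  obtain ⟨K, -, -, -, hle, -⟩ := exists_hall_proper hm S h.ne_top h.le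
  set O1 := Cfsg.pCoreOf p M with hO1
  set N := normalizer ((S : Subgroup G) : Set G) with hNdef
  set C := centralizer ((S : Subgroup G) : Set G) with hCdef
  have hle' : M ≤ O1 ⊔ N := hle.trans (sup_le_sup_left inf_le_right _)
  have hNM : N ≤ M := h.normalizer_le
  have hCN : C ≤ N := centralizer_le_normalizer _
  have hO1M : O1 ≤ M := H72.pCoreOf_le p M
  have hMO1 : M ≤ normalizer (O1 : Set G) := H72.le_normalizer_pCoreOf p M
  -- the map onto a group of order `p`
  set Mc := O1 ⊔ C with hMc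
  have hMcN : M ≤ normalizer (Mc : Set G) := by
    refine hle'.trans (sup_le (le_sup_left.trans le_normalizer) fun n hn' => ?_)
    refine H61.mem_normalizer_of_cj ?_
    rw [hMc, H61.cj_sup, H61.cj_eq_self (hMO1 (hNM hn')),
      H61.cj_eq_self (normalizer_le_normalizer_centralizer hn')]
  haveI : (Mc.subgroupOf M).Normal :=
    (normal_subgroupOf_iff_le_normalizer (sup_le hO1M (hCN.trans hNM))).2 hMcN
  have hMctop : Mc.subgroupOf M ≠ ⊤ := by
    intro e
    rw [subgroupOf_eq_top] at e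
    have hNC : N ≤ C := by
      intro n hn'
      have hCO : C ≤ normalizer (O1 : Set G) := (hCN.trans hNM).trans hMO1
      have h1 : n ∈ ((O1 ⊔ C : Subgroup G) : Set G) := e (hNM hn')
      rw [coe_mul_of_right_le_normalizer_left O1 C hCO] at h1
      obtain ⟨o, ho, c, hc, rfl⟩ := h1
      have hoN : o ∈ N := by simpa using mul_mem hn' (inv_mem (hCN hc))
      refine mul_mem (mem_centralizer_iff.2 fun s hs => ?_) hc
      have h2 : s * o * s⁻¹ * o⁻¹ ∈ O1 ⊓ (S : Subgroup G) := by
        refine mem_inf.2 ⟨mul_mem ((mem_normalizer_iff.1 (hMO1 (h.le hs)) o).1 ho) (inv_mem ho), ?_⟩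
        have h3 := (mem_normalizer_iff.1 hoN s⁻¹).1 (inv_mem hs)
        simpa [mul_assoc] using mul_mem hs h3
      rw [H35.inf_eq_bot_of_coprime (H72.pCoreOf_isPGroup p M) (by
        rw [haut.card]
        exact ((Fact.out : p.Prime).coprime_iff_not_dvd.2 (by
          rw [Nat.dvd_add_right dvd_rfl, Nat.dvd_one]; exact (Fact.out : p.Prime).ne_one)).symm),
        mem_bot, mul_inv_eq_one, mul_inv_eq_iff_eq_mul] at h2
      exact h2
    have h4 := haut.index
    rw [relIndex_eq_one.2 hNC] at h4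
    exact (Fact.out : p.Prime).ne_one h4.symm
  have hcardA : Nat.card (M ⧸ Mc.subgroupOf M) = p := by
    let f : N →* M ⧸ Mc.subgroupOf M := (QuotientGroup.mk' _).comp (inclusion hNM)
    have hf : Function.Surjective f := by
      intro q
      obtain ⟨⟨x, hx⟩, rfl⟩ := QuotientGroup.mk'_surjective _ q
      have h1 : x ∈ ((O1 ⊔ N : Subgroup G) : Set G) := hle' hx
      rw [coe_mul_of_right_le_normalizer_left O1 N (hNM.trans hMO1)] at h1
      obtain ⟨o, ho, n, hn', rfl⟩ := h1
      refine ⟨⟨n, hn'⟩, ?_⟩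
      refine QuotientGroup.eq.2 ?_
      show n⁻¹ * (o * n) ∈ Mc
      refine mem_sup_left ?_
      have := (mem_normalizer_iff.1 (hMO1 (inv_mem (hNM hn'))) o).1 ho
      simpa [mul_assoc] using this
    have hdvd : Nat.card (M ⧸ Mc.subgroupOf M) ∣ p := by
      have h2 : f.ker.index = Nat.card (M ⧸ Mc.subgroupOf M) := by
        rw [index_ker, MonoidHom.range_eq_top.2 hf, card_top]
      rw [← h2, ← haut.index]
      refine index_dvd_of_le fun x hx => ?_
      exact (QuotientGroup.eq_one_iff _).2 (mem_subgroupOf.2 (mem_sup_right hx))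
    rcases (Fact.out : p.Prime).eq_one_or_self_of_dvd _ hdvd with h1 | h1
    · exact absurd (index_eq_one.1 h1) hMctop
    · exact h1
  haveI : NeZero p := ⟨(Fact.out : p.Prime).ne_zero⟩
  have hcardZ : Nat.card (Multiplicative (ZMod p)) = p := Nat.card_zmod p
  set φ : M →* Multiplicative (ZMod p) :=
    (mulEquivOfPrimeCardEq hcardA hcardZ).toMonoidHom.comp (QuotientGroup.mk' (Mc.subgroupOf M)) with hφ
  have hφs : Function.Surjective φ :=
    (mulEquivOfPrimeCardEq hcardA hcardZ).surjective.comp (QuotientGroup.mk'_surjective _)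
  -- the `p'`-core of `M` has odd order
  haveI : (Cfsg.pPrimeCore p M).Normal := H19.pPrimeCore_normal p M
  set L := Cfsg.pPrimeCore p M with hL
  have hLodd : ¬ 2 ∣ Nat.card L := by
    intro h2
    obtain ⟨z, hz⟩ := exists_prime_orderOf_dvd_card' 2 h2
    set Lg := L.map M.subtype with hLg
    have hMLg : M ≤ normalizer (Lg : Set G) := by
      have := le_normalizer_map (H := L) M.subtype
      rwa [normalizer_eq_top_iff.2 inferInstance, ← MonoidHom.range_eq_map, range_subtype] at this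
    have hzL : ((z : M) : G) ∈ Lg := ⟨z, z.2, rfl⟩
    have hz2 : orderOf ((z : M) : G) = 2 := by rw [Subgroup.orderOf_coe, Subgroup.orderOf_coe, hz]
    obtain ⟨m, hmM, hmS⟩ := exists_conj_mem_sylow S h.le (map_subtype_le L hzL) hz2
    have hmL : m * (z : M) * m⁻¹ ∈ Lg := (mem_normalizer_iff.1 (hMLg hmM) _).1 hzL
    have hm2 : orderOf (m * (z : M) * m⁻¹) = 2 := by rw [H50.orderOf_conj, hz2]
    have hSL : (S : Subgroup G) ≤ Lg := by
      intro s hs
      rcases eq_or_ne s 1 with rfl | hs1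
      · exact one_mem _
      obtain ⟨n, hn', e⟩ := transitive_omega h hmS hm2 hs (orderOf_eq_prime (haut.sq s hs) hs1)
      exact e ▸ (mem_normalizer_iff.1 (hMLg (hNM hn')) _).1 hmL
    refine hn (hle'.trans (sup_le (fun o ho => centralizer_le_normalizer _
      (mem_centralizer_iff.2 fun s hs => ?_)) le_rfl))
    have h3 : s * o * s⁻¹ * o⁻¹ ∈ O1 ⊓ Lg := by
      refine mem_inf.2 ⟨mul_mem ((mem_normalizer_iff.1 (hMO1 (h.le hs)) o).1 ho) (inv_mem ho), ?_⟩
      have h4 := (mem_normalizer_iff.1 (hMLg (hO1M ho)) s⁻¹).1 (inv_mem (hSL hs))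
      simpa [mul_assoc] using mul_mem (hSL hs) h4
    rw [H35.inf_eq_bot_of_coprime (H72.pCoreOf_isPGroup p M)
      (by rw [hLg, card_map_of_injective M.subtype_injective]; exact H19.pPrimeCore_coprime p),
      mem_bot, mul_inv_eq_one, mul_inv_eq_iff_eq_mul] at h3
    exact h3
  -- `Z(J(P))`
  obtain ⟨P⟩ : Nonempty (Sylow p M) := inferInstance
  set π := QuotientGroup.mk' L with hπdef
  have hπ : Function.Surjective π := QuotientGroup.mk'_surjective L
  haveI : Group.IsSolvable (M ⧸ L) := Group.isSolvable_of_surjective hπ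
  have hcq : centralizer (Cfsg.pCore p (M ⧸ L) : Set (M ⧸ L)) ≤ Cfsg.pCore p (M ⧸ L) :=
    H19.centralizer_pCore_le (H19.pPrimeCore_quotient_pPrimeCore p)
  have hstq : ∀ (V : Subgroup (M ⧸ L)) [V.Normal], IsPGroup p V → Cfsg.IsPStableOn p V :=
    fun V _ hV => sectStable_of_pHyp hp5 (pHyp_of_surjective (pHyp_subgroup h.hyp M) π hπ) _
      H61.sect_refl V hV
  have hkerc : (Nat.card π.ker).Coprime p := by
    rw [hπdef, QuotientGroup.ker_mk']; exact H19.pPrimeCore_coprime p
  have hinj : Set.InjOn π (P : Subgroup M) := by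
    intro x hx y hy e
    have h1 : x⁻¹ * y ∈ (P : Subgroup M) ⊓ π.ker :=
      mem_inf.2 ⟨mul_mem (inv_mem hx) hy, by rw [MonoidHom.mem_ker, map_mul, map_inv, e, inv_mul_cancel]⟩
    rw [H35.inf_eq_bot_of_coprime P.2 hkerc, mem_bot, inv_mul_eq_one] at h1
    exact h1
  set Z := Cfsg.centerThompsonAOf (P : Subgroup M) with hZ
  have hZmap : Z.map π = Cfsg.centerThompsonAOf ((P.mapSurjective hπ : Sylow p (M ⧸ L)) : Subgroup (M ⧸ L)) := by
    rw [hZ, H35.map_centerThompsonAOf π _ hinj]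
    rfl
  haveI : (Z.map π).Normal := by
    rw [hZmap]
    haveI := H35.centerThompsonAOf_characteristic (by omega : p ≠ 2) hcq hstq (P.mapSurjective hπ)
    infer_instance
  have hNtop : normalizer (Z : Set M) ⊔ L = ⊤ := by
    have h1 := H35.map_normalizer_eq π hπ hkerc (P.2.to_le (H35.centerThompsonAOf_le _) : IsPGroup p Z)
    rw [normalizer_eq_top_iff.2 (inferInstance : (Z.map π).Normal)] at h1
    have h2 := comap_map_eq π (normalizer (Z : Set M))
    rwa [h1, comap_top, hπdef, QuotientGroup.ker_mk', eq_comm] at h2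
  set Pg := (P : Subgroup M).map M.subtype with hPg
  set Zg := Cfsg.centerThompsonAOf Pg with hZg
  have hZgZ : Zg = Z.map M.subtype :=
    (H35.map_centerThompsonAOf M.subtype _ M.subtype_injective.injOn).symm
  have hPgp : IsPGroup p Pg := P.2.map _
  have hPgne : Pg ≠ ⊥ := by
    intro e
    refine hn (hle'.trans (sup_le ?_ le_rfl))
    have h1 : O1 ≤ Pg := Subgroup.map_mono (H19.pCore_le_sylow P)
    rw [e] at h1
    exact h1.trans bot_le
  set X := normalizer (Zg : Set G) with hX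
  have hXtop : X ≠ ⊤ := normalizer_ne_top hm (H35.centerThompsonAOf_ne_bot hPgp hPgne) fun e =>
    h.ne_top (top_le_iff.1 (e ▸ (H35.centerThompsonAOf_le Pg).trans (map_subtype_le _)))
  have hXM : X ≤ M := by
    set Ng := (normalizer (Z : Set M)).map M.subtype with hNg
    have hNgX : Ng ≤ X := by
      rw [hX, hZgZ]
      exact le_normalizer_map _
    obtain ⟨T, hT, -⟩ := H23.exists_isSylowIn_ge (p := 2) (bot_le : (⊥ : Subgroup G) ≤ Ng) IsPGroup.of_bot
    obtain ⟨m, hmM, hcle⟩ := H61.exists_cj_le (H61.sylowIn_of_le S h.le)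
      (hT.1.trans (map_subtype_le _)) hT.2.1
    have hcard : Nat.card (S : Subgroup G) ≤ Nat.card T := by
      obtain ⟨j, hj⟩ := S.2.exists_card_eq
      have h1 : Nat.card M ∣ Nat.card L * Nat.card (normalizer (Z : Set M)) := by
        have := H19.card_sup_dvd L (normalizer (Z : Set M))
        rwa [sup_comm, hNtop, card_top] at this
      have h2 : Nat.card (normalizer (Z : Set M)) = Nat.card T * T.relIndex Ng := by
        rw [← card_map_of_injective M.subtype_injective, ← hNg, ← relIndex_bot_left, ← relIndex_bot_left,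
          relIndex_mul_relIndex _ _ _ bot_le hT.1]
      rw [h2] at h1
      have h3 := (card_dvd_of_le h.le).trans h1
      rw [hj] at h3 ⊢
      exact Nat.le_of_dvd Nat.card_pos
        (((Nat.prime_two.coprime_iff_not_dvd.2 hT.2.2).pow_left j).dvd_of_dvd_mul_right
          (((Nat.prime_two.coprime_iff_not_dvd.2 hLodd).pow_left j).dvd_of_dvd_mul_left h3))
    have heq : cj m T = (S : Subgroup G) := eq_of_le_of_card_ge hcle (by rwa [H61.card_cj])
    have h4 : (S : Subgroup G) ≤ cj m X := heq ▸ H61.cj_mono m (hT.1.trans hNgX)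
    have h5 := h.uniq (cj m X) (fun e => hXtop
      (map_injective (f := (MulAut.conj m).toMonoidHom) (MulAut.conj m).injective
        (e.trans (map_top_of_surjective _ (MulAut.conj m).surjective).symm))) h4
    intro x hx
    have h6 : m * x * m⁻¹ ∈ M := h5 (H61.conj_mem_cj hx)
    simpa [mul_assoc] using mul_mem (mul_mem (inv_mem hmM) h6) hmM
  have hNPM : normalizer (Pg : Set G) ≤ M :=
    (H35.normalizer_le_normalizer_centerThompsonAOf Pg).trans hXM
  obtain ⟨Ps, hPs⟩ := hPgp.exists_le_sylow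
  have hPeq : (Ps : Subgroup G) = Pg := by
    by_contra hne
    have h1 := H61.card_lt_inf_normalizer Ps.2 (lt_of_le_of_ne hPs (Ne.symm hne))
    set R := (Ps : Subgroup G) ⊓ normalizer (Pg : Set G) with hR
    have hRM : R ≤ M := inf_le_right.trans hNPM
    have h2 : R.subgroupOf M = (P : Subgroup M) :=
      P.is_maximal' ((Ps.2.to_le inf_le_left).comap_of_injective _ M.subtype_injective)
        fun x hx => ⟨hPs ⟨x, hx, rfl⟩, le_normalizer (H := Pg) ⟨x, hx, rfl⟩⟩
    have h3 : Nat.card R = Nat.card Pg := by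
      rw [← Nat.card_congr (subgroupOfEquivOfLe hRM).toEquiv, h2, hPg,
        card_map_of_injective M.subtype_injective]
    omega
  have hidx : Nat.Coprime p M.index := by
    refine (Fact.out : p.Prime).coprime_iff_not_dvd.2 fun hd => Ps.not_dvd_index (hd.trans ?_)
    exact index_dvd_of_le (hPeq ▸ map_subtype_le _)
  have hctrl := acts_zj (by omega : p ≠ 2) (sectStable_of_pHyp hp5 h.hyp) Ps
  have hfus : ∀ g ∈ M, (∃ k : ℕ, orderOf g = p ^ k) → ∀ a : G, a * g * a⁻¹ ∈ M →
      ∃ h ∈ M, h * g * h⁻¹ = a * g * a⁻¹ := by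
    intro g hg ⟨k, hk⟩ a ha
    have hPM : (Ps : Subgroup G) ≤ M := hPeq ▸ map_subtype_le _
    have hsyl := H61.sylowIn_of_le Ps hPM
    have hord : orderOf (a * g * a⁻¹) = p ^ k := by rw [H50.orderOf_conj, hk]
    obtain ⟨m, hmM, hmle⟩ := H61.exists_cj_le hsyl (zpowers_le.2 hg)
      (IsPGroup.of_card (n := k) (by rw [Nat.card_zpowers, hk]))
    obtain ⟨n, hnM, hnle⟩ := H61.exists_cj_le hsyl (zpowers_le.2 ha)
      (IsPGroup.of_card (n := k) (by rw [Nat.card_zpowers, hord]))
    have hx : m * g * m⁻¹ ∈ (Ps : Subgroup G) := hmle (H61.conj_mem_cj (mem_zpowers g))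
    have hy : n * (a * g * a⁻¹) * n⁻¹ ∈ (Ps : Subgroup G) := hnle (H61.conj_mem_cj (mem_zpowers _))
    have e : n * a * m⁻¹ * (m * g * m⁻¹) * (n * a * m⁻¹)⁻¹ = n * (a * g * a⁻¹) * n⁻¹ := by group
    obtain ⟨h', hh', c, hc, he⟩ := hctrl (zpowers (m * g * m⁻¹)) (zpowers_le.2 hx) (n * a * m⁻¹) (by
      show (zpowers (m * g * m⁻¹)).map (MulAut.conj (n * a * m⁻¹)).toMonoidHom ≤ _
      rw [MonoidHom.map_zpowers, zpowers_le]
      show n * a * m⁻¹ * (m * g * m⁻¹) * (n * a * m⁻¹)⁻¹ ∈ (Ps : Subgroup G)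
      rw [e]; exact hy)
    rw [hPeq, ← hZg] at hh'
    have hcx := mem_centralizer_iff.1 hc _ (mem_zpowers (m * g * m⁻¹))
    refine ⟨n⁻¹ * h' * m, mul_mem (mul_mem (inv_mem hnM) (hXM hh')) hmM, ?_⟩
    rw [he] at e
    calc n⁻¹ * h' * m * g * (n⁻¹ * h' * m)⁻¹
        = n⁻¹ * (h' * ((m * g * m⁻¹) * c) * c⁻¹ * h'⁻¹) * n := by group
      _ = n⁻¹ * (h' * (c * (m * g * m⁻¹)) * c⁻¹ * h'⁻¹) * n := by rw [hcx]
      _ = n⁻¹ * (h' * c * (m * g * m⁻¹) * (h' * c)⁻¹) * n := by group
      _ = n⁻¹ * (n * (a * g * a⁻¹) * n⁻¹) * n := by rw [e]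
      _ = a * g * a⁻¹ := by group
  obtain ⟨Φ, hΦ⟩ := H50.exists_extension_of_controls hidx hfus
    (A := Multiplicative (ZMod p)) (IsPGroup.of_card (n := 1) (by rw [hcardZ, pow_one])) φ
  haveI := h.simple
  rcases (inferInstance : Φ.ker.Normal).eq_bot_or_eq_top with h1 | h1
  · have hinjΦ : Function.Injective Φ := (MonoidHom.ker_eq_bot_iff Φ).1 h1
    exact not_abelian hm (H := ⊤) ⟨⟨fun a b => Subtype.ext (hinjΦ (by
      rw [Subgroup.coe_mul, Subgroup.coe_mul, map_mul, map_mul, mul_comm]))⟩⟩ rfl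
  · haveI : Fact (1 < p) := ⟨(Fact.out : p.Prime).one_lt⟩
    obtain ⟨x, hx⟩ := exists_ne (1 : Multiplicative (ZMod p))
    obtain ⟨y, rfl⟩ := hφs x
    exact hx ((hΦ y).symm.trans (MonoidHom.mem_ker.1 (h1 ▸ mem_top _)))

/-- An element of odd order inverted by an involution has `p`-power order. -/
theorem pPower_of_inverted (h : MinCtx p G) {t d : G} (ht : orderOf t = 2) (hodd : Odd (orderOf d))
    (hinv : t * d * t⁻¹ = d⁻¹) : ∃ k, orderOf d = p ^ k := by
  obtain ⟨a, b, hsplit, hk, hb⟩ := H50.exists_p_p'_split (p := p) d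
  have he : t * d ^ b * t⁻¹ = (d ^ b)⁻¹ := by rw [← conj_pow, hinv, inv_pow]
  have hle : zpowers t ≤ normalizer (zpowers (d ^ b) : Set G) := by
    rw [zpowers_le]
    refine H61.mem_normalizer_of_cj (H61.cj_eq_of_le ?_)
    show (zpowers (d ^ b)).map (MulAut.conj t).toMonoidHom ≤ _
    rw [MonoidHom.map_zpowers, zpowers_le]
    show t * d ^ b * t⁻¹ ∈ _
    rw [he]
    exact inv_mem (mem_zpowers _)
  have hcop : (Nat.card ↥(zpowers (d ^ b) ⊔ zpowers t)).Coprime p := by
    refine Nat.Coprime.coprime_dvd_left (card_sup_dvd' hle) ?_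
    rw [Nat.card_zpowers, Nat.card_zpowers, ht]
    exact Nat.Coprime.mul_left hb (by simpa using coprime_two_pow (p := p) h.five 1)
  haveI := (h.hyp _ hcop).1
  have hc := mul_comm_of_mem_isMulCommutative (zpowers (d ^ b) ⊔ zpowers t)
    (mem_sup_right (mem_zpowers t)) (mem_sup_left (mem_zpowers (d ^ b)))
  rw [hc, mul_inv_cancel_right] at he
  have h2 : orderOf (d ^ b) ∣ 2 := orderOf_dvd_of_pow_eq_one (by
    rw [pow_two]; exact eq_inv_iff_mul_eq_one.1 he)
  have h3 : Odd (orderOf (d ^ b)) := Odd.of_dvd_nat hodd (orderOf_pow_dvd b)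
  have h1 : d ^ b = 1 :=
    orderOf_eq_one_iff.1 (Nat.eq_one_of_dvd_coprimes (Nat.coprime_two_right.2 h3) dvd_rfl h2)
  rw [h1, mul_one] at hsplit
  rwa [← hsplit] at hk

/-- The counting case: `M = N(S)`. -/
theorem counting_case (h : TopCtx p S M) (hMN : M ≤ normalizer ((S : Subgroup G) : Set G)) :
    False := by
  haveI : Fact (Nat.Prime 2) := ⟨Nat.prime_two⟩
  have hm := h.toMinCtx
  have hp5 := h.five
  have haut := autFacts h
  haveI hSc := sylow_two_abelian hm S
  have hse := isStronglyEmbedded_top h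
  set C := centralizer ((S : Subgroup G) : Set G) with hCdef
  have hSC : (S : Subgroup G) ≤ C := fun s hs => mem_centralizer_iff.2 fun x hx =>
    mul_comm_of_mem_isMulCommutative (S : Subgroup G) hx hs
  obtain ⟨t, htS, ht1⟩ : ∃ t ∈ (S : Subgroup G), t ≠ 1 :=
    (bot_or_exists_ne_one _).resolve_left (sylow_two_ne_bot hm S)
  have ht2 : orderOf t = 2 := orderOf_eq_prime (haut.sq t htS) ht1
  have htinv : t⁻¹ = t := H50.inv_eq_self ht2
  have htM : t ∈ M := h.le htS
  have htC : centralizer ({t} : Set G) = C :=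
    le_antisymm (fun c hc => haut.free c (hMN (centralizer_le_top h htM ht2 hc)) t htS ht1
        (conj_eq_iff_mem_centralizer.2 hc))
      (centralizer_le (Set.singleton_subset_iff.2 htS))
  -- an involution in `M` lies in `S`
  have hInS : ∀ u ∈ M, orderOf u = 2 → u ∈ (S : Subgroup G) := by
    intro u hu hu2
    obtain ⟨m, hmM, hmS⟩ := exists_conj_mem_sylow S h.le hu hu2
    exact (mem_normalizer_iff.1 (hMN hmM) u).2 hmS
  -- nothing in `M` outside `1` is inverted by `t` and of odd order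
  have hnotM : ∀ d : G, d ≠ 1 → Odd (orderOf d) → t * d * t⁻¹ = d⁻¹ → d ∉ M := by
    intro d hd1 hodd hinv hdM
    have h1 : d ^ 2 ∈ (S : Subgroup G) := by
      have h2 : t * (d * t⁻¹ * d⁻¹) ∈ (S : Subgroup G) :=
        mul_mem htS ((mem_normalizer_iff.1 (hMN hdM) _).1 (inv_mem htS))
      have h3 : t * (d * t⁻¹ * d⁻¹) = (d ^ 2)⁻¹ := by
        rw [show t * (d * t⁻¹ * d⁻¹) = (t * d * t⁻¹) * d⁻¹ by group, hinv]
        group
      rw [h3] at h2
      exact (inv_mem_iff).1 h2
    obtain ⟨j, hj⟩ := (IsPGroup.iff_orderOf.1 S.2) ⟨_, h1⟩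
    rw [Subgroup.orderOf_mk] at hj
    have h4 : orderOf (d ^ 2) = orderOf d :=
      Nat.Coprime.orderOf_pow (Nat.coprime_two_right.2 hodd)
    rw [h4] at hj
    exact hd1 (orderOf_eq_one_iff.1 (Nat.eq_one_of_dvd_coprimes
      ((Nat.coprime_two_right.2 hodd).pow_right j) dvd_rfl (dvd_of_eq hj)))
  -- the inverted elements and their centralisers
  set Tinv : Set G := {d : G | d ≠ 1 ∧ t * d * t⁻¹ = d⁻¹ ∧ ∃ k, orderOf d = p ^ k} with hTinv
  have hoddp : ∀ d : G, (∃ k, orderOf d = p ^ k) → Odd (orderOf d) := by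
    rintro d ⟨k, hk⟩
    rw [hk]
    exact ((Fact.out : p.Prime).odd_of_ne_two (by omega)).pow
  have hcent : ∀ d ∈ Tinv, ∀ c : G, c * d = d * c → t * c * t⁻¹ = c⁻¹ ∧ (∃ k, orderOf c = p ^ k) ∧
      ∀ c' : G, c' * d = d * c' → c * c' = c' * c := by
    rintro d ⟨hd1, hdinv, hdp⟩ c hc
    set D := centralizer ({d} : Set G) with hD
    have htD : ∀ x ∈ D, t * x * t⁻¹ ∈ D := by
      intro x hx
      rw [hD, mem_centralizer_singleton_iff] at hx ⊢
      have h1 : Commute (t * x * t⁻¹) d⁻¹ := hdinv ▸ (Commute.conj_iff t).2 hx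
      exact (Commute.inv_right_iff.1 h1).eq
    let φ : D →* D := MonoidHom.mk' (fun x => ⟨t * x * t⁻¹, htD x x.2⟩) fun a b =>
      Subtype.ext (by
        show t * ((a : G) * b) * t⁻¹ = t * a * t⁻¹ * (t * b * t⁻¹)
        group)
    have hfix : ∀ x ∈ D, t * x * t⁻¹ = x → x = 1 := by
      intro x hx e
      by_contra hx1
      have hxC : x ∈ C := htC ▸ mem_centralizer_singleton_iff.2 (mul_inv_eq_iff_eq_mul.1 e).symm
      have hSx : (S : Subgroup G) ≤ centralizer ({x} : Set G) := fun s hs =>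
        mem_centralizer_singleton_iff.2 (mem_centralizer_iff.1 hxC s hs)
      exact hnotM d hd1 (hoddp d hdp) hdinv
        (h.uniq _ (centralizer_ne_top hm hx1) hSx
          (mem_centralizer_singleton_iff.2 (mem_centralizer_singleton_iff.1 hx).symm))
    have hfpf : MonoidHom.FixedPointFree φ := fun x e => Subtype.ext (hfix x x.2 (congrArg Subtype.val e))
    have hinvol : Function.Involutive φ := fun x => Subtype.ext (by
      show t * (t * (x : G) * t⁻¹) * t⁻¹ = x
      rw [htinv, show t * (t * (x : G) * t) * t = (t * t) * (x : G) * (t * t) by group,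
        H50.inv_mul_self ht2, one_mul, mul_one])
    have hall : ∀ x (hx : x ∈ D), t * x * t⁻¹ = x⁻¹ := fun x hx =>
      congrArg Subtype.val (congrFun (hfpf.coe_eq_inv_of_involutive hinvol) ⟨x, hx⟩)
    have hcD : c ∈ D := mem_centralizer_singleton_iff.2 hc
    refine ⟨hall c hcD, ?_, fun c' hc' => congrArg Subtype.val
      (hfpf.commute_all_of_involutive hinvol ⟨c, hcD⟩ ⟨c', mem_centralizer_singleton_iff.2 hc'⟩)⟩
    refine pPower_of_inverted hm ht2 ?_ (hall c hcD)
    rcases Nat.even_or_odd (orderOf c) with hev | hod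
    · exfalso
      obtain ⟨j, hj⟩ := even_iff_two_dvd.1 hev
      have hpos := orderOf_pos c
      have hz : orderOf (c ^ j) = 2 := by
        rw [orderOf_pow_of_dvd (by omega) ⟨2, by rw [hj, mul_comm]⟩, hj,
          Nat.mul_div_cancel _ (by omega)]
      have hzD : c ^ j ∈ D := pow_mem hcD j
      have := hfix _ hzD (by rw [hall _ hzD, H50.inv_eq_self hz])
      rw [this, orderOf_one] at hz
      norm_num at hz
    · exact hod
  -- the inverted Sylow subgroups
  set SP : Set (Sylow p G) := {P | ∀ x ∈ (P : Subgroup G), t * x * t⁻¹ = x⁻¹} with hSP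
  have hsyl : ∀ d ∈ Tinv, ∃ P : Sylow p G, P ∈ SP ∧
      (P : Subgroup G) = centralizer ({d} : Set G) ∧ d ∈ (P : Subgroup G) := by
    intro d hd
    have hDp : IsPGroup p (centralizer ({d} : Set G)) := by
      refine IsPGroup.iff_orderOf.2 fun x => ?_
      obtain ⟨-, ⟨k, hk⟩, -⟩ := hcent d hd x (mem_centralizer_singleton_iff.1 x.2)
      exact ⟨k, by rw [← Subgroup.orderOf_coe, hk]⟩
    have hdD : d ∈ centralizer ({d} : Set G) := mem_centralizer_singleton_iff.2 rfl
    obtain ⟨P, hP⟩ := hDp.exists_le_sylow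
    have hPne : Nontrivial (P : Subgroup G) :=
      ⟨⟨⟨d, hP hdD⟩, 1, fun e => hd.1 (congrArg Subtype.val e)⟩⟩
    have hzc := P.2.center_nontrivial
    obtain ⟨z, hz⟩ := exists_ne (1 : center (P : Subgroup G))
    have hzG : ∀ x ∈ (P : Subgroup G), ((z : (P : Subgroup G)) : G) * x = x * (z : (P : Subgroup G)) :=
      fun x hx => (congrArg Subtype.val (mem_center_iff.1 z.2 ⟨x, hx⟩)).symm
    obtain ⟨hzinv, hzp, -⟩ := hcent d hd _ (hzG d (hP hdD))
    have hzT : ((z : (P : Subgroup G)) : G) ∈ Tinv :=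
      ⟨fun e => hz (Subtype.ext (Subtype.ext e)), hzinv, hzp⟩
    have hPz : ∀ x ∈ (P : Subgroup G), x * ((z : (P : Subgroup G)) : G) = (z : (P : Subgroup G)) * x :=
      fun x hx => (hzG x hx).symm
    refine ⟨P, fun x hx => (hcent _ hzT x (hPz x hx)).1, le_antisymm (fun x hx => ?_) hP, hP hdD⟩
    exact mem_centralizer_singleton_iff.2 ((hcent _ hzT x (hPz x hx)).2.2 d (hPz d (hP hdD)))
  have hmemT : ∀ P ∈ SP, ∀ x ∈ (P : Subgroup G), x ≠ 1 → x ∈ Tinv := by
    intro P hP x hx hx1
    obtain ⟨k, hk⟩ := (IsPGroup.iff_orderOf.1 P.2) ⟨x, hx⟩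
    exact ⟨hx1, hP x hx, k, by rwa [Subgroup.orderOf_mk] at hk⟩
  have hPcent : ∀ P ∈ SP, ∀ x ∈ (P : Subgroup G), x ≠ 1 →
      (P : Subgroup G) = centralizer ({x} : Set G) := by
    intro P hP x hx hx1
    obtain ⟨P', -, hP', -⟩ := hsyl x (hmemT P hP x hx hx1)
    have hle : (P : Subgroup G) ≤ centralizer ({x} : Set G) := fun y hy => by
      rw [mem_centralizer_singleton_iff]
      exact inv_injective (by rw [mul_inv_rev, mul_inv_rev, ← hP y hy, ← hP x hx]
                              have e := hP (x * y) (mul_mem hx hy)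
                              rw [show t * x * t⁻¹ * (t * y * t⁻¹) = t * (x * y) * t⁻¹ by group, e,
                                mul_inv_rev, hP y hy, hP x hx])
    have hp' : IsPGroup p (centralizer ({x} : Set G)) := hP' ▸ P'.2
    exact (P.is_maximal' hp' hle).symm
  -- counting
  have hidx : C.index = M.index * p := by
    have h1 := relIndex_mul_index (show C ≤ M from (centralizer_le_normalizer _).trans h.normalizer_le)
    rw [← h1, show M = normalizer ((S : Subgroup G) : Set G) from le_antisymm hMN h.normalizer_le,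
      haut.index, mul_comm]
  set All : Set G := {u : G | orderOf u = 2} with hAll
  have hncardAll : All.ncard = C.index := by
    rw [← htC, ← Nat.card_coe_set_eq, index]
    refine (Nat.card_eq_of_bijective (fun q : G ⧸ centralizer ({t} : Set G) =>
      (Quotient.liftOn' q (fun g => (⟨g * t * g⁻¹, by rw [hAll, Set.mem_setOf_eq, H50.orderOf_conj, ht2]⟩ : All))
        fun a b hab => ?_)) ⟨?_, ?_⟩).symm
    · rw [QuotientGroup.leftRel_apply, mem_centralizer_singleton_iff] at hab
      refine Subtype.ext ?_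
      show a * t * a⁻¹ = b * t * b⁻¹
      calc a * t * a⁻¹ = a * (t * (a⁻¹ * b)) * b⁻¹ := by group
        _ = a * (a⁻¹ * b * t) * b⁻¹ := by rw [hab]
        _ = b * t * b⁻¹ := by group
    · intro q q' e
      induction q using Quotient.inductionOn' with | h a => ?_
      induction q' using Quotient.inductionOn' with | h b => ?_
      have e' : a * t * a⁻¹ = b * t * b⁻¹ := congrArg Subtype.val e
      refine QuotientGroup.eq.2 (mem_centralizer_singleton_iff.2 ?_)
      calc a⁻¹ * b * t = a⁻¹ * (b * t * b⁻¹) * b := by group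
        _ = a⁻¹ * (a * t * a⁻¹) * b := by rw [e']
        _ = t * (a⁻¹ * b) := by group
    · rintro ⟨u, hu⟩
      obtain ⟨g, hg⟩ := isConj_iff.1 (H50.se_isConj hse ht2 hu)
      exact ⟨Quotient.mk'' g, Subtype.ext hg⟩
  have hIn : All ∩ (M : Set G) = ((S : Subgroup G) : Set G) \ {1} := by
    ext u
    constructor
    · rintro ⟨hu, huM⟩
      refine ⟨hInS u huM hu, fun e => ?_⟩
      rw [hAll, Set.mem_setOf_eq, Set.mem_singleton_iff.1 e, orderOf_one] at hu
      norm_num at hu
    · rintro ⟨hu, hu1⟩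
      exact ⟨orderOf_eq_prime (haut.sq u hu) hu1, h.le hu⟩
  have hOut : All \ (M : Set G) = (fun d => t * d) '' Tinv := by
    ext u
    constructor
    · rintro ⟨hu, huM⟩
      have hu2 : orderOf u = 2 := hu
      have hodd := H50.se_odd hse ht2 hu2 (x := ((1 : G) : G ⧸ M))
        (H50.smul_one_coset_eq_iff.2 htM) fun e => huM (H50.smul_one_coset_eq_iff.1 e)
      have hne : t * u ≠ 1 := fun e => huM (by
        rw [← inv_eq_of_mul_eq_one_right e]; exact inv_mem htM)
      have hinv : t * (t * u) * t⁻¹ = (t * u)⁻¹ := by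
        rw [mul_inv_rev, H50.inv_eq_self hu2, htinv, ← mul_assoc t t u, H50.inv_mul_self ht2, one_mul]
      refine ⟨t * u, ⟨hne, hinv, pPower_of_inverted hm ht2 hodd hinv⟩, ?_⟩
      show t * (t * u) = u
      rw [← mul_assoc, H50.inv_mul_self ht2, one_mul]
    · rintro ⟨d, ⟨hd1, hdinv, hdp⟩, rfl⟩
      have hdM := hnotM d hd1 (hoddp d hdp) hdinv
      have hnM : t * d ∉ M := fun hm' => hdM (by simpa using mul_mem (inv_mem htM) hm')
      refine ⟨?_, hnM⟩
      show orderOf (t * d) = 2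
      refine orderOf_eq_prime ?_ fun e => hnM (e ▸ one_mem M)
      rw [pow_two]
      calc t * d * (t * d) = (t * d * t⁻¹) * (t * t) * d := by group
        _ = 1 := by rw [H50.inv_mul_self ht2, mul_one, hdinv, inv_mul_cancel]
  have hcardT : Tinv.ncard = C.index - p := by
    have h1 : (All \ (M : Set G)).ncard = All.ncard - (All ∩ (M : Set G)).ncard := by
      rw [← Set.ncard_diff Set.inter_subset_left, Set.diff_self_inter]
    rw [hOut, Set.ncard_image_of_injective _ (mul_right_injective t), hncardAll, hIn,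
      Set.ncard_diff_singleton_of_mem (one_mem (S : Subgroup G))] at h1
    rw [h1, ← Nat.card_coe_set_eq]
    show C.index - (Nat.card (S : Subgroup G) - 1) = _
    rw [haut.card, Nat.add_sub_cancel]
  have hM2 : 2 ≤ M.index := one_lt_index_of_ne_top h.ne_top
  obtain ⟨d0, hd0⟩ : Tinv.Nonempty := by
    refine Set.nonempty_of_ncard_ne_zero ?_
    rw [hcardT, hidx]
    have : 2 * p ≤ M.index * p := Nat.mul_le_mul_right p hM2
    omega
  obtain ⟨P0, hP0, hP0c, hd0P⟩ := hsyl d0 hd0
  -- `C(t)` has order prime to `p`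
  have hCp : ¬ p ∣ Nat.card C := by
    intro hd
    obtain ⟨e, he⟩ := exists_prime_orderOf_dvd_card' p hd
    have hep : IsPGroup p (zpowers (e : G)) :=
      IsPGroup.of_card (n := 1) (by rw [Nat.card_zpowers, Subgroup.orderOf_coe, he, pow_one])
    obtain ⟨Q, hQ⟩ := hep.exists_le_sylow
    obtain ⟨g, hg⟩ := MulAction.exists_smul_eq G Q P0
    have hd' : g * e * g⁻¹ ∈ (P0 : Subgroup G) := by
      rw [← hg, H22.mem_smul_sylow]
      have := hQ (mem_zpowers (e : G))
      simpa [mul_assoc] using this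
    have hne : g * (e : G) * g⁻¹ ≠ 1 := fun e' => by
      rw [conj_eq_one_iff, OneMemClass.coe_eq_one] at e'
      rw [e', orderOf_one] at he
      exact (Fact.out : p.Prime).ne_one he.symm
    have h1 := hPcent P0 hP0 _ hd' hne
    have hte : t * (e : G) = e * t := mem_centralizer_iff.1 e.2 t htS
    have ht' : g * t * g⁻¹ ∈ (P0 : Subgroup G) := by
      rw [h1, mem_centralizer_singleton_iff]
      calc g * t * g⁻¹ * (g * e * g⁻¹) = g * (t * e) * g⁻¹ := by group
        _ = g * (e * t) * g⁻¹ := by rw [hte]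
        _ = g * e * g⁻¹ * (g * t * g⁻¹) := by group
    obtain ⟨k, hk⟩ := (IsPGroup.iff_orderOf.1 P0.2) ⟨_, ht'⟩
    rw [Subgroup.orderOf_mk, H50.orderOf_conj, ht2] at hk
    have h2 : Odd 2 := hk.symm ▸ ((Fact.out : p.Prime).odd_of_ne_two (by omega)).pow
    exact absurd h2 (by decide)
  -- `C(t)` permutes the inverted Sylow subgroups transitively
  have horb : SP = MulAction.orbit C P0 := by
    ext P
    constructor
    · intro hP
      obtain ⟨g, hg⟩ := MulAction.exists_smul_eq G P0 P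
      set t' := g * t * g⁻¹ with ht'
      have hmem : ∀ x ∈ (P : Subgroup G), g⁻¹ * x * g ∈ (P0 : Subgroup G) := fun x hx => by
        rw [← hg, H22.mem_smul_sylow] at hx
        exact hx
      have hinv' : ∀ x ∈ (P : Subgroup G), t' * x * t'⁻¹ = x⁻¹ := by
        intro x hx
        calc t' * x * t'⁻¹ = g * (t * (g⁻¹ * x * g) * t⁻¹) * g⁻¹ := by rw [ht']; group
          _ = g * (g⁻¹ * x * g)⁻¹ * g⁻¹ := by rw [hP0 _ (hmem x hx)]
          _ = x⁻¹ := by group
      obtain ⟨x, hx, hx1⟩ : ∃ x ∈ (P : Subgroup G), x ≠ 1 :=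
        ⟨g * d0 * g⁻¹, by rw [← hg, H22.mem_smul_sylow]; simpa [mul_assoc] using hd0P,
          fun e => hd0.1 (conj_eq_one_iff.1 e)⟩
      have hπ : t' * t ∈ (P : Subgroup G) := by
        rw [hPcent P hP x hx hx1, ← conj_eq_iff_mem_centralizer]
        calc t' * t * x * (t' * t)⁻¹ = t' * (t * x * t⁻¹) * t'⁻¹ := by group
          _ = (t' * x * t'⁻¹)⁻¹ := by rw [hP x hx]; group
          _ = x := by rw [hinv' x hx, inv_inv]
      set π := t' * t with hπdef
      have hπodd : Odd (orderOf π) := by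
        obtain ⟨k, hk⟩ := (IsPGroup.iff_orderOf.1 P.2) ⟨π, hπ⟩
        exact hoddp π ⟨k, by rwa [Subgroup.orderOf_mk] at hk⟩
      obtain ⟨j, hj⟩ := hπodd
      set σ := π ^ (j + 1) with hσ
      have hσP : σ ∈ (P : Subgroup G) := pow_mem hπ _
      have hσ2 : σ * σ = π := by
        rw [hσ, ← pow_add, show j + 1 + (j + 1) = orderOf π + 1 by omega, pow_succ, pow_orderOf_eq_one,
          one_mul]
      have hσt : σ * t * σ⁻¹ = t' := by
        calc σ * t * σ⁻¹ = σ * (t * σ⁻¹ * t⁻¹) * t := by group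
          _ = σ * (t * σ * t⁻¹)⁻¹ * t := by group
          _ = σ * σ * t := by rw [hP σ hσP, inv_inv]
          _ = t' := by rw [hσ2, hπdef, mul_assoc, H50.inv_mul_self ht2, mul_one]
      have hc : σ⁻¹ * g ∈ C := by
        rw [← htC, ← conj_eq_iff_mem_centralizer]
        calc σ⁻¹ * g * t * (σ⁻¹ * g)⁻¹ = σ⁻¹ * t' * σ := by rw [ht']; group
          _ = σ⁻¹ * (σ * t * σ⁻¹) * σ := by rw [hσt]
          _ = t := by group
      refine ⟨⟨σ⁻¹ * g, hc⟩, ?_⟩
      show (σ⁻¹ * g) • P0 = P
      rw [mul_smul, hg]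
      exact Sylow.smul_eq_iff_mem_normalizer.2 (le_normalizer (inv_mem hσP))
    · rintro ⟨⟨c, hc⟩, rfl⟩ x hx
      change x ∈ ((c • P0 : Sylow p G) : Subgroup G) at hx
      rw [H22.mem_smul_sylow] at hx
      have hct : c * t = t * c := (mem_centralizer_iff.1 hc t htS).symm
      calc t * x * t⁻¹ = (t * c) * (c⁻¹ * x * c) * (t * c)⁻¹ := by group
        _ = (c * t) * (c⁻¹ * x * c) * (c * t)⁻¹ := by rw [hct]
        _ = c * (t * (c⁻¹ * x * c) * t⁻¹) * c⁻¹ := by group
        _ = c * (c⁻¹ * x * c)⁻¹ * c⁻¹ := by rw [hP0 _ hx]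
        _ = x⁻¹ := by group
  have hSPcard : ¬ p ∣ Nat.card SP := by
    intro hd
    refine hCp (hd.trans ?_)
    rw [horb, Nat.card_coe_set_eq, ← MulAction.index_stabilizer]
    exact index_dvd_card _
  obtain ⟨e, he⟩ := P0.2.exists_card_eq
  have he0 : e ≠ 0 := by
    rintro rfl
    rw [pow_zero, card_eq_one] at he
    exact hd0.1 (mem_bot.1 (he ▸ hd0P))
  have hPcard : ∀ P : Sylow p G, Nat.card {x : ↥(P : Subgroup G) // x ≠ 1} = p ^ e - 1 := by
    intro P
    have h1 : Nat.card (P : Subgroup G) = p ^ e := by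
      rw [← he, P.card_eq_multiplicity, P0.card_eq_multiplicity]
    rw [← h1, show Nat.card {x : ↥(P : Subgroup G) // x ≠ 1} = ({1}ᶜ : Set ↥(P : Subgroup G)).ncard from rfl,
      Set.ncard_compl, Set.ncard_singleton]
  have hsum : Tinv.ncard = Nat.card SP * (p ^ e - 1) := by
    rw [← Nat.card_coe_set_eq]
    haveI := Fintype.ofFinite SP
    have hbij : Function.Bijective (fun q : (P : SP) × {x : ↥((P : Sylow p G) : Subgroup G) // x ≠ 1} =>
        (⟨q.2.1.1, hmemT q.1.1 q.1.2 q.2.1.1 q.2.1.2 (fun e => q.2.2 (Subtype.ext e))⟩ : Tinv)) := by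
      refine ⟨?_, fun d => ?_⟩
      · rintro ⟨⟨P, hP⟩, ⟨⟨x, hx⟩, hx1⟩⟩ ⟨⟨P', hP'⟩, ⟨⟨x', hx'⟩, hx1'⟩⟩ e
        have e' : x = x' := congrArg Subtype.val e
        subst e'
        have hPP : P = P' := Sylow.ext ((hPcent P hP x hx fun e => hx1 (Subtype.ext e)).trans
          (hPcent P' hP' x hx' fun e => hx1 (Subtype.ext e)).symm)
        subst hPP
        rfl
      · obtain ⟨P, hP, -, hdP⟩ := hsyl d d.2
        exact ⟨⟨⟨P, hP⟩, ⟨⟨d, hdP⟩, fun e => d.2.1 (congrArg Subtype.val e)⟩⟩, rfl⟩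
    rw [← Nat.card_eq_of_bijective _ hbij, Nat.card_sigma,
      Finset.sum_congr rfl (fun P _ => hPcard P.1), Finset.sum_const, Finset.card_univ,
      ← Nat.card_eq_fintype_card, smul_eq_mul]
  have hdiv : p ∣ Tinv.ncard := by
    rw [hcardT, hidx]
    exact Nat.dvd_sub (dvd_mul_left p _) dvd_rfl
  rw [hsum] at hdiv
  rcases (Fact.out : p.Prime).dvd_mul.1 hdiv with h1 | h1
  · exact hSPcard h1
  · have h2 : p ∣ p ^ e := dvd_pow_self p he0
    have h3 : p ∣ p ^ e - (p ^ e - 1) := Nat.dvd_sub h2 h1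
    rw [Nat.sub_sub_self (Nat.one_le_pow _ _ (Fact.out : p.Prime).pos)] at h3
    exact (Fact.out : p.Prime).ne_one (Nat.dvd_one.1 h3)

omit [Fact p.Prime] in
/-- A group is solvable if all its subgroups of order prime to a prime `p` are abelian of exponent
dividing `p - 1`, provided groups of odd order are solvable. -/
theorem isSolvable_of_pHyp [Fact p.Prime]
    (hodd : ∀ (H : Type u) [Group H] [Finite H], Odd (Nat.card H) → Group.IsSolvable H)
    (hG : PHyp p G) : Group.IsSolvable G := by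
  have hpr : p.Prime := Fact.out
  rcases lt_or_ge p 5 with hlt | hp5
  · have hp23 : p = 2 ∨ p = 3 := by
      rcases p with _ | _ | _ | _ | _ | p
      · exact absurd hpr Nat.not_prime_zero
      · exact absurd hpr Nat.not_prime_one
      · exact Or.inl rfl
      · exact Or.inr rfl
      · exact absurd hpr (by norm_num)
      · omega
    have hq : ∀ q : ℕ, q.Prime → q ∣ Nat.card G → q = 2 ∨ q = p := by
      intro q hq hd
      by_cases hqp : q = p
      · exact Or.inr hqp
      haveI := Fact.mk hq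
      obtain ⟨x, hx⟩ := exists_prime_orderOf_dvd_card' q hd
      have h1 := (hG (zpowers x) (by rw [Nat.card_zpowers, hx]; exact (Nat.coprime_primes hq hpr).2 hqp)).2
        x (mem_zpowers x)
      have h2 : q ∣ p - 1 := hx ▸ orderOf_dvd_of_pow_eq_one h1
      left
      rcases hp23 with rfl | rfl
      · exact absurd (Nat.dvd_one.1 (by simpa using h2)) hq.ne_one
      · exact (Nat.prime_dvd_prime_iff_eq hq Nat.prime_two).1 (by simpa using h2)
    obtain ⟨a, m, hm, hn⟩ := Nat.exists_eq_pow_mul_and_not_dvd (Nat.card_pos (α := G)).ne' 2 (by norm_num)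
    have hm0 : m ≠ 0 := fun e => hm (e ▸ dvd_zero 2)
    obtain ⟨b, r, hr, hm'⟩ := Nat.exists_eq_pow_mul_and_not_dvd hm0 p hpr.ne_one
    have hr1 : r = 1 := by
      by_contra hr1
      obtain ⟨q, hq', hqr⟩ := Nat.exists_prime_and_dvd hr1
      have hqm : q ∣ m := hm' ▸ dvd_mul_of_dvd_right hqr _
      rcases hq q hq' (hn ▸ dvd_mul_of_dvd_right hqm _) with rfl | rfl
      · exact hm hqm
      · exact hr hqr
    exact H25.isSolvable_of_card_eq_mul_pow Nat.prime_two hpr
      (by rw [hn, hm', hr1, mul_one] : Nat.card G = 2 ^ a * p ^ b)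
  suffices key : ∀ (n : ℕ) (X : Type u) [Group X] [Finite X], Nat.card X = n → PHyp p X →
      Group.IsSolvable X from key _ G rfl hG
  intro n
  induction n using Nat.strong_induction_on with
  | _ n ih =>
  intro X _ _ hcard hX
  subst hcard
  by_contra hns
  have hsub : ∀ H : Subgroup X, H ≠ ⊤ → Group.IsSolvable H := fun H hH =>
    ih _ (H61.card_lt_of_lt (lt_top_iff_ne_top.2 hH) |>.trans_eq card_top) H rfl (pHyp_subgroup hX H)
  have hnt : Nontrivial X := by
    by_contra hnt
    rw [not_nontrivial_iff_subsingleton] at hnt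
    exact hns inferInstance
  have hsimple : IsSimpleGroup X := by
    refine ⟨fun N hN => ?_⟩
    by_contra hN'
    rw [not_or] at hN'
    haveI := hN
    haveI : Group.IsSolvable N := hsub N hN'.2
    haveI : Group.IsSolvable (X ⧸ N) := by
      refine ih _ ?_ _ rfl (pHyp_of_surjective hX _ (QuotientGroup.mk'_surjective N))
      have h1 := N.card_mul_index
      have h2 : 2 ≤ Nat.card N := one_lt_card_iff_ne_bot _ |>.2 hN'.1
      have h3 : 0 < N.index := Nat.pos_of_ne_zero index_ne_zero_of_finite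
      show N.index < _
      nlinarith
    exact hns (Group.isSolvable_of_ker_le_range N.subtype (QuotientGroup.mk' N) (by simp))
  rcases Nat.even_or_odd (Nat.card X) with hev | hod
  · haveI : Fact (Nat.Prime 2) := ⟨Nat.prime_two⟩
    obtain ⟨S⟩ : Nonempty (Sylow 2 X) := inferInstance
    have hm : MinCtx p X := ⟨hp5, hX, hsimple, hns, hsub, even_iff_two_dvd.1 hev⟩
    obtain ⟨M, hM, hNM, huniq⟩ := exists_unique_over hm S
    have ht : TopCtx p S M := { hm with ne_top := hM, normalizer_le := hNM, uniq := huniq }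
    by_cases hMN : M ≤ normalizer ((S : Subgroup X) : Set X)
    · exact counting_case ht hMN
    · exact transfer_case ht hMN
  · exact hns (hodd X hod)

end Cfsg.Agent.H60.PP
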