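import Cfsg.Agent.H19.Fitting
import Cfsg.Agent.H20.SchurZassenhaus
import Cfsg.Agent.H60.QdInvolves
import Cfsg.Agent.H60.AutomiserFree

/-!
Groups in which every subgroup of order prime to `p` is abelian of exponent dividing `p - 1`:
inheritance and the structure of the solvable ones.
-/

set_option autoImplicit false

namespace Cfsg.Agent.H60.PP

open Subgroup
open Cfsg.Agent.H61 (cj Sect)
open Cfsg.Agent.H23 (IsSylowIn)
open scoped Pointwise

universe u v

/-- Every subgroup of order prime to `p` is abelian of exponent dividing `p - 1`. -/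
def PHyp (p : ℕ) (G : Type u) [Group G] : Prop :=
  ∀ H : Subgroup G, (Nat.card H).Coprime p → IsMulCommutative H ∧ ∀ x ∈ H, x ^ (p - 1) = 1

variable {p : ℕ} [Fact p.Prime] {G : Type u} [Group G] [Finite G]

omit [Fact p.Prime] [Finite G] in
theorem pHyp_subgroup (h : PHyp p G) (H : Subgroup G) : PHyp p H := by
  intro K hK
  obtain ⟨h1, h2⟩ := h (K.map H.subtype) (by rwa [card_map_of_injective H.subtype_injective])
  refine ⟨⟨⟨fun a b => ?_⟩⟩, fun x hx => Subtype.ext (h2 x ⟨x, hx, rfl⟩)⟩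
  haveI := h1
  exact Subtype.ext (Subtype.ext
    (mul_comm_of_mem_isMulCommutative (K.map H.subtype) ⟨a, a.2, rfl⟩ ⟨b, b.2, rfl⟩))

/-- The hypothesis passes to homomorphic images. -/
theorem pHyp_of_surjective (h : PHyp p G) {X : Type v} [Group X] (f : G →* X) (hf : Function.Surjective f) :
    PHyp p X := by
  intro H hH
  obtain ⟨T, hT, hmin⟩ := Set.exists_min_image {T : Subgroup G | T.map f = H} (fun T => Nat.card T)
    (Set.toFinite _) ⟨H.comap f, map_comap_eq_self_of_surjective hf H⟩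
  change T.map f = H at hT
  haveI : Finite X := Finite.of_surjective f hf
  let π : T →* H := (f.comp T.subtype).codRestrict H fun t => hT ▸ mem_map_of_mem f t.2
  have hπ : Function.Surjective π := by
    rintro ⟨x, hx⟩
    obtain ⟨t, ht, rfl⟩ : x ∈ T.map f := hT.symm ▸ hx
    exact ⟨⟨t, ht⟩, rfl⟩
  have hminT : ∀ M : Subgroup T, M.map π = ⊤ → M = ⊤ := by
    intro M hM
    have h1 : (M.map T.subtype).map f = H := by
      refine le_antisymm ?_ fun x hx => ?_
      · rintro _ ⟨_, ⟨m, -, rfl⟩, rfl⟩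
        exact (π m).2
      · obtain ⟨m, hm, e⟩ := hM.symm.le (mem_top (⟨x, hx⟩ : H))
        exact ⟨m, ⟨m, hm, rfl⟩, congrArg Subtype.val e⟩
    have h2 := hmin (M.map T.subtype) h1
    rw [card_map_of_injective T.subtype_injective] at h2
    exact eq_top_of_le_card _ h2
  obtain ⟨P0⟩ : Nonempty (Sylow p π.ker) := inferInstance
  set P1 := (P0 : Subgroup π.ker).map π.ker.subtype with hP1
  haveI : P1.Normal := sylow_kernel_normal_of_minimal π hπ hminT P0
  have hkidx : π.ker.index = Nat.card H := by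
    rw [index_ker, MonoidHom.range_eq_top.2 hπ, card_top]
  have hP1idx : P1.index.Coprime p := by
    rw [hP1, index_map_of_injective _ π.ker.subtype_injective, range_subtype, hkidx]
    exact Nat.Coprime.mul_left (((Fact.out : p.Prime).coprime_iff_not_dvd.2 P0.not_dvd_index).symm) hH
  have hcop : (Nat.card P1).Coprime P1.index := by
    obtain ⟨k, hk⟩ := (IsPGroup.map P0.2 π.ker.subtype : IsPGroup p P1).exists_card_eq
    rw [hk]; exact hP1idx.symm.pow_left k
  obtain ⟨C, hC⟩ := exists_right_complement'_of_coprime hcop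
  have hCtop : C = ⊤ := hminT C (by
    have h1 := congrArg (map π) hC.sup_eq_top
    rw [Subgroup.map_sup, map_top_of_surjective π hπ, (map_eq_bot_iff P1).2 (map_subtype_le _),
      bot_sup_eq] at h1
    exact h1)
  have hTp : (Nat.card T).Coprime p := by
    rw [← card_top (G := T), ← hCtop, ← hC.symm.index_eq_card]
    exact hP1idx
  obtain ⟨hc, he⟩ := h T hTp
  haveI := hc
  refine ⟨⟨⟨fun a b => ?_⟩⟩, fun x hx => ?_⟩
  · obtain ⟨a', ha', ea⟩ : (a : X) ∈ T.map f := hT.symm ▸ a.2
    obtain ⟨b', hb', eb⟩ : (b : X) ∈ T.map f := hT.symm ▸ b.2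
    apply Subtype.ext
    show (a : X) * b = b * a
    rw [← ea, ← eb, ← map_mul, ← map_mul, mul_comm_of_mem_isMulCommutative T ha' hb']
  · obtain ⟨a', ha', rfl⟩ : x ∈ T.map f := hT.symm ▸ hx
    rw [← map_pow, he a' ha', map_one]

theorem pHyp_sect (h : PHyp p G) {X : Type u} [Group X] (hX : Sect X G) : PHyp p X := by
  obtain ⟨H, f, hf⟩ := hX
  exact pHyp_of_surjective (pHyp_subgroup h H) f hf

/-- The diagonal torus of `SL(2,F)` and the element inverting it. -/
theorem sl2_torus (F : Type*) [Field F] :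
    ∃ (δ : Fˣ →* Matrix.SpecialLinearGroup (Fin 2) F) (w : Matrix.SpecialLinearGroup (Fin 2) F),
      (∀ u, w * δ u * w⁻¹ = δ u⁻¹) ∧ w ^ 4 = 1 ∧ ∀ u v, δ u = δ v → u = v := by
  let d : Fˣ → Matrix.SpecialLinearGroup (Fin 2) F := fun u =>
    ⟨!![(u : F), 0; 0, ((u⁻¹ : Fˣ) : F)], by rw [Matrix.det_fin_two_of]; simp⟩
  have hd : ∀ u v, d (u * v) = d u * d v := fun u v => Subtype.ext (by
    show (d (u * v) : Matrix (Fin 2) (Fin 2) F) = (d u : Matrix (Fin 2) (Fin 2) F) * (d v : Matrix (Fin 2) (Fin 2) F)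
    ext i j; fin_cases i <;> fin_cases j <;> simp [d, Matrix.mul_apply, Fin.sum_univ_two, mul_comm])
  let w : Matrix.SpecialLinearGroup (Fin 2) F := ⟨!![0, 1; -1, 0], by rw [Matrix.det_fin_two_of]; simp⟩
  refine ⟨MonoidHom.mk' d hd, w, fun u => ?_, ?_, fun u v e => Units.ext ?_⟩
  · show w * d u * w⁻¹ = d u⁻¹
    rw [mul_inv_eq_iff_eq_mul]
    apply Subtype.ext
    show (w : Matrix (Fin 2) (Fin 2) F) * (d u : Matrix (Fin 2) (Fin 2) F) =
      (d u⁻¹ : Matrix (Fin 2) (Fin 2) F) * (w : Matrix (Fin 2) (Fin 2) F)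
    ext i j; fin_cases i <;> fin_cases j <;> simp [d, w, Matrix.mul_apply, Fin.sum_univ_two]
  · apply Subtype.ext
    rw [Matrix.SpecialLinearGroup.coe_pow]
    ext i j; fin_cases i <;> fin_cases j <;> simp [w, pow_succ, Matrix.mul_apply, Fin.sum_univ_two]
  · have e' : d u = d v := e
    have := congrFun (congrFun (congrArg Subtype.val e') 0) 0
    simpa [d] using this

/-- `SL(2,p)` does not satisfy the hypothesis for `p ≥ 5`. -/
theorem not_pHyp_sl2 (hp : 5 ≤ p) : ¬ PHyp p (Matrix.SpecialLinearGroup (Fin 2) (ZMod p)) := by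
  intro h
  obtain ⟨δ, w, hwd, hw4, hinj⟩ := sl2_torus (ZMod p)
  set D := δ.range
  set W := zpowers w
  have hWD : W ≤ normalizer (D : Set _) := by
    rw [zpowers_le]
    refine H61.mem_normalizer_of_cj (H61.cj_eq_of_le ?_)
    rintro _ ⟨_, ⟨u, rfl⟩, rfl⟩
    exact ⟨u⁻¹, (hwd u).symm⟩
  have hcardD : (Nat.card D).Coprime p := by
    have h1 : Nat.card D ∣ Nat.card (ZMod p)ˣ := card_range_dvd δ
    rw [Nat.card_units, Nat.card_zmod] at h1
    exact Nat.Coprime.coprime_dvd_left h1 (((Fact.out : p.Prime).coprime_iff_not_dvd.2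
      (Nat.not_dvd_of_pos_of_lt (by omega) (by omega))).symm)
  have hcardW : (Nat.card W).Coprime p := by
    have h1 : Nat.card W ∣ 4 := by rw [Nat.card_zpowers]; exact orderOf_dvd_of_pow_eq_one hw4
    exact Nat.Coprime.coprime_dvd_left h1 (((Fact.out : p.Prime).coprime_iff_not_dvd.2
      (Nat.not_dvd_of_pos_of_lt (by omega) (by omega))).symm)
  have hsup : (Nat.card ↥(D ⊔ W)).Coprime p := by
    haveI : (D.subgroupOf (D ⊔ W)).Normal :=
      (normal_subgroupOf_iff_le_normalizer le_sup_left).2 (sup_le le_normalizer hWD)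
    have h1 : Nat.card ↥(D ⊔ W) ∣ Nat.card D * Nat.card W := by
      rw [← (D.subgroupOf (D ⊔ W)).card_mul_index,
        Nat.card_congr (subgroupOfEquivOfLe (le_sup_left : D ≤ D ⊔ W)).toEquiv]
      refine mul_dvd_mul_left _ ?_
      have e : (W.subgroupOf (D ⊔ W)) ⊔ (D.subgroupOf (D ⊔ W)) = ⊤ := by
        rw [← subgroupOf_sup le_sup_right le_sup_left, sup_comm, subgroupOf_self]
      rw [← relIndex_top_right, ← e, relIndex_sup_right]
      refine (relIndex_dvd_card _ _).trans ?_
      rw [Nat.card_congr (subgroupOfEquivOfLe (le_sup_right : W ≤ D ⊔ W)).toEquiv]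
    exact Nat.Coprime.coprime_dvd_left h1 (Nat.Coprime.mul_left hcardD hcardW)
  obtain ⟨hc, -⟩ := h _ hsup
  haveI := hc
  have h2 : (2 : ZMod p) ≠ 0 := by
    intro e
    rw [show (2 : ZMod p) = ((2 : ℕ) : ZMod p) from rfl, ZMod.natCast_eq_zero_iff] at e
    exact absurd (Nat.le_of_dvd (by norm_num) e) (by omega)
  set u : (ZMod p)ˣ := Units.mk0 2 h2
  have hcomm := mul_comm_of_mem_isMulCommutative (D ⊔ W) (mem_sup_right (mem_zpowers w))
    (mem_sup_left ⟨u, rfl⟩ : δ u ∈ D ⊔ W)
  have h3 : δ u = δ u⁻¹ := by rw [← hwd, hcomm, mul_inv_cancel_right]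
  have h4 : (2 : ZMod p) = 2⁻¹ := by
    have := congrArg Units.val (hinj _ _ h3)
    rwa [Units.val_inv_eq_inv_val] at this
  have h5 : ((3 : ℕ) : ZMod p) = 0 := by
    have e : (2 : ZMod p) * 2 = 1 := by
      nth_rewrite 1 [h4]; exact inv_mul_cancel₀ h2
    push_cast
    linear_combination e
  rw [ZMod.natCast_eq_zero_iff] at h5
  exact absurd (Nat.le_of_dvd (by norm_num) h5) (by omega)

/-- Every section is `p`-stable. -/
theorem sectStable_of_pHyp (hp : 5 ≤ p) (h : PHyp p G) : SectStable p G := by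
  intro X _ _ hX V _ hV
  by_contra hns
  obtain ⟨Y, φ, hφ, -⟩ := exists_sl2_of_not_stable (by omega) hV hns
  exact not_pHyp_sl2 hp (pHyp_of_surjective (pHyp_subgroup (pHyp_sect h hX) Y) φ hφ)

/-- With `O_p = 1` the Fitting subgroup contains every subgroup of order prime to `p`. -/
theorem le_fitting_of_coprime [Group.IsSolvable G] (h : PHyp p G) (hO : Cfsg.pCore p G = ⊥) :
    (Nat.card (Cfsg.fittingSubgroup G)).Coprime p ∧
      ∀ K : Subgroup G, (Nat.card K).Coprime p → K ≤ Cfsg.fittingSubgroup G := by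
  set F := Cfsg.fittingSubgroup G
  haveI : F.Normal := H19.fitting_normal G
  haveI : Group.IsNilpotent F := H19.fitting_isNilpotent
  have hF : (Nat.card F).Coprime p := by
    obtain ⟨P⟩ : Nonempty (Sylow p F) := inferInstance
    haveI : (P : Subgroup F).Normal :=
      ((Group.isNilpotent_of_finite_tfae (G := F)).out 0 3 rfl rfl).mp inferInstance p inferInstance P
    haveI := P.characteristic_of_normal inferInstance
    have h1 : (P : Subgroup F).map F.subtype ≤ Cfsg.pCore p G :=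
      H19.le_pCore ConjAct.normal_of_characteristic_of_normal (IsPGroup.map P.2 _)
    rw [hO, le_bot_iff, map_eq_bot_iff_of_injective _ F.subtype_injective] at h1
    have h2 := P.not_dvd_index
    rw [h1, index_bot] at h2
    exact ((Fact.out : p.Prime).coprime_iff_not_dvd.2 h2).symm
  refine ⟨hF, fun K hK => ?_⟩
  obtain ⟨hc, -⟩ := h (F ⊔ K)
    (Nat.Coprime.coprime_dvd_left (H19.card_sup_dvd F K) (Nat.Coprime.mul_left hF hK))
  haveI := hc
  exact fun k hk => H19.centralizer_fitting_le (mem_centralizer_iff.2 fun f hf =>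
    mul_comm_of_mem_isMulCommutative (F ⊔ K) (mem_sup_left hf) (mem_sup_right hk))

/-- The structure of a solvable group with the hypothesis. -/
theorem exists_abelian_hall [Group.IsSolvable G] (hp2 : p ≠ 2) (h : PHyp p G) (S : Sylow 2 G) :
    ∃ K : Subgroup G, (S : Subgroup G) ≤ K ∧ IsMulCommutative K ∧
      Cfsg.pCore p G ⊔ normalizer (K : Set G) = ⊤ ∧
      ∀ R : Subgroup G, IsPGroup p R → K ≤ normalizer (R : Set G) → R ≤ Cfsg.pCore p G := by
  haveI : Fact (Nat.Prime 2) := ⟨Nat.prime_two⟩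
  set O := Cfsg.pCore p G with hO
  haveI : O.Normal := H19.pCore_normal p G
  set π := QuotientGroup.mk' O with hπdef
  have hπ : Function.Surjective π := QuotientGroup.mk'_surjective O
  haveI : Group.IsSolvable (G ⧸ O) := Group.isSolvable_of_surjective hπ
  obtain ⟨hFc, hFle⟩ := le_fitting_of_coprime (pHyp_of_surjective h π hπ) (H19.pCore_quotient_pCore p)
  set F := Cfsg.fittingSubgroup (G ⧸ O)
  haveI : F.Normal := H19.fitting_normal _
  set U := F.comap π with hU
  haveI : U.Normal := Normal.comap inferInstance π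
  have hOU : O ≤ U := fun x hx => by
    rw [hU, mem_comap, show π x = 1 from (QuotientGroup.eq_one_iff x).2 hx]; exact one_mem _
  have hOp : IsPGroup p O := H19.pCore_isPGroup p
  obtain ⟨e, he⟩ := hOp.exists_card_eq
  have hrel : O.relIndex U = Nat.card F := by
    have h1 := relIndex_ker (f := π) U
    rw [hπdef, QuotientGroup.ker_mk', ← hπdef] at h1
    rw [h1, hU, map_comap_eq_self_of_surjective hπ]
  have hcop : (Nat.card O).Coprime (O.relIndex U) := by rw [he, hrel]; exact hFc.symm.pow_left e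
  have hUN : U ≤ normalizer (O : Set G) := le_normalizer_of_normal
  obtain ⟨T, hTU, hOT, hTc⟩ := H20.exists_complement_of_coprime hOU hUN hcop
  have hSU : (S : Subgroup G) ≤ U := by
    refine map_le_iff_le_comap.1 (hFle _ ?_)
    obtain ⟨j, hj⟩ := (IsPGroup.map S.2 π).exists_card_eq
    rw [hj]
    exact (Nat.coprime_primes Nat.prime_two (Fact.out : p.Prime)).2 (Ne.symm hp2) |>.pow_left j
  obtain ⟨S0, hS0, -⟩ := H23.exists_isSylowIn_ge (p := 2) (bot_le : (⊥ : Subgroup G) ≤ T) IsPGroup.of_bot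
  obtain ⟨m, hm, hle⟩ := H61.exists_cj_le (H61.sylowIn_of_le S hSU) (hS0.1.trans hTU) hS0.2.1
  have hcardS : Nat.card (S : Subgroup G) ≤ Nat.card S0 := by
    obtain ⟨j, hj⟩ := S.2.exists_card_eq
    have h1 : Nat.card (S : Subgroup G) ∣ Nat.card U := card_dvd_of_le hSU
    have h2 : Nat.card U = Nat.card O * Nat.card T := by
      rw [hTc, ← relIndex_bot_left, ← relIndex_bot_left, relIndex_mul_relIndex _ _ _ bot_le hOU]
    have h3 : Nat.card T = Nat.card S0 * S0.relIndex T := by
      rw [← relIndex_bot_left, ← relIndex_bot_left, relIndex_mul_relIndex _ _ _ bot_le hS0.1]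
    rw [h2, h3] at h1
    have h4 : (Nat.card (S : Subgroup G)).Coprime (Nat.card O) := by
      rw [hj, he]
      exact Nat.Coprime.pow _ _ ((Nat.coprime_primes Nat.prime_two (Fact.out : p.Prime)).2 (Ne.symm hp2))
    have h5 : (Nat.card (S : Subgroup G)).Coprime (S0.relIndex T) := by
      rw [hj]; exact (Nat.prime_two.coprime_iff_not_dvd.2 hS0.2.2).pow_left j
    exact Nat.le_of_dvd Nat.card_pos (h5.dvd_of_dvd_mul_right (h4.dvd_of_dvd_mul_left h1))
  have hSeq : cj m S0 = (S : Subgroup G) := eq_of_le_of_card_ge hle (by rwa [H61.card_cj])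
  set K := cj m T with hK
  have hSK : (S : Subgroup G) ≤ K := hSeq ▸ H61.cj_mono m hS0.1
  have hKc : (Nat.card K).Coprime p := by rw [hK, H61.card_cj, hTc, hrel]; exact hFc
  have hOK : O ⊔ K = U := by
    rw [← H61.cj_normal m O, hK, ← H61.cj_sup, hOT, H61.cj_normal]
  refine ⟨K, hSK, (h K hKc).1, ?_, fun R hR hKR => ?_⟩
  · rw [eq_top_iff]
    intro x _
    have hxK : cj x K ≤ O ⊔ K := by
      rw [hOK]
      exact (H61.cj_mono x (le_sup_right.trans hOK.le)).trans (H61.cj_normal x U).le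
    obtain ⟨n, hn, e⟩ := H20.exists_conj_eq_of_coprime (N := O) (H := K) (K := cj x K)
      le_normalizer_of_normal (by rw [he]; exact hKc.pow_right e)
      (Or.inr (by haveI := hOp.isNilpotent; infer_instance)) hxK (H61.card_cj x K)
    have h1 : n⁻¹ * x ∈ normalizer (K : Set G) := by
      refine H61.mem_normalizer_of_cj ?_
      rw [← H61.cj_cj, ← e]
      show cj n⁻¹ (cj n K) = K
      rw [H61.cj_cj, inv_mul_cancel, H61.cj_one]
    have := mul_mem_sup (S := O) (T := normalizer (K : Set G)) hn h1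
    rwa [mul_inv_cancel_left] at this
  · have hKF : K.map π = F := by
      rw [← map_comap_eq_self_of_surjective hπ F, ← hU, ← hOK, Subgroup.map_sup,
        (map_eq_bot_iff O).2 (QuotientGroup.ker_mk' O).ge, bot_sup_eq]
    have hFR : F ≤ normalizer ((R.map π : Subgroup (G ⧸ O)) : Set (G ⧸ O)) :=
      hKF ▸ (map_mono hKR).trans (le_normalizer_map π)
    have hdis : R.map π ⊓ F = ⊥ := H35.inf_eq_bot_of_coprime (hR.map π) hFc
    rw [← QuotientGroup.ker_mk' O, ← Subgroup.map_eq_bot_iff, ← hπdef, eq_bot_iff]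
    intro r hr
    have hrF : r ∈ F := H19.centralizer_fitting_le (mem_centralizer_iff.2 fun f hf => by
      have h1 : f * r * f⁻¹ * r⁻¹ ∈ R.map π ⊓ F := by
        refine ⟨mul_mem ((mem_normalizer_iff.1 (hFR hf) r).1 hr) (Subgroup.inv_mem _ hr), ?_⟩
        have := mul_mem hf ((inferInstance : F.Normal).conj_mem _ (Subgroup.inv_mem _ hf) r)
        simpa [mul_assoc] using this
      rwa [hdis, mem_bot, mul_inv_eq_one, mul_inv_eq_iff_eq_mul] at h1)
    exact hdis.le ⟨hr, hrF⟩

end Cfsg.Agent.H60.PP
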