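import Cfsg.Agent.H60.AbelianPrimeHyp
import Cfsg.Agent.H72.PCore
import Cfsg.Agent.H52.Transitivity
import Cfsg.Agent.H22.AbelianSylow
import Cfsg.Agent.H28.StronglyEmbedded
import Cfsg.Agent.H50.StronglyEmbedded
import Cfsg.Agent.H50.ControlTransfer

/-!
A minimal non-solvable group of even order in which subgroups of order prime to `p` are abelian of
exponent dividing `p - 1`: its Sylow `2`-subgroup lies in a unique maximal subgroup, which is strongly
embedded.
-/

set_option autoImplicit false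

namespace Cfsg.Agent.H60.PP

open Subgroup
open Cfsg.Agent.H61 (cj)
open scoped Pointwise

universe u

/-- The minimal counterexample. -/
structure MinCtx (p : ℕ) (G : Type u) [Group G] : Prop where
  five : 5 ≤ p
  hyp : PHyp p G
  simple : IsSimpleGroup G
  nonsolv : ¬ Group.IsSolvable G
  solv : ∀ H : Subgroup G, H ≠ ⊤ → Group.IsSolvable H
  even : 2 ∣ Nat.card G

variable {p : ℕ} [Fact p.Prime] {G : Type u} [Group G] [Finite G]

omit [Finite G] in
theorem coprime_two_pow (hp : 5 ≤ p) (k : ℕ) : (2 ^ k).Coprime p :=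
  Nat.Coprime.pow_left k ((Nat.coprime_primes Nat.prime_two (Fact.out : p.Prime)).2 (by omega))

theorem not_two_dvd_pGroup (hp : 5 ≤ p) {R : Subgroup G} (hR : IsPGroup p R) :
    ¬ 2 ∣ Nat.card R := by
  obtain ⟨k, hk⟩ := hR.exists_card_eq
  rw [hk]
  intro h
  have := (Nat.prime_dvd_prime_iff_eq Nat.prime_two (Fact.out : p.Prime)).1
    (Nat.prime_two.dvd_of_dvd_pow h)
  omega

omit [Finite G] in
theorem conj_eq_iff_mem_centralizer {a g : G} : g * a * g⁻¹ = a ↔ g ∈ centralizer ({a} : Set G) := by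
  rw [mem_centralizer_singleton_iff, mul_inv_eq_iff_eq_mul]

omit [Finite G] in
theorem map_conj_centralizer (g a : G) :
    (centralizer ({a} : Set G)).map (MulAut.conj g).toMonoidHom = centralizer ({g * a * g⁻¹} : Set G) := by
  ext x
  rw [H61.mem_cj, mem_centralizer_singleton_iff, mem_centralizer_singleton_iff]
  constructor
  · intro h
    calc x * (g * a * g⁻¹) = g * (g⁻¹ * x * g * a) * g⁻¹ := by group
      _ = g * (a * (g⁻¹ * x * g)) * g⁻¹ := by rw [h]
      _ = g * a * g⁻¹ * x := by group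
  · intro h
    calc g⁻¹ * x * g * a = g⁻¹ * (x * (g * a * g⁻¹)) * g := by group
      _ = g⁻¹ * (g * a * g⁻¹ * x) * g := by rw [h]
      _ = a * (g⁻¹ * x * g) := by group

/-- An element of order `2` of a subgroup is conjugate within it into any of its full Sylow
`2`-subgroups. -/
theorem exists_conj_mem_sylow [Fact (Nat.Prime 2)] (S : Sylow 2 G) {M : Subgroup G}
    (hSM : (S : Subgroup G) ≤ M) {t : G} (ht : t ∈ M) (ht2 : orderOf t = 2) :
    ∃ m ∈ M, m * t * m⁻¹ ∈ (S : Subgroup G) := by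
  obtain ⟨m, hm, hle⟩ := H61.exists_cj_le (H61.sylowIn_of_le S hSM) (zpowers_le.2 ht)
    (IsPGroup.of_card (n := 1) (by rw [Nat.card_zpowers, ht2, pow_one]))
  exact ⟨m, hm, hle (H61.conj_mem_cj (mem_zpowers t))⟩

theorem sylow_two_abelian (h : MinCtx p G) (S : Sylow 2 G) : IsMulCommutative (S : Subgroup G) := by
  haveI : Fact (Nat.Prime 2) := ⟨Nat.prime_two⟩
  obtain ⟨k, hk⟩ := S.2.exists_card_eq
  exact (h.hyp _ (by rw [hk]; exact coprime_two_pow h.five k)).1

theorem sylow_two_ne_bot (h : MinCtx p G) (S : Sylow 2 G) : (S : Subgroup G) ≠ ⊥ := by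
  haveI : Fact (Nat.Prime 2) := ⟨Nat.prime_two⟩
  intro hS
  have := S.not_dvd_index
  rw [hS, index_bot] at this
  exact this h.even

theorem not_abelian (h : MinCtx p G) {H : Subgroup G} (hH : IsMulCommutative H) : H ≠ ⊤ := by
  rintro rfl
  haveI := hH
  haveI : Group.IsSolvable (⊤ : Subgroup G) := H20.isSolvable_of_isMulCommutative _
  exact h.nonsolv (Group.isSolvable_of_surjective (f := (⊤ : Subgroup G).subtype)
    (fun x => ⟨⟨x, mem_top x⟩, rfl⟩))

theorem normalizer_ne_top (h : MinCtx p G) {U : Subgroup G} (hbot : U ≠ ⊥) (htop : U ≠ ⊤) :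
    normalizer (U : Set G) ≠ ⊤ := by
  intro hN
  haveI := h.simple
  rcases (normalizer_eq_top_iff.1 hN).eq_bot_or_eq_top with h1 | h1
  exacts [hbot h1, htop h1]

theorem centralizer_ne_top (h : MinCtx p G) {a : G} (ha : a ≠ 1) :
    centralizer ({a} : Set G) ≠ ⊤ := by
  intro hC
  haveI := h.simple
  rcases (inferInstance : (center G).Normal).eq_bot_or_eq_top with h1 | h1
  · refine ha (mem_bot.1 (h1 ▸ mem_center_iff.2 fun g => ?_ : a ∈ (⊥ : Subgroup G)))
    exact mem_centralizer_singleton_iff.1 (hC ▸ mem_top g)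
  · exact not_abelian h (inferInstanceAs (IsMulCommutative (center G))) h1

omit [Fact p.Prime] in
theorem normalizer_le_of_abelian (S : Sylow 2 G) {K : Subgroup G} (hK : IsMulCommutative K)
    (hSK : (S : Subgroup G) ≤ K) : normalizer (K : Set G) ≤ normalizer ((S : Subgroup G) : Set G) := by
  haveI : Fact (Nat.Prime 2) := ⟨Nat.prime_two⟩
  intro g hg
  refine H61.mem_normalizer_of_cj ?_
  have hle : cj g (S : Subgroup G) ≤ K := (H61.cj_mono g hSK).trans (H61.cj_eq_self hg).le
  haveI := hK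
  have hnorm : cj g (S : Subgroup G) ≤ normalizer ((S : Subgroup G) : Set G) := fun x hx =>
    centralizer_le_normalizer _ (mem_centralizer_iff.2 fun s hs =>
      mul_comm_of_mem_isMulCommutative K (hSK hs) (hle hx))
  have hsup : IsPGroup 2 ↥((S : Subgroup G) ⊔ cj g (S : Subgroup G)) :=
    IsPGroup.to_sup_of_normal_left' S.2 (S.2.map _) hnorm
  have he : (S : Subgroup G) ⊔ cj g (S : Subgroup G) = (S : Subgroup G) := S.is_maximal' hsup le_sup_left
  have h1 : cj g (S : Subgroup G) ≤ (S : Subgroup G) := by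
    calc cj g (S : Subgroup G) ≤ (S : Subgroup G) ⊔ cj g (S : Subgroup G) := le_sup_right
      _ = (S : Subgroup G) := he
  exact H61.cj_eq_of_le h1

/-- The structure of a proper subgroup containing a Sylow `2`-subgroup. -/
theorem exists_hall_proper (h : MinCtx p G) (S : Sylow 2 G) {X : Subgroup G} (hX : X ≠ ⊤)
    (hSX : (S : Subgroup G) ≤ X) :
    ∃ K : Subgroup G, (S : Subgroup G) ≤ K ∧ K ≤ X ∧ IsMulCommutative K ∧
      X ≤ Cfsg.pCoreOf p X ⊔ (X ⊓ normalizer ((S : Subgroup G) : Set G)) ∧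
      ∀ R : Subgroup G, R ≤ X → IsPGroup p R → K ≤ normalizer (R : Set G) →
        R ≤ Cfsg.pCoreOf p X := by
  haveI : Fact (Nat.Prime 2) := ⟨Nat.prime_two⟩
  haveI := h.solv X hX
  obtain ⟨K', hSK', hK'c, htop, hmax⟩ :=
    exists_abelian_hall (by have := h.five; omega) (pHyp_subgroup h.hyp X) (S.subtype hSX)
  haveI := hK'c
  set K := K'.map X.subtype with hK
  have hKc : IsMulCommutative K := ⟨⟨by
    rintro ⟨_, a, ha, rfl⟩ ⟨_, b, hb, rfl⟩
    refine Subtype.ext ?_
    show X.subtype a * X.subtype b = X.subtype b * X.subtype a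
    rw [← map_mul, ← map_mul, mul_comm_of_mem_isMulCommutative K' ha hb]⟩⟩
  have hSK : (S : Subgroup G) ≤ K := fun s hs => ⟨⟨s, hSX hs⟩, hSK' hs, rfl⟩
  refine ⟨K, hSK, map_subtype_le _, hKc, ?_, fun R hRX hR hKR => ?_⟩
  · have h1 : X = Cfsg.pCoreOf p X ⊔ (normalizer (K' : Set X)).map X.subtype := by
      show X = (Cfsg.pCore p X).map X.subtype ⊔ _
      rw [← Subgroup.map_sup, htop, ← MonoidHom.range_eq_map, range_subtype]
    refine h1.le.trans (sup_le_sup_left (le_inf (map_subtype_le _) ?_) _)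
    exact (le_normalizer_map X.subtype).trans (normalizer_le_of_abelian S hKc hSK)
  · have h1 : R.subgroupOf X ≤ Cfsg.pCore p X := by
      refine hmax _ (hR.comap_of_injective _ X.subtype_injective) fun k hk => ?_
      have hk' : (k : G) ∈ normalizer (R : Set G) := hKR ⟨k, hk, rfl⟩
      rw [mem_normalizer_iff]
      intro x
      simpa [mem_subgroupOf] using mem_normalizer_iff.1 hk' (x : G)
    exact fun r hr => ⟨⟨r, hRX hr⟩, h1 hr, rfl⟩

theorem le_centralizer_singleton {S : Sylow 2 G} (hS : IsMulCommutative (S : Subgroup G)) {a : G}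
    (ha : a ∈ (S : Subgroup G)) : (S : Subgroup G) ≤ centralizer ({a} : Set G) := by
  haveI := hS
  exact fun x hx => mem_centralizer_singleton_iff.2
    (mul_comm_of_mem_isMulCommutative (S : Subgroup G) hx ha)

/-- `Ω₁(S)`. -/
abbrev omegaS (S : Sylow 2 G) : Subgroup G := Cfsg.omegaOne 2 (S : Subgroup G)

theorem omegaS_elem (h : MinCtx p G) (S : Sylow 2 G) : Cfsg.IsElementaryAbelian 2 (omegaS S) := by
  haveI := sylow_two_abelian h S
  refine ⟨⟨⟨fun a b => Subtype.ext (mul_comm_of_mem_isMulCommutative (S : Subgroup G)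
    (H72.omegaOne_le 2 _ a.2) (H72.omegaOne_le 2 _ b.2))⟩⟩, fun x hx => ?_⟩
  suffices hx2 : x ∈ (S : Subgroup G) ∧ x ^ 2 = 1 from hx2.2
  induction hx using closure_induction with
  | mem y hy => exact hy
  | one => exact ⟨one_mem _, one_pow _⟩
  | mul a b _ _ ha hb =>
    refine ⟨mul_mem ha.1 hb.1, ?_⟩
    rw [Commute.mul_pow (mul_comm_of_mem_isMulCommutative (S : Subgroup G) ha.1 hb.1), ha.2, hb.2,
      one_mul]
  | inv a _ ha => exact ⟨inv_mem ha.1, by rw [inv_pow, ha.2, inv_one]⟩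

theorem orderOf_omegaS (h : MinCtx p G) {S : Sylow 2 G} {a : G} (ha : a ∈ omegaS S) (ha1 : a ≠ 1) :
    orderOf a = 2 := orderOf_eq_prime ((omegaS_elem h S).2 a ha) ha1

theorem mem_omegaS {S : Sylow 2 G} {a : G} (ha : a ∈ (S : Subgroup G)) (ha2 : orderOf a = 2) :
    a ∈ omegaS S :=
  H72.mem_omegaOne ha (by rw [← ha2, pow_orderOf_eq_one])

/-- An element of order prime to `p` normalising `S` centralises it. -/
theorem mem_centralizer_of_coprime (h : MinCtx p G) (S : Sylow 2 G) {y : G}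
    (hy : y ∈ normalizer ((S : Subgroup G) : Set G)) (hcy : (orderOf y).Coprime p) :
    y ∈ centralizer ((S : Subgroup G) : Set G) := by
  haveI : Fact (Nat.Prime 2) := ⟨Nat.prime_two⟩
  have hle : zpowers (y) ≤ normalizer ((S : Subgroup G) : Set G) :=
    zpowers_le.2 hy
  haveI : ((S : Subgroup G).subgroupOf ((S : Subgroup G) ⊔ zpowers (y))).Normal :=
    (normal_subgroupOf_iff_le_normalizer le_sup_left).2 (sup_le le_normalizer hle)
  obtain ⟨j, hj⟩ := S.2.exists_card_eq
  have hcop : (Nat.card ↥((S : Subgroup G) ⊔ zpowers (y))).Coprime p := by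
    refine Nat.Coprime.coprime_dvd_left ?_
      (Nat.Coprime.mul_left (coprime_two_pow h.five j) hcy)
    have h1 : Nat.card ↥((S : Subgroup G) ⊔ zpowers (y)) =
        Nat.card (S : Subgroup G) *
          (S : Subgroup G).relIndex ((S : Subgroup G) ⊔ zpowers (y)) := by
      rw [← relIndex_bot_left, ← relIndex_bot_left, relIndex_mul_relIndex _ _ _ bot_le le_sup_left]
    rw [h1, hj, ← Nat.card_zpowers]
    refine mul_dvd_mul_left _ ?_
    have e : ((zpowers (y)).subgroupOf ((S : Subgroup G) ⊔ zpowers (y))) ⊔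
        ((S : Subgroup G).subgroupOf ((S : Subgroup G) ⊔ zpowers (y))) = ⊤ := by
      rw [← subgroupOf_sup le_sup_right le_sup_left, sup_comm, subgroupOf_self]
    show ((S : Subgroup G).subgroupOf ((S : Subgroup G) ⊔ zpowers (y))).index ∣ _
    rw [← relIndex_top_right, ← e, relIndex_sup_right]
    refine (relIndex_dvd_card _ _).trans ?_
    rw [Nat.card_congr (subgroupOfEquivOfLe
      (le_sup_right : zpowers (y) ≤ (S : Subgroup G) ⊔ zpowers (y))).toEquiv]
  haveI := (h.hyp _ hcop).1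
  exact mem_centralizer_iff.2 fun s hs => mul_comm_of_mem_isMulCommutative
    ((S : Subgroup G) ⊔ zpowers (y)) (mem_sup_left hs) (mem_sup_right (mem_zpowers _))

/-- `Ω₁(S)` has order at least eight. -/
theorem eight_le_omega (h : MinCtx p G) (S : Sylow 2 G) : 2 ^ 3 ≤ Nat.card (omegaS S) := by
  haveI : Fact (Nat.Prime 2) := ⟨Nat.prime_two⟩
  haveI hSc := sylow_two_abelian h S
  by_contra hlt
  obtain ⟨r, hr⟩ := (H52.elem_isPGroup (omegaS_elem h S)).exists_card_eq
  have hr2 : r ≤ 2 := by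
    by_contra hr3
    exact hlt (hr ▸ Nat.pow_le_pow_right (by norm_num) (by omega))
  have h4 : Nat.card (omegaS S) ≤ 4 := by
    rw [hr]; exact Nat.pow_le_pow_right (by norm_num) hr2 |>.trans (by norm_num)
  have hNC : normalizer ((S : Subgroup G) : Set G) ≤ centralizer ((S : Subgroup G) : Set G) := by
    intro n hn
    obtain ⟨a, b, hsplit, ⟨k, hka⟩, hb⟩ := H50.exists_p_p'_split (p := p) n
    have hb' : n ^ b ∈ centralizer ((S : Subgroup G) : Set G) :=
      mem_centralizer_of_coprime h S (pow_mem hn b) hb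
    have ha' : n ^ a ∈ centralizer ((S : Subgroup G) : Set G) := by
      have hnΩ : n ^ a ∈ normalizer (omegaS S : Set G) :=
        H72.normalizer_le_normalizer_omegaOne 2 _ (pow_mem hn a)
      set σ : Equiv.Perm (omegaS S) :=
        MulEquiv.toEquiv (normalizerMonoidHom (omegaS S) ⟨n ^ a, hnΩ⟩) with hσ
      have hσ1 : σ = 1 := by
        have h1 : σ ^ (p ^ k) = 1 := by
          have : ∀ m : ℕ, σ ^ m = MulEquiv.toEquiv (normalizerMonoidHom (omegaS S) (⟨n ^ a, hnΩ⟩ ^ m)) := by
            intro m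
            induction m with
            | zero => rw [pow_zero, pow_zero, map_one]; rfl
            | succ m ih => rw [pow_succ, pow_succ, map_mul, ih]; rfl
          rw [this, show (⟨n ^ a, hnΩ⟩ : normalizer (omegaS S : Set G)) ^ (p ^ k) = 1 from
            Subtype.ext (by rw [SubmonoidClass.coe_pow, OneMemClass.coe_one, ← hka]; exact pow_orderOf_eq_one _),
            map_one]
          rfl
        have h2 : orderOf σ ∣ (Nat.card (omegaS S)).factorial := by
          rw [← Nat.card_perm]; exact orderOf_dvd_natCard σ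
        have h3 : (p ^ k).Coprime (Nat.card (omegaS S)).factorial := by
          refine Nat.Coprime.pow_left k ((Fact.out : p.Prime).coprime_iff_not_dvd.2 fun hd => ?_)
          have := (Fact.out : p.Prime).dvd_factorial.1 hd
          have := h.five
          omega
        exact orderOf_eq_one_iff.1 (Nat.eq_one_of_dvd_coprimes h3 (orderOf_dvd_of_pow_eq_one h1) h2)
      have hfix : ∀ v ∈ omegaS S, n ^ a * v = v * n ^ a := by
        intro v hv
        have h1 : (σ ⟨v, hv⟩ : G) = v := by rw [hσ1]; rfl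
        have h2 : n ^ a * v * (n ^ a)⁻¹ = v := h1
        exact mul_inv_eq_iff_eq_mul.1 h2
      refine H20.le_centralizer_of_fixes_prime_order (A := zpowers (n ^ a)) (V := (S : Subgroup G))
        (zpowers_le.2 (pow_mem hn a)) ?_ (fun v hv hvp x hx => ?_) (mem_zpowers _)
      · obtain ⟨j, hj⟩ := S.2.exists_card_eq
        rw [Nat.card_zpowers, hka, hj]
        exact ((coprime_two_pow h.five j).pow_right k).symm
      · have hv2 : orderOf v = 2 := by
          obtain ⟨j, hj⟩ := (IsPGroup.iff_orderOf.1 S.2) ⟨v, hv⟩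
          rw [Subgroup.orderOf_mk] at hj
          rw [hj] at hvp ⊢
          exact ((Nat.prime_dvd_prime_iff_eq hvp Nat.prime_two).1
            (hvp.dvd_of_dvd_pow dvd_rfl))
        obtain ⟨i, rfl⟩ := mem_zpowers_iff.1 hx
        exact (Commute.zpow_left (hfix v (mem_omegaS hv hv2)) i).eq
    rw [hsplit]
    exact mul_mem ha' hb'
  obtain ⟨P, N, hN, hc⟩ := H22.burnside_normal_complement S hNC
  haveI := h.simple
  have hP : (P : Subgroup G) ≠ ⊥ := sylow_two_ne_bot h P
  rcases hN.eq_bot_or_eq_top with h1 | h1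
  · subst h1
    exact not_abelian h (sylow_two_abelian h P) (isComplement'_bot_left.1 hc)
  · subst h1
    exact hP (isComplement'_top_left.1 hc)

/-- The signalizer functor `a ↦ O_p(C(a))`. -/
abbrev theta (p : ℕ) (a : G) : Subgroup G := Cfsg.pCoreOf p (centralizer ({a} : Set G))

theorem theta_functor (h : MinCtx p G) (S : Sylow 2 G) :
    Cfsg.IsSolvableSignalizerFunctor 2 (omegaS S) (theta p) := by
  haveI hSc := sylow_two_abelian h S
  refine ⟨⟨fun a _ _ => H72.pCoreOf_le p _, fun a _ _ => not_two_dvd_pGroup h.five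
    (H72.pCoreOf_isPGroup p _), fun a ha _ b hb x hx => ?_, fun a ha ha1 b hb hb1 => ?_⟩,
    fun a _ _ => ?_⟩
  · exact (mem_normalizer_iff.1 (H72.le_normalizer_pCoreOf p _
      (le_centralizer_singleton hSc (H72.omegaOne_le 2 _ ha) (H72.omegaOne_le 2 _ hb))) x).1 hx
  · have haS := H72.omegaOne_le 2 (S : Subgroup G) ha
    have hbS := H72.omegaOne_le 2 (S : Subgroup G) hb
    obtain ⟨K, hSK, hKX, hKc, -, hmax⟩ :=
      exists_hall_proper h S (centralizer_ne_top h hb1) (le_centralizer_singleton hSc hbS)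
    refine hmax _ inf_le_right ((H72.pCoreOf_isPGroup p _).to_le inf_le_left) ?_
    have hKa : K ≤ centralizer ({a} : Set G) := by
      haveI := hKc
      exact fun x hx => mem_centralizer_singleton_iff.2
        (mul_comm_of_mem_isMulCommutative K hx (hSK haS))
    exact (le_inf (hKa.trans (H72.le_normalizer_pCoreOf p _)) (hKX.trans le_normalizer)).trans
      inf_normalizer_le_normalizer_inf
  · haveI := (H72.pCoreOf_isPGroup (G := G) p (centralizer ({a} : Set G))).isNilpotent
    infer_instance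

/-- The Sylow `2`-subgroup lies in a unique maximal subgroup. -/
theorem exists_unique_over (h : MinCtx p G) (S : Sylow 2 G) :
    ∃ M : Subgroup G, M ≠ ⊤ ∧ normalizer ((S : Subgroup G) : Set G) ≤ M ∧
      ∀ X : Subgroup G, X ≠ ⊤ → (S : Subgroup G) ≤ X → X ≤ M := by
  haveI : Fact (Nat.Prime 2) := ⟨Nat.prime_two⟩
  haveI hSc := sylow_two_abelian h S
  set Ω := omegaS S with hΩdef
  have hA := omegaS_elem h S
  have h8 := eight_le_omega h S
  obtain ⟨-, Q, -, hQ2, hQ⟩ := H52.complete_of_single_prime (q := p) hA h8 (theta_functor h S)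
    (fun a _ _ => H72.pCoreOf_isPGroup p _)
  set X0 := Cfsg.signalizerClosure Ω (theta p) with hX0
  have hX0Q : X0 ≤ Q := iSup_le fun a => (hQ a.1 a.2.1 a.2.2).ge.trans inf_le_left
  have hX0top : X0 ≠ ⊤ := by
    intro e
    rw [e, top_le_iff] at hX0Q
    rw [hX0Q, card_top] at hQ2
    exact hQ2 h.even
  have hNX0 : normalizer ((S : Subgroup G) : Set G) ≤ normalizer (X0 : Set G) := by
    intro n hn
    refine H61.mem_normalizer_of_cj (H61.cj_eq_of_le ?_)
    show X0.map (MulAut.conj n).toMonoidHom ≤ X0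
    rw [hX0, Cfsg.signalizerClosure, Subgroup.map_iSup]
    refine iSup_le fun a => ?_
    show (theta p a.1).map (MulAut.conj n).toMonoidHom ≤ _
    rw [← H72.pCoreOf_map_equiv, map_conj_centralizer]
    refine le_iSup (fun b : {b : G // b ∈ Ω ∧ b ≠ 1} => theta p b.1) ⟨n * a.1 * n⁻¹, ?_, ?_⟩
    · exact (mem_normalizer_iff.1 (H72.normalizer_le_normalizer_omegaOne 2 _ hn) a.1).1 a.2.1
    · exact fun e => a.2.2 (conj_eq_one_iff.1 e)
  obtain ⟨M, hM, hNM, hθM⟩ : ∃ M : Subgroup G, M ≠ ⊤ ∧ normalizer ((S : Subgroup G) : Set G) ≤ M ∧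
      ∀ a ∈ Ω, a ≠ 1 → theta p a ≤ M := by
    by_cases hb : X0 = ⊥
    · refine ⟨_, normalizer_ne_top h (sylow_two_ne_bot h S) (not_abelian h hSc), le_rfl,
        fun a ha ha1 => ?_⟩
      have h1 : theta p a ≤ X0 :=
        le_iSup (fun b : {b : G // b ∈ Ω ∧ b ≠ 1} => theta p b.1) ⟨a, ha, ha1⟩
      rw [hb] at h1
      exact h1.trans bot_le
    · exact ⟨_, normalizer_ne_top h hb hX0top, hNX0, fun a ha ha1 =>
        (le_iSup (fun b : {b : G // b ∈ Ω ∧ b ≠ 1} => theta p b.1) ⟨a, ha, ha1⟩).trans le_normalizer⟩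
  have hCM : ∀ a ∈ Ω, a ≠ 1 → centralizer ({a} : Set G) ≤ M := by
    intro a ha ha1
    obtain ⟨K, -, -, -, hle, -⟩ := exists_hall_proper h S (centralizer_ne_top h ha1)
      (le_centralizer_singleton hSc (H72.omegaOne_le 2 _ ha))
    exact hle.trans (sup_le (hθM a ha ha1) (inf_le_right.trans hNM))
  refine ⟨M, hM, hNM, fun X hX hSX => ?_⟩
  obtain ⟨K, -, -, -, hle, -⟩ := exists_hall_proper h S hX hSX
  refine hle.trans (sup_le ?_ (inf_le_right.trans hNM))
  have hne : omegaS S ≠ ⊥ := fun e => by rw [e, card_bot] at h8; norm_num at h8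
  refine H52.le_of_hyperplane_centralizers_le hA hne
    ((H72.omegaOne_le 2 _).trans (hSX.trans (H72.le_normalizer_pCoreOf p X)))
    (not_two_dvd_pGroup h.five (H72.pCoreOf_isPGroup p X)) fun D hD hDi => ?_
  have h2 : 2 ^ 2 ≤ Nat.card D := H52.elem_card_hyperplane hD hDi h8
  obtain ⟨d, hd, hd1⟩ : ∃ d ∈ D, d ≠ 1 := by
    refine (bot_or_exists_ne_one D).resolve_left fun e => ?_
    rw [e, card_bot] at h2
    norm_num at h2
  exact inf_le_right.trans ((centralizer_le (Set.singleton_subset_iff.2 hd)).trans (hCM d (hD hd) hd1))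

/-- The situation around the unique maximal subgroup over `S`. -/
structure TopCtx (p : ℕ) {G : Type u} [Group G] (S : Sylow 2 G) (M : Subgroup G) : Prop extends
    MinCtx p G where
  ne_top : M ≠ ⊤
  normalizer_le : normalizer ((S : Subgroup G) : Set G) ≤ M
  uniq : ∀ X : Subgroup G, X ≠ ⊤ → (S : Subgroup G) ≤ X → X ≤ M

variable {S : Sylow 2 G} {M : Subgroup G}

theorem TopCtx.le (h : TopCtx p S M) : (S : Subgroup G) ≤ M := le_normalizer.trans h.normalizer_le

theorem centralizer_le_top (h : TopCtx p S M) {t : G} (htM : t ∈ M) (ht : orderOf t = 2) :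
    centralizer ({t} : Set G) ≤ M := by
  haveI : Fact (Nat.Prime 2) := ⟨Nat.prime_two⟩
  obtain ⟨m, hm, hmS⟩ := exists_conj_mem_sylow S h.le htM ht
  have hne : m * t * m⁻¹ ≠ 1 := fun e => by
    rw [conj_eq_one_iff] at e
    rw [e, orderOf_one] at ht
    norm_num at ht
  have h1 := h.uniq _ (centralizer_ne_top h.toMinCtx hne)
    (le_centralizer_singleton (sylow_two_abelian h.toMinCtx S) hmS)
  rw [← map_conj_centralizer] at h1
  intro x hx
  have h2 : m * x * m⁻¹ ∈ M := h1 (H61.conj_mem_cj hx)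
  have h3 := mul_mem (mul_mem (inv_mem hm) h2) hm
  simpa [mul_assoc] using h3

theorem fusion_in_sylow (h : TopCtx p S M) {a b : G} (ha : a ∈ (S : Subgroup G))
    (hb : b ∈ (S : Subgroup G)) (hab : IsConj a b) :
    ∃ n ∈ normalizer ((S : Subgroup G) : Set G), n * a * n⁻¹ = b := by
  haveI : Fact (Nat.Prime 2) := ⟨Nat.prime_two⟩
  obtain ⟨g, rfl⟩ := isConj_iff.1 hab
  exact H22.abelian_sylow_controls S (sylow_two_abelian h.toMinCtx S) a ha g hb

theorem isStronglyEmbedded_top (h : TopCtx p S M) : Cfsg.IsStronglyEmbedded M := by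
  haveI : Fact (Nat.Prime 2) := ⟨Nat.prime_two⟩
  have heven : Even (Nat.card M) := by
    refine even_iff_two_dvd.2 (dvd_trans ?_ (card_dvd_of_le h.le))
    obtain ⟨j, hj⟩ := S.2.exists_card_eq
    rcases Nat.eq_zero_or_pos j with rfl | hj0
    · exact absurd (card_eq_one.1 (by simpa using hj)) (sylow_two_ne_bot h.toMinCtx S)
    · exact hj ▸ dvd_pow_self 2 hj0.ne'
  rw [H28.isStronglyEmbedded_iff_centralizer_fusion h.ne_top heven]
  refine ⟨fun t ht ht2 => centralizer_le_top h ht ht2, fun t ht s hs ht2 hs2 hts => ?_⟩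
  obtain ⟨m, hm, hmS⟩ := exists_conj_mem_sylow S h.le ht ht2
  obtain ⟨n, hn, hnS⟩ := exists_conj_mem_sylow S h.le hs hs2
  have hc : IsConj (m * t * m⁻¹) (n * s * n⁻¹) :=
    ((isConj_iff.2 ⟨m, rfl⟩ : IsConj t _).symm.trans hts).trans (isConj_iff.2 ⟨n, rfl⟩)
  obtain ⟨k, hk, hke⟩ := fusion_in_sylow h hmS hnS hc
  refine ⟨n⁻¹ * k * m, mul_mem (mul_mem (inv_mem hn) (h.normalizer_le hk)) hm, ?_⟩
  calc n⁻¹ * k * m * t * (n⁻¹ * k * m)⁻¹ = n⁻¹ * (k * (m * t * m⁻¹) * k⁻¹) * n := by group
    _ = n⁻¹ * (n * s * n⁻¹) * n := by rw [hke]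
    _ = s := by group

theorem transitive_omega (h : TopCtx p S M) {a b : G} (ha : a ∈ (S : Subgroup G))
    (ha2 : orderOf a = 2) (hb : b ∈ (S : Subgroup G)) (hb2 : orderOf b = 2) :
    ∃ n ∈ normalizer ((S : Subgroup G) : Set G), n * a * n⁻¹ = b :=
  fusion_in_sylow h ha hb (H50.se_isConj (isStronglyEmbedded_top h) ha2 hb2)

end Cfsg.Agent.H60.PP
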