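import Cfsg.Agent.H60.OddActionEightMain
import Cfsg.Agent.H60.OctahedralQ8
import Cfsg.Agent.H19.Cores
import Cfsg.Agent.H40.PCore
import Cfsg.Agent.H77.SolvableCore

/-!
Solvable groups minimal with a non-cyclic abelian subgroup of order eight.
-/

set_option autoImplicit false

open Subgroup
open scoped commutatorElement

namespace Cfsg.Agent.H60.EightFree

variable {S : Type*} [Group S] [Finite S]

/-- A subgroup generated by a Hall complement and a smaller 2-subgroup is proper of 2-power index. -/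
theorem not_bad_of_small {K R : Subgroup S} {k : ℕ} (hKi : K.index = 2 ^ k)
    (hKR : K ≤ normalizer (R : Set S)) (hlt : Nat.card R < 2 ^ k)
    (hmin : ∀ R : Subgroup S, R ≠ ⊤ → (∃ k : ℕ, R.index = 2 ^ k) →
      ¬ ∃ A : Subgroup S, A ≤ R ∧ IsMulCommutative ↥A ∧ ¬ IsCyclic ↥A ∧ Nat.card ↥A = 8) :
    ¬ Bad R := by
  intro hb
  have hdvd : (R ⊔ K).index ∣ 2 ^ k := hKi ▸ Subgroup.index_dvd_of_le le_sup_right
  obtain ⟨j, -, hj⟩ := (Nat.dvd_prime_pow Nat.prime_two).1 hdvd
  refine hmin (R ⊔ K) (fun htop => ?_) ⟨j, hj⟩ (hb.mono le_sup_left)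
  have hsurj : Function.Surjective (fun p : R × K => (p.1 : S) * p.2) := fun x => by
    obtain ⟨p, hp, c, hc, hx⟩ := decomp hKR (show x ∈ R ⊔ K by rw [htop]; exact mem_top x)
    exact ⟨(⟨p, hp⟩, ⟨c, hc⟩), hx⟩
  have h := Nat.card_le_card_of_surjective _ hsurj
  rw [Nat.card_prod, ← Subgroup.card_mul_index K, hKi, mul_comm (Nat.card R)] at h
  exact absurd (Nat.le_of_mul_le_mul_left h Nat.card_pos) (not_le.2 hlt)

theorem card_le_centralizer_mul (Y : Subgroup S) [Y.Normal] {n : ℕ} (hfin : Finite (MulAut Y))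
    (hn : Nat.card (MulAut Y) ≤ n) : Nat.card S ≤ Nat.card (centralizer (Y : Set S)) * n := by
  set ψ : S →* MulAut Y := MulAut.conjNormal with hψ
  haveI := hfin
  have hker : ψ.ker ≤ centralizer (Y : Set S) := by
    intro g hg
    refine mem_centralizer_iff.2 fun y hy => ?_
    have h : g * y * g⁻¹ = y := by
      have := DFunLike.congr_fun (MonoidHom.mem_ker.1 hg) (⟨y, hy⟩ : Y)
      exact congrArg Subtype.val this
    exact (mul_inv_eq_iff_eq_mul.1 h).symm
  rw [← Subgroup.card_mul_index ψ.ker, Subgroup.index_ker]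
  exact Nat.mul_le_mul (Subgroup.card_le_of_le hker) (le_trans (Nat.card_le_card_of_injective Subtype.val Subtype.val_injective) hn)

theorem mulAut_four {Y : Subgroup S} (h4 : Nat.card Y = 4) :
    Finite (MulAut Y) ∧ Nat.card (MulAut Y) ≤ 6 := by
  classical
  haveI : Finite (MulAut Y) := Finite.of_injective (fun σ : MulAut Y => (σ : Y → Y))
    fun a b h => MulEquiv.ext (congrFun h)
  refine ⟨inferInstance, ?_⟩
  let f : MulAut Y → Equiv.Perm {y : Y // y ≠ 1} := fun σ => σ.toEquiv.subtypeEquiv fun y =>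
    (not_congr σ.map_eq_one_iff).symm
  have hf : Function.Injective f := fun a b h => MulEquiv.ext fun y => by
    by_cases hy : y = 1
    · rw [hy, map_one, map_one]
    · exact congrArg Subtype.val (Equiv.congr_fun h ⟨y, hy⟩)
  refine (Nat.card_le_card_of_injective f hf).trans ?_
  haveI := Fintype.ofFinite Y
  rw [Nat.card_eq_fintype_card] at h4
  rw [Nat.card_perm, Nat.card_eq_fintype_card, Fintype.card_subtype_compl, Fintype.card_subtype_eq, h4]
  rfl

/-- The Sylow 2-subgroup is normal. -/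
theorem sylow_normal [Group.IsSolvable S] (hO : Cfsg.pPrimeCore 2 S = ⊥)
    (h8 : ∃ A : Subgroup S, IsMulCommutative ↥A ∧ ¬ IsCyclic ↥A ∧ Nat.card ↥A = 8)
    (hmin : ∀ R : Subgroup S, R ≠ ⊤ → (∃ k : ℕ, R.index = 2 ^ k) →
      ¬ ∃ A : Subgroup S, A ≤ R ∧ IsMulCommutative ↥A ∧ ¬ IsCyclic ↥A ∧ Nat.card ↥A = 8)
    (X : Sylow 2 S) {K : Subgroup S} {k : ℕ} (hKi : K.index = 2 ^ k) (hKo : Odd (Nat.card K))
    (hXc : Nat.card X = 2 ^ k) : (X : Subgroup S).Normal := by
  classical
  haveI : Fact (Nat.Prime 2) := ⟨Nat.prime_two⟩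
  obtain ⟨A, hAc, hAn, hA8⟩ := h8
  obtain ⟨P, hP⟩ := (IsPGroup.of_card (n := 3) (by rw [hA8]; norm_num) : IsPGroup 2 ↥A).exists_le_sylow
  have hPc : Nat.card P = 2 ^ k := by
    rw [P.card_eq_multiplicity, ← X.card_eq_multiplicity, hXc]
  set Y := Cfsg.pCore 2 S with hYdef
  haveI hYn : Y.Normal := H19.pCore_normal 2 S
  have hY2 : IsPGroup 2 ↥Y := H40.isPGroup_pCore 2 S
  have hC : centralizer (Y : Set S) ≤ Y := H77.centralizer_pCore_le (G := S) 2 hO
  by_contra hXn
  have hle : ∀ Q : Sylow 2 S, Y ≤ Q := fun Q => by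
    obtain ⟨Q', hQ'⟩ := hY2.exists_le_sylow
    obtain ⟨g, hg⟩ := MulAction.exists_smul_eq S Q' Q
    intro z hz
    rw [← hg, Sylow.coe_subgroup_smul]
    exact ⟨g⁻¹ * z * g, hQ' (by simpa using hYn.conj_mem z hz g⁻¹), by simp [mul_assoc]⟩
  have hlt : Nat.card Y < 2 ^ k := by
    rcases (Subgroup.card_le_of_le (hle X)).lt_or_eq with h | h
    · rwa [hXc] at h
    · exact absurd (Subgroup.eq_of_le_of_card_ge (hle X) h.ge ▸ hYn) hXn
  have hKY : K ≤ normalizer (Y : Set S) := fun g _ => by rw [normalizer_eq_top]; exact mem_top g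
  have hnb := not_bad_of_small hKi hKY hlt hmin
  have hK1 : K ≠ ⊥ := by
    intro h
    rw [h, Subgroup.index_bot] at hKi
    apply hXn
    rw [Subgroup.eq_top_of_card_eq _ (hXc.trans hKi.symm)]
    infer_instance
  have hK3 : 3 ≤ Nat.card K := by
    have h1 : Nat.card K ≠ 1 := fun h => hK1 (Subgroup.eq_bot_of_card_eq _ h)
    have h2 := Nat.card_pos (α := K)
    obtain ⟨m, hm⟩ := hKo
    omega
  have hSY : Setup K Y := ⟨hY2, hKo, hKY, fun h => hK1 (eq_bot_iff.2 fun x hx => by
      have hxY : x ∈ Y := hC (h hx)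
      obtain ⟨j, hj⟩ := hY2 ⟨x, hxY⟩
      have d1 : orderOf x ∣ 2 ^ j := orderOf_dvd_of_pow_eq_one (congrArg Subtype.val hj)
      have d2 : orderOf x ∣ Nat.card K := Subgroup.orderOf_dvd_natCard (s := K) hx
      exact (mem_bot).2 (orderOf_eq_one_iff.1
        (Nat.eq_one_of_dvd_coprimes ((Nat.coprime_two_left.2 hKo).pow_left j) d1 d2))),
    fun R hR _ hb => hnb (hb.mono hR.le)⟩
  have hScard : Nat.card K * 2 ^ k = Nat.card S := by rw [← hKi]; exact Subgroup.card_mul_index K
  rcases small_of_shape hSY hnb (classify Y hSY) with ⟨h4, h4c⟩ | ⟨⟨e⟩⟩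
  · obtain ⟨hfin, h6⟩ := mulAut_four h4
    have h := card_le_centralizer_mul Y hfin h6
    have h' := Subgroup.card_le_of_le hC
    rw [h4] at h'
    have hA' := Subgroup.card_le_of_le hP
    rw [hA8, hPc] at hA'
    rw [← hScard] at h
    have hk8 : 2 ^ k = 8 := by
      have : 3 * 2 ^ k ≤ 4 * 6 := (Nat.mul_le_mul_right _ hK3).trans (h.trans (Nat.mul_le_mul_right _ h'))
      omega
    have hPA : A = (P : Subgroup S) := Subgroup.eq_of_le_of_card_ge hP (by rw [hA8, hPc, hk8])
    have hPY : (P : Subgroup S) ≤ Y := fun x hx => hC (mem_centralizer_iff.2 fun y hy =>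
      comm_of hAc (hPA ▸ hle P hy) (hPA ▸ hx))
    have := Subgroup.card_le_of_le hPY
    omega
  · obtain ⟨hY8, ⟨a₀, ha₀, b₀, hb₀, hab₀⟩, ⟨z, hzY, hz1, hz2, hzuniq, hzsq⟩, -⟩ := q8_facts e
    have hfin : Finite (MulAut Y) ∧ Nat.card (MulAut Y) ≤ 24 := by
      obtain ⟨hf, h24⟩ := Octa.card_mulAut_le
      haveI := hf
      exact ⟨Finite.of_equiv _ (MulAut.congr e).symm.toEquiv,
        (Nat.card_congr (MulAut.congr e).toEquiv).trans_le h24⟩
    have h := card_le_centralizer_mul Y hfin.1 hfin.2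
    have hC2 : Nat.card (centralizer (Y : Set S)) ≤ 2 := by
      have hsub : (centralizer (Y : Set S) : Set S) ⊆ {1, z} := fun x hx => by
        rcases (hzsq x (hC hx)).1 with h | h
        · exact hzuniq x (hC hx) h
        · exfalso
          have hq : ∀ r : QuaternionGroup 2, r * r ≠ 1 → ∃ s, r * s ≠ s * r := by decide +kernel
          obtain ⟨s, hs⟩ := hq (e ⟨x, hC hx⟩) (fun h' => hz1 (by
            rw [← map_mul, e.map_eq_one_iff] at h'
            rw [← h]; exact congrArg Subtype.val h'))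
          apply hs
          obtain ⟨s, rfl⟩ := e.surjective s
          rw [← map_mul, ← map_mul]
          exact congrArg e (Subtype.ext (mem_centralizer_iff.1 hx s s.2).symm)
      have h' := Set.ncard_le_ncard hsub (Set.toFinite _)
      rw [Set.ncard_pair (Ne.symm hz1), ← Nat.card_coe_set_eq] at h'
      exact h'
    rw [← hScard] at h
    have hk16 : 2 ^ k ≤ 16 := by
      have : 3 * 2 ^ k ≤ 2 * 24 := (Nat.mul_le_mul_right _ hK3).trans (h.trans (Nat.mul_le_mul_right _ hC2))
      omega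
    have hAY : 4 ≤ Nat.card ↥(Y ⊓ A) := by
      have h1 := Subgroup.card_le_of_le (sup_le (hle P) hP : Y ⊔ A ≤ P)
      have h2 := Subgroup.relIndex_mul_relIndex ⊥ Y (Y ⊔ A) bot_le le_sup_left
      have h3 := Subgroup.relIndex_mul_relIndex ⊥ (Y ⊓ A) A bot_le inf_le_right
      rw [Subgroup.relIndex_bot_left, Subgroup.relIndex_bot_left, sup_comm, Subgroup.relIndex_sup_right,
        hY8] at h2
      rw [Subgroup.relIndex_bot_left, Subgroup.relIndex_bot_left, Subgroup.inf_relIndex_right, hA8] at h3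
      rw [hPc, sup_comm] at h1
      have h4 : Y.relIndex A ≤ 2 := by omega
      have h5 : Nat.card ↥(Y ⊓ A) * Y.relIndex A ≤ Nat.card ↥(Y ⊓ A) * 2 := Nat.mul_le_mul_left _ h4
      omega
    obtain ⟨i, hi, hi2⟩ : ∃ i ∈ Y ⊓ A, i * i ≠ 1 := by
      by_contra hall
      push Not at hall
      have hsub : ((Y ⊓ A : Subgroup S) : Set S) ⊆ {1, z} := fun x hx => hzuniq x hx.1 (hall x hx)
      have h' := Set.ncard_le_ncard hsub (Set.toFinite _)
      rw [Set.ncard_pair (Ne.symm hz1), ← Nat.card_coe_set_eq] at h'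
      change Nat.card ↥(Y ⊓ A) ≤ 2 at h'
      omega
    obtain ⟨a, haA, haY, ha2⟩ : ∃ a ∈ A, a ∉ Y ∧ a * a = 1 := by
      by_contra hall
      push Not at hall
      refine hAn (H21.isCyclic_of_comm_unique (p := 2) (IsPGroup.of_card (n := 3) (by rw [hA8]; norm_num))
        ?_)
      have key : ∀ H : Subgroup A, Nat.card H = 2 → H.map A.subtype = zpowers z := by
        intro H hH
        obtain ⟨s, hs⟩ := exists_prime_orderOf_dvd_card' (G := H) 2 (by rw [hH])
        have hso : orderOf ((s : A) : S) = 2 := by rw [Subgroup.orderOf_coe, Subgroup.orderOf_coe]; exact hs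
        have hs2 : ((s : A) : S) * (s : A) = 1 := by rw [← pow_two, ← hso, pow_orderOf_eq_one]
        have hsY : ((s : A) : S) ∈ Y := by
          by_contra hn
          exact hall _ (s : A).2 hn hs2
        have hsz : ((s : A) : S) = z := (hzuniq _ hsY hs2).resolve_left
          fun e1 => by rw [e1, orderOf_one] at hso; omega
        refine (Subgroup.eq_of_le_of_card_ge ?_ ?_).symm
        · rw [zpowers_le, ← hsz]; exact mem_map_of_mem _ s.2
        · rw [Subgroup.card_map_of_injective A.subtype_injective, hH, Nat.card_zpowers, ← hsz, hso]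
      exact fun H H' h1 h2 => Subgroup.map_injective A.subtype_injective ((key H h1).trans (key H' h2).symm)
    have hai : a * i = i * a := comm_of hAc haA hi.2
    have hq : ∀ r : QuaternionGroup 2, r * r ≠ 1 → ∃ s, r * s ≠ s * r ∧
        (∀ y, ∃ m : Fin 4, y = r ^ (m : ℕ) ∨ y = s * r ^ (m : ℕ)) ∧ r * s * r⁻¹ = s * (r * r) ∧
        r * r * (r * r) = 1 ∧
        ∀ m : Fin 4, s * r ^ (m : ℕ) * r ^ (m : ℕ) = s → s * r ^ (m : ℕ) = s ∨ s * r ^ (m : ℕ) = s * (r * r) := by
      decide +kernel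
    obtain ⟨s, hrs, hgen, hconj, h4, heven⟩ := hq (e ⟨i, hi.1⟩) (fun h' => hi2 (by
      rw [← map_mul, e.map_eq_one_iff] at h'; exact congrArg Subtype.val h'))
    set r : Y := ⟨i, hi.1⟩ with hr
    set j : Y := e.symm s with hj
    have hsj : s = e j := (e.apply_symm_apply s).symm
    have hgen' : ∀ y ∈ Y, ∃ m : ℕ, y = i ^ m ∨ y = (j : S) * i ^ m := by
      intro y hy
      obtain ⟨m, hm⟩ := hgen (e ⟨y, hy⟩)
      refine ⟨m, hm.imp (fun h => ?_) (fun h => ?_)⟩
      · rw [← map_pow] at h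
        simpa [hr] using congrArg Subtype.val (e.injective h)
      · rw [hsj, ← map_pow, ← map_mul] at h
        simpa [hr] using congrArg Subtype.val (e.injective h)
    have hcentY : ∀ g : S, g * i = i * g → g * (j : S) = j * g → g ∈ Y := by
      intro g g1 g2
      refine hC (mem_centralizer_iff.2 fun y hy => ?_)
      obtain ⟨m, rfl | rfl⟩ := hgen' y hy
      · exact ((show Commute g i from g1).pow_right m).eq.symm
      · exact ((show Commute g (j : S) from g2).mul_right ((show Commute g i from g1).pow_right m)).eq.symm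
    have hai' : ∀ m : ℕ, a * i ^ m * a⁻¹ = i ^ m := fun m => by
      rw [((show Commute a i from hai).pow_right m).eq, mul_inv_cancel_right]
    have hainv : a⁻¹ = a := inv_eq_of_mul_eq_one_right ha2
    have hajY : a * (j : S) * a⁻¹ ∈ Y := hYn.conj_mem _ j.2 a
    obtain ⟨m, hm⟩ := hgen (e ⟨_, hajY⟩)
    rcases hm with hm | hm
    · apply hrs
      rw [← map_pow] at hm
      have h1 : a * (j : S) * a⁻¹ = i ^ (m : ℕ) := by simpa [hr] using congrArg Subtype.val (e.injective hm)
      have h2 : (j : S) = i ^ (m : ℕ) := by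
        rw [← hai' m, ← h1, hainv]
        calc (j : S) = a * a * j * (a * a) := by rw [ha2, one_mul, mul_one]
          _ = a * (a * j * a) * a := by group
      rw [hsj, ← map_mul, ← map_mul]
      refine congrArg e (Subtype.ext ?_)
      rw [Subgroup.coe_mul, Subgroup.coe_mul, h2]
      exact ((Commute.refl i).pow_right (m : ℕ)).eq
    · have hm' := hm
      rw [hsj, ← map_pow, ← map_mul] at hm
      have h1 : a * (j : S) * a⁻¹ = (j : S) * i ^ (m : ℕ) := by
        simpa [hr] using congrArg Subtype.val (e.injective hm)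
      have h2 : s * e r ^ (m : ℕ) * e r ^ (m : ℕ) = s := by
        rw [hsj, ← map_pow, ← map_mul, ← map_mul]
        refine congrArg e (Subtype.ext ?_)
        simp only [Subgroup.coe_mul, SubgroupClass.coe_pow, hr]
        rw [← h1]
        nth_rewrite 1 [← hai' m]
        calc a * (j : S) * a⁻¹ * (a * i ^ (m : ℕ) * a⁻¹) = a * ((j : S) * i ^ (m : ℕ)) * a⁻¹ := by group
          _ = a * (a * j * a⁻¹) * a⁻¹ := by rw [h1]
          _ = (j : S) := by
            rw [hainv]
            calc a * (a * j * a) * a = a * a * j * (a * a) := by group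
              _ = (j : S) := by rw [ha2, one_mul, mul_one]
      rcases heven m h2 with h3 | h3
      · rw [← hm', hsj] at h3
        have h4' : a * (j : S) * a⁻¹ = j := congrArg Subtype.val (e.injective h3)
        exact haY (hcentY a hai (mul_inv_eq_iff_eq_mul.1 h4'))
      · rw [← hm', ← hconj, hsj, ← map_inv, ← map_mul, ← map_mul] at h3
        have h4' : a * (j : S) * a⁻¹ = i * j * i⁻¹ := congrArg Subtype.val (e.injective h3)
        have hy : i⁻¹ * a ∈ Y := by
          refine hcentY _ ?_ ?_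
          · rw [mul_assoc, hai, ← mul_assoc, inv_mul_cancel, one_mul, mul_inv_cancel_left]
          · calc i⁻¹ * a * (j : S) = i⁻¹ * (a * (j : S) * a⁻¹) * a := by group
              _ = (j : S) * (i⁻¹ * a) := by rw [h4']; group
        exact haY (by simpa using mul_mem hi.1 hy)

end Cfsg.Agent.H60.EightFree
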