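import Cfsg.Agent.H60.SmallAbelianEight
import Cfsg.Agent.H20.Abelian
import Cfsg.Agent.H20.PxQ
import Cfsg.Agent.H20.Hall
import Cfsg.Agent.H23.QuaternionAut

/-!
An odd order group acting on a 2-group without bad subgroup: basic lemmas.
-/

set_option autoImplicit false

open Subgroup
open scoped commutatorElement

namespace Cfsg.Agent.H60.EightFree

variable {G : Type*} [Group G] [Finite G]

theorem coprime_of_odd {K Y : Subgroup G} (hK : Odd (Nat.card K)) (hY : IsPGroup 2 ↥Y) :
    (Nat.card K).Coprime (Nat.card Y) := by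
  haveI : Fact (Nat.Prime 2) := ⟨Nat.prime_two⟩
  obtain ⟨k, hk⟩ := IsPGroup.iff_card.1 hY
  rw [hk]
  exact (Nat.coprime_two_right.2 hK).pow_right k

theorem isSolvable_two {Y : Subgroup G} (hY : IsPGroup 2 ↥Y) : Group.IsSolvable Y := by
  haveI : Fact (Nat.Prime 2) := ⟨Nat.prime_two⟩
  haveI := hY.isNilpotent
  infer_instance

/-- A cyclic 2-subgroup normalised by a group of odd order is centralised. -/
theorem le_centralizer_of_isCyclic {K T : Subgroup G} (hK : Odd (Nat.card K)) (hT : IsPGroup 2 ↥T)
    (hc : IsCyclic ↥T) (hKT : K ≤ normalizer (T : Set G)) : K ≤ centralizer (T : Set G) := by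
  intro k hk
  have h := H23.mulAut_eq_one_of_isCyclic hT (H20.conjAut hKT ⟨k, hk⟩) (r := Nat.card K) hK (by
    rw [← map_pow, pow_card_eq_one', map_one])
  refine mem_centralizer_iff.2 fun t ht => ?_
  have h' := congrArg (fun σ : MulAut T => ((σ ⟨t, ht⟩ : T) : G)) h
  simp only [H20.coe_conjAut, MulAut.one_apply] at h'
  exact (mul_inv_eq_iff_eq_mul.1 h').symm

/-- A subgroup of order at most two normalised by `K` is centralised. -/
theorem le_centralizer_of_card_le_two {K T : Subgroup G} (hK : Odd (Nat.card K))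
    (hT : IsPGroup 2 ↥T) (h : Nat.card T ≤ 2) (hKT : K ≤ normalizer (T : Set G)) :
    K ≤ centralizer (T : Set G) := by
  refine le_centralizer_of_isCyclic hK hT ?_ hKT
  rcases (by have := Nat.card_pos (α := T); omega : Nat.card T = 1 ∨ Nat.card T = 2) with h1 | h2
  · haveI := (Nat.card_eq_one_iff_unique.1 h1).1
    infer_instance
  · haveI : Fact (Nat.Prime 2) := ⟨Nat.prime_two⟩
    exact isCyclic_of_prime_card h2

theorem fix_comm {K T : Subgroup G} (h : K ≤ centralizer (T : Set G)) : T ≤ centralizer (K : Set G) :=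
  le_centralizer_iff.1 h

/-- `K` centralises `Y` if it centralises an index two subgroup of `Y`. -/
theorem commutator_eq_bot_of_index_two {K Y U : Subgroup G} (hK : Odd (Nat.card K))
    (hY : IsPGroup 2 ↥Y) (hKY : K ≤ normalizer (Y : Set G)) (hUY : U ≤ Y)
    (hU : U.relIndex Y = 2) (hUK : U ≤ centralizer (K : Set G)) : ⁅Y, K⁆ = ⊥ := by
  have hKU : K ≤ normalizer (U : Set G) :=
    H20.le_normalizer_of_le_centralizer (le_centralizer_iff.1 hUK)
  have hle : ⁅Y, K⁆ ≤ U := by
    rw [commutator_le]
    intro y hy k hk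
    have hY' : k * y⁻¹ * k⁻¹ ∈ Y := H20.conj_mem_of_le_normalizer hKY hk (inv_mem hy)
    have hiff : k * y⁻¹ * k⁻¹ ∈ U ↔ y ∈ U := by
      constructor
      · intro h
        have := H20.inv_conj_mem_of_le_normalizer hKU hk h
        simpa [mul_assoc] using this
      · intro h
        exact H20.conj_mem_of_le_normalizer hKU hk (inv_mem h)
    have h2 : (U.subgroupOf Y).index = 2 := hU
    have := (Subgroup.mul_mem_iff_of_index_two h2 (a := (⟨y, hy⟩ : Y)) (b := ⟨_, hY'⟩)).2
      (by simp only [Subgroup.mem_subgroupOf]; exact hiff.symm)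
    rw [Subgroup.mem_subgroupOf, Subgroup.coe_mul] at this
    rw [commutatorElement_def]
    simpa [mul_assoc] using this
  rw [eq_bot_iff, ← H20.commutator_commutator_eq hKY (coprime_of_odd hK hY) (Or.inr (isSolvable_two hY))]
  exact (commutator_mono hle le_rfl).trans (le_of_eq (commutator_eq_bot_iff_le_centralizer.2 hUK))

/-- In a cyclic group, subgroups are ordered by their cardinality. -/
theorem le_of_card_dvd {A H H' : Subgroup G} (hA : IsCyclic ↥A) (hH : H ≤ A) (hH' : H' ≤ A)
    (h : Nat.card H ∣ Nat.card H') : H ≤ H' := by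
  classical
  haveI := hA
  haveI := Fintype.ofFinite A
  intro x hx
  set S := Finset.univ.filter (fun a : A => a ^ Nat.card H' = 1)
  have hle : S.card ≤ Nat.card H' := IsCyclic.card_pow_eq_one_le Nat.card_pos
  have hsub : Finset.univ.filter (fun a : A => (a : G) ∈ H') ⊆ S := by
    intro a ha
    simp only [Finset.mem_filter, Finset.mem_univ, true_and] at ha
    simp only [S, Finset.mem_filter, Finset.mem_univ, true_and]
    exact Subtype.ext (congrArg Subtype.val (pow_card_eq_one' (x := (⟨(a : G), ha⟩ : H'))) :)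
  have hcard : (Finset.univ.filter (fun a : A => (a : G) ∈ H')).card = Nat.card H' := by
    rw [← Nat.card_congr (Subgroup.subgroupOfEquivOfLe hH').toEquiv, ← Nat.card_eq_finsetCard]
    exact Nat.card_congr ((Equiv.refl _).subtypeEquiv fun a => by simp [Subgroup.mem_subgroupOf])
  have heq := Finset.eq_of_subset_of_card_le hsub (by omega)
  have hxS : (⟨x, hH hx⟩ : A) ∈ S := by
    simp only [S, Finset.mem_filter, Finset.mem_univ, true_and]
    refine Subtype.ext ?_
    obtain ⟨m, hm⟩ := h
    rw [hm, Subgroup.coe_pow, pow_mul,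
      show x ^ Nat.card H = 1 from congrArg Subtype.val (pow_card_eq_one' (x := (⟨x, hx⟩ : H))), one_pow]
    rfl
  rw [← heq] at hxS
  simpa using hxS

theorem not_isCyclic_sup {i c : G} {n : ℕ} (hi : i ∉ zpowers c) (hc : c ∉ zpowers i)
    (ho : orderOf i = 2 ^ n) {m : ℕ} (ho' : orderOf c = 2 ^ m) : ¬ IsCyclic ↥(zpowers i ⊔ zpowers c) := by
  intro h
  rcases le_total n m with hle | hle
  · exact hi (le_of_card_dvd h le_sup_left le_sup_right
      (by rw [Nat.card_zpowers, Nat.card_zpowers, ho, ho']; exact pow_dvd_pow 2 hle) (mem_zpowers i))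
  · exact hc (le_of_card_dvd h le_sup_right le_sup_left
      (by rw [Nat.card_zpowers, Nat.card_zpowers, ho, ho']; exact pow_dvd_pow 2 hle) (mem_zpowers c))

end Cfsg.Agent.H60.EightFree
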