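import Cfsg.Agent.H60.OddActionEightStructure
import Cfsg.Agent.H83.Basic

/-!
Classification of 2-groups with an odd order action and all proper invariant subgroups without bad subgroup.
-/

set_option autoImplicit false

open Subgroup
open scoped commutatorElement

namespace Cfsg.Agent.H60.EightFree

variable {G : Type*} [Group G] [Finite G]

theorem decomp {P C : Subgroup G} (h : C ≤ normalizer (P : Set G)) {x : G} (hx : x ∈ P ⊔ C) :
    ∃ p ∈ P, ∃ c ∈ C, p * c = x := by
  rw [← SetLike.mem_coe, coe_mul_of_right_le_normalizer_left P C h] at hx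
  exact hx

theorem exists_half {C : Subgroup G} {F : Subgroup G} (hC : IsPGroup 2 ↥C) (hFC : F ≤ C) {i : ℕ}
    (hF : Nat.card F = 2 ^ i) (hlt : 2 ^ (i + 1) < Nat.card C) :
    ∃ C' : Subgroup G, F ≤ C' ∧ C' ≤ C ∧ C' ≠ C ∧ Nat.card C' = 2 ^ (i + 1) := by
  haveI : Fact (Nat.Prime 2) := ⟨Nat.prime_two⟩
  obtain ⟨k, hk⟩ := IsPGroup.iff_card.1 hC
  have hik : i + 1 ≤ k := by
    by_contra h
    rw [hk] at hlt
    exact absurd hlt (not_lt.2 (Nat.pow_le_pow_right (by norm_num) (by omega)))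
  obtain ⟨B, hB, hle⟩ := Sylow.exists_subgroup_card_pow_prime_le 2 (n := i) (m := i + 1)
    (hk ▸ pow_dvd_pow 2 hik) (F.subgroupOf C)
    (by rw [Nat.card_congr (Subgroup.subgroupOfEquivOfLe hFC).toEquiv, hF]) (Nat.le_succ i)
  have hcB : Nat.card (B.map C.subtype) = 2 ^ (i + 1) := by
    rw [Subgroup.card_map_of_injective C.subtype_injective, hB]
  refine ⟨B.map C.subtype, fun x hx => ⟨⟨x, hFC hx⟩, hle hx, rfl⟩, map_subtype_le B, fun e => ?_, hcB⟩
  rw [e] at hcB; omega

theorem relIndex_eq_two {P Y : Subgroup G} {a : G} (ha : a ∈ Y)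
    (h : ∀ b ∈ Y, (b * a ∈ P ↔ b ∉ P)) : P.relIndex Y = 2 := by
  show (P.subgroupOf Y).index = 2
  rw [Subgroup.index_eq_two_iff]
  refine ⟨⟨a, ha⟩, fun b => xor_iff_iff_not.2 ?_⟩
  simp only [Subgroup.mem_subgroupOf, Subgroup.coe_mul]
  exact h b b.2

theorem isCyclic_of_index_le_two {Y : Subgroup G} (hY : IsPGroup 2 ↥Y)
    (h : (frattini Y).index ≤ 2) : IsCyclic ↥Y := by
  haveI : Fact (Nat.Prime 2) := ⟨Nat.prime_two⟩
  haveI : IsCyclic (↥Y ⧸ frattini Y) := by
    rw [Subgroup.index_eq_card] at h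
    have hpos := Nat.card_pos (α := ↥Y ⧸ frattini Y)
    rcases (by omega : Nat.card (↥Y ⧸ frattini Y) = 1 ∨ Nat.card (↥Y ⧸ frattini Y) = 2) with h1 | h1
    · haveI := (Nat.card_eq_one_iff_unique.1 h1).1
      infer_instance
    · exact isCyclic_of_prime_card h1
  exact H24.isCyclic_of_quotient (frattini Y) le_rfl

theorem not_isCyclic_of_setup {K Y : Subgroup G} (S : Setup K Y) : ¬ IsCyclic ↥Y :=
  fun h => S.nontriv (le_centralizer_of_isCyclic S.odd S.two h S.norm)

/-- Without bad subgroups only the four-group and the quaternion group remain. -/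
theorem small_of_shape {K Y : Subgroup G} (S : Setup K Y) (hnb : ¬ Bad Y) (h : Shape Y) :
    (Nat.card ↥Y = 4 ∧ IsMulCommutative ↥Y) ∨ Nonempty (↥Y ≃* QuaternionGroup 2) := by
  rcases h with hc | ⟨-, hb, -⟩ | ⟨_, -, -, -, -, hb⟩ | ⟨-, -, hb⟩ | hq
  · have hnc := not_isCyclic_of_setup S
    have h4 := four_le_of_not_isCyclic S.two hnc
    refine Or.inl ⟨?_, hc⟩
    by_contra h
    exact hnb (bad_of_comm S.two le_rfl hc hnc (eight_le_of_four_lt S.two (by omega)))
  · exact absurd hb hnb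
  · exact absurd hb hnb
  · exact absurd hb hnb
  · exact Or.inr hq

/-- Case: the Frattini subgroup is a four-group. -/
theorem four_case {K Y : Subgroup G} (S : Setup K Y) (hna : ¬ IsMulCommutative ↥Y)
    (h4 : Nat.card ↥((frattini Y).map Y.subtype) = 4)
    (hcomm : IsMulCommutative ↥((frattini Y).map Y.subtype))
    (hnc : ¬ IsCyclic ↥((frattini Y).map Y.subtype)) :
    Cfsg.IsSpecial 2 ↥Y ∧ Nat.card ↥(center ↥Y) = 4 ∧ Bad Y := by
  classical
  haveI : Fact (Nat.Prime 2) := ⟨Nat.prime_two⟩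
  set Φ := (frattini Y).map Y.subtype with hΦ
  have hΦY : Φ ≤ Y := map_subtype_le _
  have hΦK : K ≤ normalizer (Φ : Set G) := H20.le_normalizer_map_characteristic S.norm _
  have hYncyc : ¬ IsCyclic ↥Y := not_isCyclic_of_setup S
  have hΦne : Φ ≠ Y := by
    intro e
    exact hna (e ▸ hcomm)
  have hsmall : ∀ A : Subgroup G, Φ ≤ A → A ≤ Y → Φ.relIndex Y ≤ 2 → False := fun A _ _ h => by
    refine hYncyc (isCyclic_of_index_le_two S.two ?_)
    have e : Φ.subgroupOf Y = frattini Y :=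
      Subgroup.comap_map_eq_self_of_injective Y.subtype_injective _
    rw [← e]
    exact h
  -- `Φ` is central
  have hΦc : Φ ≤ centralizer (Y : Set G) := by
    obtain ⟨w, hw, hwc, hwo⟩ := H24.exists_central_orderOf S.two (N := frattini Y) (fun e => by
      rw [hΦ, e, Subgroup.map_bot, Subgroup.card_bot] at h4; omega)
    have hwΦ : (w : G) ∈ Φ := mem_map_of_mem _ hw
    obtain ⟨b, hbΦ, hbw⟩ : ∃ b ∈ Φ, b ∉ zpowers (w : G) := by
      by_contra h
      push Not at h
      have := Subgroup.card_le_of_le (fun a ha => h a ha : Φ ≤ zpowers (w : G))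
      rw [h4, Nat.card_zpowers, Subgroup.orderOf_coe, hwo] at this
      omega
    set C := Y ⊓ centralizer (Φ : Set G) with hC
    by_contra hnot
    have hCne : C ≠ Y := fun e => hnot (fix_comm (e ▸ inf_le_right : Y ≤ centralizer (Φ : Set G)))
    have hΦC : Φ ≤ C := le_inf hΦY (fun a ha => mem_centralizer_iff.2 fun c hc => comm_of hcomm hc ha)
    have hCK : K ≤ normalizer (C : Set G) :=
      H20.le_normalizer_inf S.norm (H20.le_normalizer_centralizer hΦK)
    have hCb : ¬ Bad C := S.min C (lt_of_le_of_ne inf_le_left hCne) hCK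
    obtain ⟨hCΦ, -⟩ := eq_of_central (S.two.to_le inf_le_left) hCb hΦC
      (fix_comm inf_le_right) hnc
    refine hsmall C hΦC inf_le_left ?_
    have hwcen : ∀ a ∈ Y, a * (w : G) = (w : G) * a := fun a ha =>
      congrArg Subtype.val (mem_center_iff.1 hwc ⟨a, ha⟩)
    have hgen : zpowers (w : G) ⊔ zpowers b = Φ := by
      have hle : zpowers (w : G) ⊔ zpowers b ≤ Φ := sup_le (zpowers_le.2 hwΦ) (zpowers_le.2 hbΦ)
      refine Subgroup.eq_of_le_of_card_ge hle ?_
      have hd := Subgroup.card_dvd_of_le hle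
      rw [h4] at hd ⊢
      have h2 : 2 < Nat.card ↥(zpowers (w : G) ⊔ zpowers b) := by
        rcases (Subgroup.card_le_of_le (le_sup_left : zpowers (w : G) ≤ zpowers (w : G) ⊔ zpowers b)).lt_or_eq
          with h | h
        · rwa [Nat.card_zpowers, Subgroup.orderOf_coe, hwo] at h
        · exact absurd ((Subgroup.eq_of_le_of_card_ge (le_sup_left : zpowers (w : G) ≤ _) h.ge) ▸
            (mem_sup_right (mem_zpowers b) : b ∈ zpowers (w : G) ⊔ zpowers b)) hbw
      have := Nat.le_of_dvd (by norm_num) hd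
      interval_cases hk : Nat.card ↥(zpowers (w : G) ⊔ zpowers b) <;> omega
    have hYb : Y ⊓ centralizer ({b} : Set G) ≤ C := by
      intro y hy
      refine mem_inf.2 ⟨hy.1, ?_⟩
      have : Φ ≤ centralizer ({y} : Set G) := hgen ▸ sup_le
        (zpowers_le.2 (mem_centralizer_singleton_iff.2 (hwcen y hy.1).symm))
        (zpowers_le.2 (mem_centralizer_singleton_iff.2 (mem_centralizer_singleton_iff.1 hy.2).symm))
      exact mem_centralizer_iff.2 fun a ha => mem_centralizer_singleton_iff.1 (this ha)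
    have hYn : Y ≤ normalizer (Φ : Set G) := H20.le_normalizer_map_characteristic Subgroup.le_normalizer _
    have hUlt : ⁅Φ, Y⁆ < Φ := H20.commutator_lt_of_isPGroup (S.two.to_le hΦY) S.two hYn
      fun e => by rw [e, Subgroup.card_bot] at h4; omega
    have hU2 : Nat.card ↥⁅Φ, Y⁆ ≤ 2 := by
      have hd := Subgroup.card_dvd_of_le hUlt.le
      rw [h4] at hd
      have hne : Nat.card ↥⁅Φ, Y⁆ ≠ 4 := fun e4 =>
        hUlt.ne (Subgroup.eq_of_le_of_card_ge hUlt.le (by omega))
      have := Nat.le_of_dvd (by norm_num) hd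
      interval_cases hk : Nat.card ↥⁅Φ, Y⁆ <;> omega
    have h := H24.relIndex_le_card_of_commutator Y b ((⁅Φ, Y⁆ : Subgroup G) : Set G) fun g hg => by
      have := inv_mem (commutator_mem_commutator hbΦ hg : ⁅b, g⁆ ∈ ⁅Φ, Y⁆)
      rwa [commutatorElement_inv] at this
    have h2 : (Y ⊓ centralizer ({b} : Set G)).relIndex Y ≤ 2 := h.trans hU2
    refine le_trans (Nat.le_of_dvd ?_ (Subgroup.relIndex_dvd_of_le_left Y (hYb.trans hCΦ.le))) h2
    exact Nat.pos_of_ne_zero
      (Subgroup.index_ne_zero_of_finite : ((Y ⊓ centralizer ({b} : Set G)).subgroupOf Y).index ≠ 0)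
  set Z := (center Y).map Y.subtype with hZ
  have hZY : Z ≤ Y := map_subtype_le _
  have hZc : Z ≤ centralizer (Y : Set G) := by
    rintro _ ⟨a, ha, rfl⟩
    exact mem_centralizer_iff.2 fun b hb => congrArg Subtype.val (mem_center_iff.1 ha ⟨b, hb⟩)
  have hΦZ : Φ ≤ Z := fun a ha => ⟨⟨a, hΦY ha⟩, mem_center_iff.2 fun b =>
    Subtype.ext (mem_centralizer_iff.1 (hΦc ha) b b.2), rfl⟩
  have hZne : Z ≠ Y := fun e => hna (isMulCommutative_of_forall fun a ha b hb =>
    mem_centralizer_iff.1 (hZc (e ▸ hb)) a ha)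
  have hZK : K ≤ normalizer (Z : Set G) := H20.le_normalizer_map_characteristic S.norm _
  have hZΦ : Z = Φ := (eq_of_central (S.two.to_le hZY) (S.min Z (lt_of_le_of_ne hZY hZne) hZK) hΦZ
    (fun a ha => mem_centralizer_iff.2 fun b hb => mem_centralizer_iff.1 (hΦc ha) b (hZY hb)) hnc).1
  have hBad : Bad Y := by
    by_contra h
    exact hΦne (eq_of_central S.two h hΦY hΦc hnc).1.symm
  have hsqΦ : ∀ y ∈ Y, y ^ 2 ∈ Φ := fun y hy =>
    ⟨⟨y, hy⟩ ^ 2, H24.pow_mem_frattini S.two ⟨y, hy⟩, rfl⟩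
  have hbrΦ : ∀ y ∈ Y, ∀ u ∈ Y, ⁅y, u⁆ ∈ Φ := fun y hy u hu =>
    ⟨⁅(⟨y, hy⟩ : Y), ⟨u, hu⟩⁆, H24.commutator_le_frattini S.two
      (commutator_mem_commutator (mem_top _) (mem_top _)), rfl⟩
  have hcenΦ : ∀ a ∈ Φ, ∀ b ∈ Y, a * b = b * a := fun a ha b hb =>
    (mem_centralizer_iff.1 (hΦc ha) b hb).symm
  set D := ⁅Y, Y⁆ with hD
  have hDΦ : D ≤ Φ := commutator_le.2 fun y hy u hu => hbrΦ y hy u hu
  have hDeq : D = Φ := by
    by_contra hne
    have hD2 : Nat.card D ≤ 2 := by
      have hd := Subgroup.card_dvd_of_le hDΦ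
      rw [h4] at hd
      have hne' : Nat.card D ≠ 4 := fun e4 => hne (Subgroup.eq_of_le_of_card_ge hDΦ (by omega))
      have := Nat.le_of_dvd (by norm_num) hd
      interval_cases hk : Nat.card D <;> omega
    have hDcard : Nat.card D = 2 := by
      have := Nat.card_pos (α := D)
      by_contra h
      have h1 : D = ⊥ := Subgroup.eq_bot_of_card_eq _ (by omega)
      exact hna (isMulCommutative_of_forall fun a ha b hb => commutatorElement_eq_one_iff_mul_comm.1
        ((mem_bot).1 (h1 ▸ commutator_mem_commutator ha hb)))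
    have hmul : ∀ a ∈ Y, ∀ b ∈ Y, (a * b) ^ 2 = a ^ 2 * ⁅a⁻¹, b⁆ * b ^ 2 := fun a _ b _ => by
      simp only [pow_two, commutatorElement_def]; group
    let N : Subgroup G :=
      { carrier := {y | y ∈ Y ∧ y ^ 2 ∈ D}
        one_mem' := ⟨one_mem Y, by simp⟩
        mul_mem' := fun {a b} ha hb => ⟨mul_mem ha.1 hb.1, by
          rw [hmul a ha.1 b hb.1]
          exact mul_mem (mul_mem ha.2 (commutator_mem_commutator (inv_mem ha.1) hb.1)) hb.2⟩
        inv_mem' := fun {a} ha => ⟨inv_mem ha.1, by rw [inv_pow]; exact inv_mem ha.2⟩ }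
    have hDK : K ≤ normalizer (D : Set G) := H83.le_normalizer_commutator S.norm S.norm
    have hNK : K ≤ normalizer (N : Set G) := by
      rw [Subgroup.le_normalizer_iff]
      intro k hk y hy
      refine ⟨H20.conj_mem_of_le_normalizer S.norm hk hy.1, ?_⟩
      rw [conj_pow]
      exact H20.conj_mem_of_le_normalizer hDK hk hy.2
    have hΦN : Φ ≤ N := fun a ha => ⟨hΦY ha, by
      have h1 : a ^ 2 = 1 := by
        by_contra h
        apply hnc
        have ho : orderOf a = 2 ^ 2 := orderOf_eq_prime_pow (by simpa using h) (by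
          have := congrArg Subtype.val (pow_card_eq_one' (x := (⟨a, ha⟩ : Φ)))
          rw [h4] at this
          simpa using this)
        exact isCyclic_of_orderOf_eq_card (⟨a, ha⟩ : Φ) (by rw [Subgroup.orderOf_mk, ho, h4]; norm_num)
      rw [h1]; exact one_mem D⟩
    have hNY : N ≤ Y := fun y hy => hy.1
    have hNne : N ≠ Y := by
      intro e
      apply hne
      refine le_antisymm hDΦ ?_
      rintro _ ⟨a, ha, rfl⟩
      exact (H24.frattini_le_of (p := 2) (D.subgroupOf Y)
        (commutator_le.2 fun u _ v _ => commutator_mem_commutator u.2 v.2)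
        (fun x => (e.ge x.2).2) ha)
    have hNΦ : N = Φ := (eq_of_central (S.two.to_le hNY) (S.min N (lt_of_le_of_ne hNY hNne) hNK) hΦN
      (fun a ha => mem_centralizer_iff.2 fun b hb => (hcenΦ a ha b (hNY hb)).symm) hnc).1
    obtain ⟨a, ha, haN⟩ : ∃ a ∈ Y, a ∉ N := by
      by_contra h
      push Not at h
      exact hNne (le_antisymm hNY fun y hy => h y hy)
    have hrel : N.relIndex Y = 2 := by
      refine relIndex_eq_two ha fun b hb => ⟨fun h hbN => haN ?_, fun hbN => ⟨mul_mem hb ha, ?_⟩⟩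
      · simpa using mul_mem (inv_mem hbN) h
      · have hb2 : b ^ 2 ∉ D := fun h => hbN ⟨hb, h⟩
        have ha2 : a ^ 2 ∉ D := fun h => haN ⟨ha, h⟩
        have hr : D.relIndex Φ = 2 := by
          have h := Subgroup.relIndex_mul_relIndex ⊥ D Φ bot_le hDΦ
          rw [Subgroup.relIndex_bot_left, Subgroup.relIndex_bot_left, h4, hDcard] at h
          omega
        have h2 := (Subgroup.mul_mem_iff_of_index_two (H := D.subgroupOf Φ) hr
          (a := (⟨b ^ 2, hsqΦ b hb⟩ : Φ)) (b := ⟨a ^ 2, hsqΦ a ha⟩)).2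
          (by simp only [Subgroup.mem_subgroupOf]; exact ⟨fun h => absurd h hb2, fun h => absurd h ha2⟩)
        rw [Subgroup.mem_subgroupOf, Subgroup.coe_mul] at h2
        rw [hmul b hb a ha]
        have hbr := hbrΦ b⁻¹ (inv_mem hb) a ha
        have e : b ^ 2 * ⁅b⁻¹, a⁆ * a ^ 2 = b ^ 2 * a ^ 2 * ⁅b⁻¹, a⁆ := by
          rw [mul_assoc, hcenΦ _ hbr _ (pow_mem ha 2), ← mul_assoc]
        rw [e]
        exact mul_mem h2 (commutator_mem_commutator (inv_mem hb) ha)
    exact hsmall N hΦN hNY (by rw [← hNΦ, hrel])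
  have hcf : center Y = frattini Y := Subgroup.map_injective Y.subtype_injective hZΦ
  refine ⟨⟨S.two, hcf.symm, ?_⟩, ?_, hBad⟩
  · refine Subgroup.map_injective Y.subtype_injective ?_
    rw [Subgroup.map_subtype_commutator, ← hD, hDeq, hcf]
  · have : Nat.card ↥((center Y).map Y.subtype) = Nat.card ↥(center Y) :=
      Subgroup.card_map_of_injective Y.subtype_injective
    rw [← hZ, hZΦ, h4] at this
    exact this.symm

/-- Case: `[Y, K]` is proper and is a four-group or quaternion. -/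
theorem proper_case {K Y : Subgroup G} (S : Setup K Y) (hna : ¬ IsMulCommutative ↥Y)
    (hlt : ⁅Y, K⁆ ≠ Y)
    (hsh : (Nat.card ↥⁅Y, K⁆ = 4 ∧ IsMulCommutative ↥⁅Y, K⁆) ∨
      Nonempty (↥⁅Y, K⁆ ≃* QuaternionGroup 2)) :
    ∃ X₀ : Subgroup G, X₀ ≤ Y ∧ X₀.relIndex Y = 2 ∧ Nonempty (↥X₀ ≃* QuaternionGroup 2) ∧
      X₀ ⊔ (Y ⊓ centralizer (X₀ : Set G)) = Y ∧ Bad Y := by
  classical
  haveI : Fact (Nat.Prime 2) := ⟨Nat.prime_two⟩
  set P := ⁅Y, K⁆ with hP
  have hPY : P ≤ Y := H20.commutator_le_of_le_normalizer S.norm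
  have hP2 : IsPGroup 2 ↥P := S.two.to_le hPY
  have hKP : K ≤ normalizer (P : Set G) := normalizer_commutator_ge_right Y K
  have hYP : Y ≤ normalizer (P : Set G) := normalizer_commutator_ge_left Y K
  have hcop := coprime_of_odd S.odd S.two
  have hsol : Group.IsSolvable K ∨ Group.IsSolvable Y := Or.inr (isSolvable_two S.two)
  have hPK : ⁅P, K⁆ = P := H20.commutator_commutator_eq S.norm hcop hsol
  have hPne : P ≠ ⊥ := fun e => S.nontriv
    (le_centralizer_iff.1 (commutator_eq_bot_iff_le_centralizer.1 (hP ▸ e)))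
  set C := Y ⊓ centralizer (K : Set G) with hC
  have hYPC : P ⊔ C = Y := H20.commutator_sup_centralizer S.norm hcop hsol
  have hCK : ∀ A : Subgroup G, A ≤ centralizer (K : Set G) → K ≤ normalizer (A : Set G) :=
    fun A hA => H20.le_normalizer_of_le_centralizer (le_centralizer_iff.1 hA)
  have hCne : C ≠ ⊥ := fun e => hlt (by rw [e, sup_bot_eq] at hYPC; exact hYPC)
  set U := ⁅P, Y⁆
  have hUlt : U < P := H20.commutator_lt_of_isPGroup hP2 S.two hYP hPne
  have hUK : K ≤ normalizer (U : Set G) := H83.le_normalizer_commutator hKP S.norm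
  -- subgroups `P ⊔ C'` are proper
  have hW : ∀ C' : Subgroup G, C' ≤ C → C' ≠ C → P ⊓ C ≤ C' →
      P ⊔ C' < Y ∧ K ≤ normalizer ((P ⊔ C' : Subgroup G) : Set G) := by
    intro C' hC' hne hF
    refine ⟨lt_of_le_of_ne (sup_le hPY (hC'.trans inf_le_left)) fun e => hne ?_, ?_⟩
    · refine le_antisymm hC' fun c hc => ?_
      obtain ⟨p, hp, c', hc', hpc⟩ := decomp ((hC'.trans inf_le_left).trans hYP)
        (show c ∈ P ⊔ C' by rw [e]; exact hc.1)
      have hpC : p ∈ C := by
        rw [show p = c * c'⁻¹ by rw [← hpc, mul_inv_cancel_right]]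
        exact mul_mem hc (inv_mem (hC' hc'))
      rw [← hpc]
      exact mul_mem (hF (mem_inf.2 ⟨hp, hpC⟩)) hc'
    · exact H83.le_normalizer_sup hKP (hCK C' (hC'.trans inf_le_right))
  rcases hsh with ⟨hP4, hPc⟩ | ⟨⟨e⟩⟩
  · -- a four-group: impossible
    exfalso
    haveI := hPc
    have hfix : P ⊓ centralizer (K : Set G) = ⊥ := by
      have h := H20.centralizer_inf_commutator_eq_bot (V := P) hKP (coprime_of_odd S.odd hP2)
      rwa [hPK, inf_comm, ← inf_assoc, inf_idem] at h
    have hPnc : ¬ IsCyclic ↥P := fun h => hPne (eq_bot_iff.2 (hfix ▸ le_inf le_rfl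
      (fix_comm (le_centralizer_of_isCyclic S.odd hP2 h hKP))))
    have hPF : P ⊓ C = ⊥ := by
      rw [eq_bot_iff, ← hfix]
      exact inf_le_inf le_rfl inf_le_right
    have hU : U = ⊥ := by
      have hd := Subgroup.card_dvd_of_le hUlt.le
      rw [hP4] at hd
      have hne' : Nat.card U ≠ 4 := fun e4 => hUlt.ne (Subgroup.eq_of_le_of_card_ge hUlt.le (by omega))
      have hle := Nat.le_of_dvd (by norm_num) hd
      have h2 : Nat.card U ≤ 2 := by interval_cases hk : Nat.card U <;> omega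
      rw [eq_bot_iff, ← hfix]
      exact le_inf hUlt.le (fix_comm (le_centralizer_of_card_le_two S.odd (hP2.to_le hUlt.le) h2 hUK))
    have hPcY : P ≤ centralizer (Y : Set G) := commutator_eq_bot_iff_le_centralizer.1 hU
    have hC2 : Nat.card C ≤ 2 := by
      by_contra h
      obtain ⟨C', -, hC', hne, hc2⟩ := exists_half (S.two.to_le inf_le_left : IsPGroup 2 ↥C) (F := ⊥)
        bot_le (i := 0) (by simp) (by omega)
      obtain ⟨hlt', hK'⟩ := hW C' hC' hne (hPF ▸ bot_le)
      have hWY := hlt'.le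
      obtain ⟨h1, -⟩ := eq_of_central (S.two.to_le hWY) (S.min _ hlt' hK') le_sup_left
        (fun p hp => mem_centralizer_iff.2 fun x hx => mem_centralizer_iff.1 (hPcY hp) x (hWY hx)) hPnc
      have : C' ≤ P ⊓ C := le_inf (le_sup_right.trans h1.le) hC'
      rw [hPF, le_bot_iff] at this
      rw [this, Subgroup.card_bot] at hc2
      norm_num at hc2
    have hCc : IsMulCommutative ↥C := by
      rcases (by have := Nat.card_pos (α := C); omega : Nat.card C = 1 ∨ Nat.card C = 2) with h1 | h1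
      · exact absurd (Subgroup.eq_bot_of_card_eq _ h1) hCne
      · haveI := isCyclic_of_prime_card (p := 2) h1
        exact IsCyclic.commutative
    apply hna
    refine isMulCommutative_of_forall fun a ha b hb => ?_
    obtain ⟨p, hp, c, hc, rfl⟩ := decomp (inf_le_left.trans hYP) (show a ∈ P ⊔ C by rw [hYPC]; exact ha)
    obtain ⟨q, hq, d, hd, rfl⟩ := decomp (inf_le_left.trans hYP) (show b ∈ P ⊔ C by rw [hYPC]; exact hb)
    have h1 : c * q = q * c := mem_centralizer_iff.1 (hPcY hq) c hc.1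
    have h2 : d * p = p * d := mem_centralizer_iff.1 (hPcY hp) d hd.1
    calc p * c * (q * d) = p * (c * q) * d := by group
      _ = p * q * (c * d) := by rw [h1]; group
      _ = q * p * (d * c) := by rw [comm_of hPc hp hq, comm_of hCc hc hd]
      _ = q * (p * d) * c := by group
      _ = q * d * (p * c) := by rw [← h2]; group
  · -- quaternion
    obtain ⟨hP8, ⟨a₀, ha₀, b₀, hb₀, hab₀⟩, ⟨z, hzP, hz1, hz2, hzuniq, hzsq⟩, hcyc⟩ := q8_facts e
    have hFcyc : ∀ V : Subgroup G, V ≤ P → V ≠ P → K ≤ normalizer (V : Set G) →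
        V ≤ centralizer (K : Set G) := fun V h1 h2 h3 =>
      fix_comm (le_centralizer_of_isCyclic S.odd (hP2.to_le h1) (hcyc V h1 h2) h3)
    have hzC : z ∈ centralizer (K : Set G) := by
      refine mem_centralizer_iff.2 fun k hk => ?_
      have hk1 : k * z * k⁻¹ ∈ P := H20.conj_mem_of_le_normalizer hKP hk hzP
      rcases hzuniq _ hk1 (by
        calc k * z * k⁻¹ * (k * z * k⁻¹) = k * (z * z) * k⁻¹ := by group
          _ = 1 := by rw [hz2, mul_one, mul_inv_cancel]) with h | h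
      · exact absurd (conj_eq_one_iff.1 h) hz1
      · exact mul_inv_eq_iff_eq_mul.1 h
    set F := P ⊓ centralizer (K : Set G) with hF
    have hFne : F ≠ P := fun e => hPne (by
      rw [← hPK, commutator_eq_bot_iff_le_centralizer]; exact e ▸ inf_le_right)
    have hF2 : Nat.card F = 2 := by
      have hd := Subgroup.card_dvd_of_le (inf_le_left : F ≤ P)
      rw [hP8] at hd
      have h8 : Nat.card F ≠ 8 := fun e8 => hFne (Subgroup.eq_of_le_of_card_ge inf_le_left (by rw [hP8, ← e8]))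
      have h4 : Nat.card F ≠ 4 := by
        intro e4
        have hr : F.relIndex P = 2 := by
          have h := Subgroup.relIndex_mul_relIndex ⊥ F P bot_le inf_le_left
          rw [Subgroup.relIndex_bot_left, Subgroup.relIndex_bot_left, e4, hP8] at h
          omega
        have h0 := commutator_eq_bot_of_index_two S.odd hP2 hKP inf_le_left hr inf_le_right
        exact hPne (hPK ▸ h0)
      have h2 : 2 ≤ Nat.card F := by
        have hle := Subgroup.card_le_of_le (show zpowers z ≤ F from zpowers_le.2 (mem_inf.2 ⟨hzP, hzC⟩))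
        rw [Nat.card_zpowers, orderOf_eq_prime (show z ^ 2 = 1 by rw [pow_two]; exact hz2) hz1] at hle
        exact hle
      have := Nat.le_of_dvd (by norm_num) hd
      interval_cases hk : Nat.card F <;> omega
    have hFz : ∀ x ∈ F, x = 1 ∨ x = z := fun x hx => hzuniq x hx.1 (by
      have := congrArg Subtype.val (pow_card_eq_one' (x := (⟨x, hx⟩ : F)))
      rw [hF2] at this
      simpa [pow_two] using this)
    have hUF : U ≤ F := le_inf hUlt.le (hFcyc U hUlt.le hUlt.ne hUK)
    have hCP : C ≤ centralizer (P : Set G) := by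
      intro c hc
      set M := P ⊓ centralizer ({c} : Set G) with hM
      have hMK : K ≤ normalizer (M : Set G) := by
        refine H20.le_normalizer_inf hKP ?_
        have h := H20.le_normalizer_centralizer (hCK (zpowers c) (zpowers_le.2 hc.2))
        rwa [zpowers_eq_closure, centralizer_closure] at h
      have hM4 : 4 ≤ Nat.card M := by
        have h := H24.relIndex_le_card_of_commutator P c (F : Set G) fun g hg =>
          hUF (commutator_mem_commutator hg hc.1)
        rw [show Nat.card ↥(F : Set G) = 2 from hF2] at h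
        have h' := Subgroup.relIndex_mul_relIndex ⊥ M P bot_le inf_le_left
        rw [Subgroup.relIndex_bot_left, Subgroup.relIndex_bot_left, hP8] at h'
        have h'' : Nat.card M * M.relIndex P ≤ Nat.card M * 2 := Nat.mul_le_mul_left _ h
        omega
      have hMP : M = P := by
        by_contra hne
        have : Nat.card M ≤ Nat.card F :=
          Subgroup.card_le_of_le (le_inf inf_le_left (hFcyc M inf_le_left hne hMK))
        omega
      exact mem_centralizer_iff.2 fun p hp =>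
        mem_centralizer_singleton_iff.1 ((hMP.ge hp : p ∈ M).2)
    have hFC : P ⊓ C ≤ F := inf_le_inf le_rfl inf_le_right
    have hFC' : F ≤ C := le_inf (inf_le_left.trans hPY) inf_le_right
    obtain ⟨i₀, hi₀, hi₀F⟩ : ∃ i ∈ P, i ∉ F := by
      by_contra h
      push Not at h
      exact hFne (le_antisymm inf_le_left fun x hx => h x hx)
    -- a bad subgroup from an element of `C` outside `P`
    have hbad : ∀ W : Subgroup G, W ≤ Y → P ≤ W → ∀ c ∈ C, c ∉ P → c ∈ W → Bad W := by
      intro W hWY hPW c hc hcP hcW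
      have hio : orderOf i₀ = 2 ^ 2 := by
        rcases (hzsq i₀ hi₀).1 with h | h
        · exfalso
          rcases hzuniq i₀ hi₀ h with h' | h'
          · exact hi₀F (h' ▸ one_mem F)
          · exact hi₀F (h' ▸ mem_inf.2 ⟨hzP, hzC⟩)
        · exact orderOf_eq_prime_pow (by rw [pow_one, pow_two, h]; exact hz1) (by
            rw [show (2 : ℕ) ^ (1 + 1) = 2 * 2 from rfl, pow_mul, pow_two i₀, h, pow_two, hz2])
      obtain ⟨m, hm⟩ := IsPGroup.iff_orderOf.1 (S.two.to_le (inf_le_left : C ≤ Y)) ⟨c, hc⟩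
      rw [Subgroup.orderOf_mk] at hm
      have hic : i₀ ∉ zpowers c := fun h => hi₀F
        (mem_inf.2 ⟨hi₀, (zpowers_le.2 hc.2 : zpowers c ≤ centralizer (K : Set G)) h⟩)
      have hci : c ∉ zpowers i₀ := fun h => hcP (zpowers_le.2 hi₀ h)
      have hA : zpowers i₀ ⊔ zpowers c ≤ W := sup_le (zpowers_le.2 (hPW hi₀)) (zpowers_le.2 hcW)
      have hAc : IsMulCommutative ↥(zpowers i₀ ⊔ zpowers c) :=
        H24.isMulCommutative_sup_zpowers (isMulCommutative_of_forall fun a ha b hb => by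
          obtain ⟨u, rfl⟩ := mem_zpowers_iff.1 ha
          obtain ⟨v, rfl⟩ := mem_zpowers_iff.1 hb
          rw [← zpow_add, ← zpow_add, add_comm])
        (centralizer_le (zpowers_le.2 hi₀) (hCP hc))
      refine bad_of_comm (S.two.to_le hWY) hA hAc (not_isCyclic_sup hic hci hio hm) ?_
      refine eight_le_of_four_lt (S.two.to_le (hA.trans hWY)) ?_
      rcases (Subgroup.card_le_of_le (le_sup_left : zpowers i₀ ≤ zpowers i₀ ⊔ zpowers c)).lt_or_eq with h | h
      · rwa [Nat.card_zpowers, hio] at h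
      · exact absurd ((Subgroup.eq_of_le_of_card_ge (le_sup_left : zpowers i₀ ≤ _) h.ge) ▸
          (mem_sup_right (mem_zpowers c) : c ∈ zpowers i₀ ⊔ zpowers c)) hci
    obtain ⟨c₀, hc₀, hc₀P⟩ : ∃ c ∈ C, c ∉ P := by
      by_contra h
      push Not at h
      exact hlt (by rw [sup_eq_left.2 (fun x hx => h x hx : C ≤ P)] at hYPC; exact hYPC)
    have hc₀F : c₀ ∉ F := fun h => hc₀P h.1
    have hC4 : Nat.card C = 4 := by
      have hC2 : IsPGroup 2 ↥C := S.two.to_le inf_le_left
      obtain ⟨k, hk⟩ := IsPGroup.iff_card.1 hC2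
      have hgt : 2 < Nat.card C := by
        rcases (Subgroup.card_le_of_le hFC').lt_or_eq with h | h
        · omega
        · exact absurd (Subgroup.eq_of_le_of_card_ge hFC' h.ge ▸ hc₀) hc₀F
      by_contra hne
      obtain ⟨C', hFC'', hC', hC'ne, hc4⟩ := exists_half hC2 hFC' (i := 1) (by rw [hF2]; rfl) (by
        have : 4 ≤ Nat.card C := by
          rw [hk] at hgt ⊢
          rcases Nat.lt_or_ge k 2 with h | h
          · interval_cases k <;> norm_num at hgt
          · exact (show 4 = 2 ^ 2 by norm_num) ▸ Nat.pow_le_pow_right (by norm_num) h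
        norm_num
        omega)
      obtain ⟨c, hc, hcP⟩ : ∃ c ∈ C', c ∉ P := by
        by_contra h
        push Not at h
        have := Subgroup.card_le_of_le (fun x hx => hFC (mem_inf.2 ⟨h x hx, hC' hx⟩) : C' ≤ F)
        rw [hF2, hc4] at this
        norm_num at this
      obtain ⟨hlt', hK'⟩ := hW C' hC' hC'ne (hFC.trans hFC'')
      exact S.min _ hlt' hK' (hbad _ hlt'.le le_sup_left c (hC' hc) hcP (mem_sup_right hc))
    have hrel : P.relIndex Y = 2 := by
      have hFC2 : F.relIndex C = 2 := by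
        have h := Subgroup.relIndex_mul_relIndex ⊥ F C bot_le hFC'
        rw [Subgroup.relIndex_bot_left, Subgroup.relIndex_bot_left, hF2, hC4] at h
        omega
      refine relIndex_eq_two hc₀.1 fun b hb => ⟨fun h hbP => hc₀P ?_, fun hbP => ?_⟩
      · simpa using mul_mem (inv_mem hbP) h
      · obtain ⟨p, hp, c, hc, rfl⟩ := decomp (inf_le_left.trans hYP) (show b ∈ P ⊔ C by rw [hYPC]; exact hb)
        have hcF : c ∉ F := fun h => hbP (mul_mem hp h.1)
        have h2 := (Subgroup.mul_mem_iff_of_index_two (H := F.subgroupOf C) hFC2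
          (a := (⟨c, hc⟩ : C)) (b := ⟨c₀, hc₀⟩)).2
          (by simp only [Subgroup.mem_subgroupOf]; exact ⟨fun h => absurd h hcF, fun h => absurd h hc₀F⟩)
        rw [Subgroup.mem_subgroupOf, Subgroup.coe_mul] at h2
        rw [mul_assoc]
        exact mul_mem hp h2.1
    refine ⟨P, hPY, hrel, ⟨e⟩, le_antisymm (sup_le hPY inf_le_left) ?_,
      hbad Y le_rfl hPY c₀ hc₀ hc₀P hc₀.1⟩
    calc Y = P ⊔ C := hYPC.symm
      _ ≤ P ⊔ (Y ⊓ centralizer (P : Set G)) := sup_le_sup_left (le_inf inf_le_left hCP) P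

/-- Case: `[Y, K] = Y` with cyclic Frattini subgroup. -/
theorem whole_case {K Y : Subgroup G} (S : Setup K Y) (hna : ¬ IsMulCommutative ↥Y)
    (hcom : ⁅Y, K⁆ = Y) (hcyc : IsCyclic ↥((frattini Y).map Y.subtype)) :
    Cfsg.IsExtraspecial 2 ↥Y := by
  classical
  haveI : Fact (Nat.Prime 2) := ⟨Nat.prime_two⟩
  haveI := hcyc
  set Φ := (frattini Y).map Y.subtype with hΦ
  have hΦY : Φ ≤ Y := map_subtype_le _
  have hΦK : K ≤ normalizer (Φ : Set G) := H20.le_normalizer_map_characteristic S.norm _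
  have hKΦ : K ≤ centralizer (Φ : Set G) := le_centralizer_of_isCyclic S.odd (S.two.to_le hΦY) hcyc hΦK
  have hYΦ : Y ≤ normalizer (Φ : Set G) := H20.le_normalizer_map_characteristic Subgroup.le_normalizer _
  have hcenΦ : ∀ a ∈ Φ, ∀ b ∈ Y, a * b = b * a := by
    have h1 : ⁅⁅K, Φ⁆, Y⁆ = ⊥ := by
      rw [commutator_eq_bot_iff_le_centralizer.2 hKΦ, commutator_bot_left]
    have h2 : ⁅⁅Φ, Y⁆, K⁆ = ⊥ := commutator_eq_bot_iff_le_centralizer.2
      ((H20.commutator_le_of_le_normalizer hYΦ).trans (fix_comm hKΦ))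
    have h3 := commutator_commutator_eq_bot_of_rotate h1 h2
    rw [hcom, commutator_eq_bot_iff_le_centralizer] at h3
    exact fun a ha b hb => mem_centralizer_iff.1 (h3 hb) a ha
  have hsqΦ : ∀ y ∈ Y, y ^ 2 ∈ Φ := fun y hy =>
    ⟨⟨y, hy⟩ ^ 2, H24.pow_mem_frattini S.two ⟨y, hy⟩, rfl⟩
  have hbrΦ : ∀ y ∈ Y, ∀ u ∈ Y, ⁅y, u⁆ ∈ Φ := fun y hy u hu =>
    ⟨⁅(⟨y, hy⟩ : Y), ⟨u, hu⟩⁆, H24.commutator_le_frattini S.two
      (commutator_mem_commutator (mem_top _) (mem_top _)), rfl⟩
  have hbr2 : ∀ y ∈ Y, ∀ u ∈ Y, ⁅y, u⁆ ^ 2 = 1 := by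
    intro y hy u hu
    have h1 : ⁅y ^ 2, u⁆ = 1 := commutatorElement_eq_one_iff_mul_comm.2 (hcenΦ _ (hsqΦ y hy) u hu)
    have hc := hcenΦ _ (hbrΦ y hy u hu)
    calc ⁅y, u⁆ ^ 2 = ⁅y, u⁆ * y * y⁻¹ * ⁅y, u⁆ := by rw [pow_two]; group
      _ = y * ⁅y, u⁆ * y⁻¹ * ⁅y, u⁆ := by rw [hc y hy]
      _ = ⁅y ^ 2, u⁆ := by simp only [commutatorElement_def, pow_two]; group
      _ = 1 := h1
  obtain ⟨y₀, hy₀, u₀, hu₀, hne₀⟩ : ∃ y ∈ Y, ∃ u ∈ Y, y * u ≠ u * y := by
    by_contra h
    push Not at h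
    exact hna (isMulCommutative_of_forall h)
  set z := ⁅y₀, u₀⁆ with hz
  have hzΦ : z ∈ Φ := hbrΦ y₀ hy₀ u₀ hu₀
  have hz1 : z ≠ 1 := fun h => hne₀ (commutatorElement_eq_one_iff_mul_comm.1 h)
  have hzo : orderOf z = 2 := orderOf_eq_prime (hbr2 y₀ hy₀ u₀ hu₀) hz1
  set Z0 := zpowers z with hZ0
  have hZ0Φ : Z0 ≤ Φ := zpowers_le.2 hzΦ
  have hinv : ∀ a ∈ Φ, a ^ 2 = 1 → a ∈ Z0 := fun a ha h => by
    refine le_of_card_dvd hcyc (zpowers_le.2 ha) hZ0Φ ?_ (mem_zpowers a)
    rw [Nat.card_zpowers, hZ0, Nat.card_zpowers, hzo]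
    exact orderOf_dvd_of_pow_eq_one h
  have hbrZ : ∀ y ∈ Y, ∀ u ∈ Y, ⁅y, u⁆ ∈ Z0 := fun y hy u hu =>
    hinv _ (hbrΦ y hy u hu) (hbr2 y hy u hu)
  have hmul : ∀ a ∈ Y, ∀ b ∈ Y, (a * b) ^ 2 = a ^ 2 * ⁅a⁻¹, b⁆ * b ^ 2 := fun a _ b _ => by
    simp only [pow_two, commutatorElement_def]; group
  let N : Subgroup G :=
    { carrier := {y | y ∈ Y ∧ y ^ 2 ∈ Z0}
      one_mem' := ⟨one_mem Y, by simp⟩
      mul_mem' := fun {a b} ha hb => ⟨mul_mem ha.1 hb.1, by
        rw [hmul a ha.1 b hb.1]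
        exact mul_mem (mul_mem ha.2 (hbrZ _ (inv_mem ha.1) _ hb.1)) hb.2⟩
      inv_mem' := fun {a} ha => ⟨inv_mem ha.1, by rw [inv_pow]; exact inv_mem ha.2⟩ }
  have hYN : Y ≤ N := by
    nth_rewrite 1 [← hcom]
    rw [commutator_le]
    intro y hy k hk
    have hv : k * y⁻¹ * k⁻¹ ∈ Y := H20.conj_mem_of_le_normalizer S.norm hk (inv_mem hy)
    have e : ⁅y, k⁆ = y * (k * y⁻¹ * k⁻¹) := by rw [commutatorElement_def]; group
    refine ⟨e ▸ mul_mem hy hv, ?_⟩
    have hv2 : (k * y⁻¹ * k⁻¹) ^ 2 = (y ^ 2)⁻¹ := by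
      rw [conj_pow, inv_pow, ← mem_centralizer_iff.1 (hKΦ hk) _ (inv_mem (hsqΦ y hy)),
        mul_inv_cancel_right]
    rw [e, hmul y hy _ hv, hv2, ← hcenΦ _ (hbrΦ _ (inv_mem hy) _ hv) _ (pow_mem hy 2),
      mul_assoc, mul_inv_cancel, mul_one]
    exact hbrZ _ (inv_mem hy) _ hv
  have hΦZ0 : Φ = Z0 := by
    refine le_antisymm ?_ hZ0Φ
    rintro _ ⟨a, ha, rfl⟩
    exact H24.frattini_le_of (p := 2) (Z0.subgroupOf Y)
      (commutator_le.2 fun u _ v _ => hbrZ _ u.2 _ v.2) (fun x => (hYN x.2).2) ha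
  -- the centre
  have hZK : ∀ a ∈ center Y, ∀ k ∈ K, k * (a : G) = (a : G) * k := by
    set Z := (center Y).map Y.subtype with hZ
    have hZY : Z ≤ Y := map_subtype_le _
    have hZK' : K ≤ normalizer (Z : Set G) := H20.le_normalizer_map_characteristic S.norm _
    have hZc : Z ≤ centralizer (Y : Set G) := by
      rintro _ ⟨a, ha, rfl⟩
      exact mem_centralizer_iff.2 fun b hb => congrArg Subtype.val (mem_center_iff.1 ha ⟨b, hb⟩)
    suffices hKZ : K ≤ centralizer (Z : Set G) from fun a ha k hk =>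
      (mem_centralizer_iff.1 (hKZ hk) _ (mem_map_of_mem _ ha)).symm
    by_cases hc : IsCyclic ↥Z
    · exact le_centralizer_of_isCyclic S.odd (S.two.to_le hZY) hc hZK'
    have hZne : Z ≠ Y := fun e => hna (isMulCommutative_of_forall fun a ha b hb =>
      mem_centralizer_iff.1 (hZc (e ▸ hb)) a ha)
    have h4 := (eq_of_central (S.two.to_le hZY) (S.min Z (lt_of_le_of_ne hZY hZne) hZK') le_rfl
      (fun a ha => mem_centralizer_iff.2 fun b hb => mem_centralizer_iff.1 (hZc ha) b (hZY hb)) hc).2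
    haveI : IsMulCommutative ↥Z := isMulCommutative_of_forall fun a ha b hb =>
      mem_centralizer_iff.1 (hZc hb) a (hZY ha)
    obtain ⟨h1, h2⟩ := H20.abelian_decomposition hZK' (coprime_of_odd S.odd (S.two.to_le hZY))
    have hle := H20.commutator_le_of_le_normalizer hZK'
    have hne : ⁅Z, K⁆ ≠ Z := by
      intro e
      rw [e] at h1
      have hzZ : z ∈ Z := ⟨⟨z, hΦY hzΦ⟩, mem_center_iff.2 fun b =>
        Subtype.ext (hcenΦ z hzΦ b b.2).symm, rfl⟩
      exact hz1 ((mem_bot).1 (h1 ▸ mem_inf.2 ⟨mem_inf.2 ⟨hzZ, fix_comm hKΦ hzΦ⟩, hzZ⟩))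
    have hsmall : Nat.card ↥⁅Z, K⁆ ≤ 2 := by
      have hd := Subgroup.card_dvd_of_le hle
      rw [h4] at hd
      have hne' : Nat.card ↥⁅Z, K⁆ ≠ 4 := fun e4 => hne (Subgroup.eq_of_le_of_card_ge hle (by omega))
      have := Nat.le_of_dvd (by norm_num) hd
      interval_cases hk : Nat.card ↥⁅Z, K⁆ <;> omega
    refine le_centralizer_iff.1 ?_
    rw [← h2]
    exact sup_le inf_le_right (fix_comm (le_centralizer_of_card_le_two S.odd
      ((S.two.to_le hZY).to_le hle) hsmall (normalizer_commutator_ge_right Z K)))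
  have hcenΦ' : center Y ≤ frattini Y := by
    intro a ha
    by_contra hna'
    obtain ⟨M, hM, haM⟩ : ∃ M : Subgroup Y, IsCoatom M ∧ a ∉ M := by
      by_contra h
      push Not at h
      exact hna' (mem_iInf.2 fun M => mem_iInf.2 fun hM => h M hM)
    have hMi : M.index = 2 := (H24.coatom_spec S.two hM).2.1
    let χ : Y → ZMod 2 := fun y => if y ∈ M then 0 else 1
    have hχ : ∀ u v, χ (u * v) = χ u + χ v := by
      intro u v
      have h := Subgroup.mul_mem_iff_of_index_two hMi (a := u) (b := v)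
      by_cases hu : u ∈ M <;> by_cases hv : v ∈ M <;> simp only [χ, hu, hv, h, if_true, if_false, iff_true,
        iff_false, not_true_eq_false, not_false_eq_true, true_iff, false_iff] <;> rfl
    haveI := Fintype.ofFinite K
    let ψ : Y → ZMod 2 := fun y => ∑ k : K, χ (H20.conjAut S.norm k y)
    have hψ : ∀ u v, ψ (u * v) = ψ u + ψ v := fun u v => by
      simp only [ψ, map_mul, hχ, Finset.sum_add_distrib]
    have hψj : ∀ (j : K) u, ψ (H20.conjAut S.norm j u) = ψ u := fun j u => by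
      simp only [ψ]
      refine Fintype.sum_equiv (Equiv.mulRight j) _ _ fun k => ?_
      rw [Equiv.coe_mulRight, map_mul, MulAut.mul_apply]
    have hψ1 : ψ 1 = 0 := by
      have := hψ 1 1
      rw [mul_one] at this
      exact left_eq_add.1 this
    let W : Subgroup Y :=
      { carrier := {u | ψ u = 0}
        one_mem' := hψ1
        mul_mem' := fun {u v} hu hv => by
          show ψ (u * v) = 0
          rw [hψ, show ψ u = 0 from hu, show ψ v = 0 from hv, add_zero]
        inv_mem' := fun {u} hu => by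
          show ψ u⁻¹ = 0
          have := hψ u⁻¹ u
          rw [inv_mul_cancel, hψ1, show ψ u = 0 from hu, add_zero] at this
          exact this.symm }
    have hYW : Y ≤ W.map Y.subtype := by
      nth_rewrite 1 [← hcom]
      rw [commutator_le]
      intro y hy k hk
      refine ⟨⟨y, hy⟩ * H20.conjAut S.norm ⟨k, hk⟩ (⟨y, hy⟩ : Y)⁻¹, ?_, ?_⟩
      · show ψ _ = 0
        rw [hψ, hψj, ← hψ, mul_inv_cancel, hψ1]
      · simp only [Subgroup.coe_subtype, Subgroup.coe_mul, H20.coe_conjAut, Subgroup.coe_inv,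
          commutatorElement_def]
        group
    obtain ⟨a', ha', haa⟩ := hYW a.2
    have hψa : ψ a = 0 := by
      rw [show a = a' from Subtype.ext haa.symm]; exact ha'
    have hconst : ∀ k : K, H20.conjAut S.norm k a = a := fun k => Subtype.ext (by
      rw [H20.coe_conjAut, hZK a ha k k.2, mul_inv_cancel_right])
    simp only [ψ, hconst, χ, haM, if_false, Finset.sum_const, Finset.card_univ, nsmul_eq_mul, mul_one] at hψa
    rw [ZMod.natCast_eq_zero_iff, ← Nat.card_eq_fintype_card] at hψa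
    exact (Nat.not_even_iff_odd.2 S.odd) (even_iff_two_dvd.2 hψa)
  have hfc : frattini Y ≤ center Y := fun a ha => mem_center_iff.2 fun b =>
    Subtype.ext (hcenΦ a (mem_map_of_mem _ ha) b b.2).symm
  have hcf : center Y = frattini Y := le_antisymm hcenΦ' hfc
  refine ⟨⟨S.two, hcf.symm, ?_⟩, ?_⟩
  · refine Subgroup.map_injective Y.subtype_injective (le_antisymm ?_ ?_)
    · rw [Subgroup.map_subtype_commutator, hcf, ← hΦ, hΦZ0]
      exact commutator_le.2 hbrZ
    · rw [Subgroup.map_subtype_commutator, hcf, ← hΦ, hΦZ0, zpowers_le]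
      exact commutator_mem_commutator hy₀ hu₀
  · have : Nat.card ↥((frattini Y).map Y.subtype) = Nat.card ↥(frattini Y) :=
      Subgroup.card_map_of_injective Y.subtype_injective
    rw [← hΦ, hΦZ0, hZ0, Nat.card_zpowers, hzo] at this
    rw [hcf]; exact this.symm

/-- The classification. -/
theorem classify {K : Subgroup G} : ∀ Y : Subgroup G, Setup K Y → Shape Y := by
  intro Y
  induction Y using WellFoundedLT.induction with
  | ind Y ih =>
    intro S
    haveI : Fact (Nat.Prime 2) := ⟨Nat.prime_two⟩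
    by_cases hab : IsMulCommutative ↥Y
    · exact Or.inl hab
    have hne : frattini Y ≠ ⊤ := by
      intro h
      have hbot : (⊥ : Subgroup Y) = ⊤ := frattini_nongenerating (by rw [bot_sup_eq, h])
      have h1 : ∀ a : Y, a = 1 := fun a => mem_bot.1 (by rw [hbot]; exact mem_top a)
      haveI : Subsingleton Y := ⟨fun a b => (h1 a).trans (h1 b).symm⟩
      exact hab (isMulCommutative_of_forall fun a ha b hb =>
        congrArg Subtype.val (Subsingleton.elim ((⟨a, ha⟩ : Y) * ⟨b, hb⟩) (⟨b, hb⟩ * ⟨a, ha⟩)))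
    have hΦlt : (frattini Y).map Y.subtype < Y := lt_of_le_of_ne (map_subtype_le _) fun e => hne <|
      Subgroup.map_injective Y.subtype_injective (e.trans (by rw [← MonoidHom.range_eq_map, range_subtype]))
    rcases frattini_cases S.two (S.min _ hΦlt (H20.le_normalizer_map_characteristic S.norm _)) with hc | ⟨h4, h4c, h4n⟩
    swap
    · exact Or.inr (Or.inr (Or.inr (Or.inl (four_case S hab h4 h4c h4n))))
    by_cases hcom : ⁅Y, K⁆ = Y
    · rcases extraspecial_case S (whole_case S hab hcom hc) hcom with h | h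
      · exact Or.inr (Or.inl ⟨whole_case S hab hcom hc, h⟩)
      · exact Or.inr (Or.inr (Or.inr (Or.inr h)))
    have hPY : ⁅Y, K⁆ < Y := lt_of_le_of_ne (H20.commutator_le_of_le_normalizer S.norm) hcom
    have hKP := normalizer_commutator_ge_right Y K
    have hnb := S.min _ hPY hKP
    have SP : Setup K ⁅Y, K⁆ := ⟨S.two.to_le hPY.le, S.odd, hKP, fun h => S.nontriv (by
        refine le_centralizer_iff.1 (commutator_eq_bot_iff_le_centralizer.1 ?_)
        rw [← H20.commutator_commutator_eq S.norm (coprime_of_odd S.odd S.two)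
          (Or.inr (isSolvable_two S.two)), commutator_eq_bot_iff_le_centralizer]
        exact fix_comm h),
      fun R hR hRK hb => hnb (hb.mono hR.le)⟩
    exact Or.inr (Or.inr (Or.inl (proper_case S hab hcom (small_of_shape SP hnb (ih _ hPY SP)))))

end Cfsg.Agent.H60.EightFree
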