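import Cfsg.Agent.H60.OddActionEight
import Cfsg.Agent.H88.ThreeSubgroups
import Cfsg.Prelude.Def_Transfer

/-!
2-groups acted on by an odd order group, all proper invariant subgroups being without bad subgroup.
-/

set_option autoImplicit false

open Subgroup
open scoped commutatorElement

namespace Cfsg.Agent.H60.EightFree

variable {G : Type*} [Group G] [Finite G]

/-- The standing hypotheses. -/
structure Setup (K Y : Subgroup G) : Prop where
  two : IsPGroup 2 ↥Y
  odd : Odd (Nat.card K)
  norm : K ≤ normalizer (Y : Set G)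
  nontriv : ¬ K ≤ centralizer (Y : Set G)
  min : ∀ R : Subgroup G, R < Y → K ≤ normalizer (R : Set G) → ¬ Bad R

/-- The possible shapes. -/
def Shape (Y : Subgroup G) : Prop :=
  IsMulCommutative ↥Y ∨
    (Cfsg.IsExtraspecial 2 ↥Y ∧ Bad Y ∧ 32 ≤ Nat.card ↥Y) ∨
    (∃ X₀ : Subgroup G, X₀ ≤ Y ∧ X₀.relIndex Y = 2 ∧ Nonempty (↥X₀ ≃* QuaternionGroup 2) ∧
      X₀ ⊔ (Y ⊓ centralizer (X₀ : Set G)) = Y ∧ Bad Y) ∨
    (Cfsg.IsSpecial 2 ↥Y ∧ Nat.card ↥(center ↥Y) = 4 ∧ Bad Y) ∨
    Nonempty (↥Y ≃* QuaternionGroup 2)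

theorem q8_facts {P : Subgroup G} (e : ↥P ≃* QuaternionGroup 2) :
    Nat.card ↥P = 8 ∧ (∃ a ∈ P, ∃ b ∈ P, a * b ≠ b * a) ∧
      (∃ z ∈ P, z ≠ 1 ∧ z * z = 1 ∧ (∀ y ∈ P, y * y = 1 → y = 1 ∨ y = z) ∧
        ∀ y ∈ P, (y * y = 1 ∨ y * y = z) ∧ y * z = z * y) ∧
      ∀ U : Subgroup G, U ≤ P → U ≠ P → IsCyclic ↥U := by
  classical
  haveI : Fact (Nat.Prime 2) := ⟨Nat.prime_two⟩
  have hq : (∀ r : QuaternionGroup 2, r * r = 1 → r = 1 ∨ r = QuaternionGroup.a 2) ∧
      (∀ r : QuaternionGroup 2, (r * r = 1 ∨ r * r = QuaternionGroup.a 2) ∧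
        r * QuaternionGroup.a 2 = QuaternionGroup.a 2 * r) ∧
      (QuaternionGroup.a 2 : QuaternionGroup 2) ≠ 1 ∧
      (QuaternionGroup.a 2 : QuaternionGroup 2) * QuaternionGroup.a 2 = 1 ∧
      (QuaternionGroup.a 1 : QuaternionGroup 2) * QuaternionGroup.xa 0 ≠
        QuaternionGroup.xa 0 * QuaternionGroup.a 1 := by decide +kernel
  obtain ⟨q1, q2, q3, q4, q5⟩ := hq
  have hcard : Nat.card ↥P = 8 := by
    rw [Nat.card_congr e.toEquiv, Nat.card_eq_fintype_card, QuaternionGroup.card]
  set z : P := e.symm (QuaternionGroup.a 2) with hz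
  have hez : e z = QuaternionGroup.a 2 := e.apply_symm_apply _
  have hz1 : (z : G) ≠ 1 := fun h => q3 (by rw [← hez, show z = 1 from Subtype.ext h, map_one])
  have hinv : ∀ y ∈ P, y * y = 1 → y = 1 ∨ y = (z : G) := by
    intro y hy h
    rcases q1 (e ⟨y, hy⟩) (by rw [← map_mul, ← map_one e]; exact congrArg e (Subtype.ext h)) with h1 | h1
    · exact Or.inl (congrArg Subtype.val (e.map_eq_one_iff.1 h1))
    · exact Or.inr (congrArg Subtype.val (e.injective (h1.trans hez.symm)))
  have hsq : ∀ y ∈ P, (y * y = 1 ∨ y * y = (z : G)) ∧ y * (z : G) = (z : G) * y := by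
    intro y hy
    obtain ⟨h1, h2⟩ := q2 (e ⟨y, hy⟩)
    refine ⟨h1.imp (fun h => ?_) (fun h => ?_), ?_⟩
    · rw [← map_mul] at h
      exact congrArg Subtype.val (e.map_eq_one_iff.1 h)
    · rw [← map_mul, ← hez] at h
      exact congrArg Subtype.val (e.injective h)
    · rw [← hez, ← map_mul, ← map_mul] at h2
      exact congrArg Subtype.val (e.injective h2)
  refine ⟨hcard, ⟨_, (e.symm (QuaternionGroup.a 1)).2, _, (e.symm (QuaternionGroup.xa 0)).2, fun h =>
    q5 ?_⟩, ⟨z, z.2, hz1, ?_, hinv, hsq⟩, fun U hUP hne => ?_⟩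
  · apply e.symm.injective
    rw [map_mul, map_mul]
    exact Subtype.ext h
  · rw [← Subgroup.coe_mul, show z * z = 1 from e.injective (by rw [map_mul, hez, q4, map_one]),
      Subgroup.coe_one]
  · by_cases h4 : ∃ u ∈ U, u * u ≠ 1
    · obtain ⟨u, hu, hu2⟩ := h4
      have h := (hsq u (hUP hu)).1.resolve_left hu2
      have ho : orderOf u = 2 ^ 2 := orderOf_eq_prime_pow (by
        rw [pow_one, pow_two]; exact hu2) (by
        rw [show (2 : ℕ) ^ (1 + 1) = 2 * 2 from rfl, pow_mul, pow_two u, h, pow_two,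
          ← Subgroup.coe_mul, show z * z = 1 from e.injective (by rw [map_mul, hez, q4, map_one]),
          Subgroup.coe_one])
      have hU4 : Nat.card U ≤ 4 := by
        have hd := Subgroup.card_dvd_of_le hUP
        rw [hcard] at hd
        have hlt : Nat.card U ≠ 8 := fun e8 =>
          hne (Subgroup.eq_of_le_of_card_ge hUP (by omega))
        have hle := Nat.le_of_dvd (by norm_num) hd
        interval_cases hc : Nat.card U <;> omega
      have : zpowers u = U := Subgroup.eq_of_le_of_card_ge (zpowers_le.2 hu)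
        (by rw [Nat.card_zpowers, ho]; norm_num; omega)
      rw [← this]
      infer_instance
    · push Not at h4
      have h2 : Nat.card U ≤ 2 := by
        have hsub : (U : Set G) ⊆ {1, (z : G)} := fun u hu => hinv u (hUP hu) (h4 u hu)
        have h' := Set.ncard_le_ncard hsub (Set.toFinite _)
        rw [Set.ncard_pair (Ne.symm hz1)] at h'
        rwa [← Nat.card_coe_set_eq] at h'
      rcases (by have := Nat.card_pos (α := U); omega : Nat.card U = 1 ∨ Nat.card U = 2) with h1 | h1
      · haveI := (Nat.card_eq_one_iff_unique.1 h1).1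
        infer_instance
      · exact isCyclic_of_prime_card h1

theorem not_bad_of_card_lt {Y : Subgroup G} (h : Nat.card ↥Y < 8) : ¬ Bad Y := fun ⟨A, hA, _, _, h8⟩ => by
  have := Subgroup.card_le_of_le hA
  omega

/-- The extraspecial case. -/
theorem extraspecial_case {K Y : Subgroup G} (S : Setup K Y)
    (hex : Cfsg.IsExtraspecial 2 ↥Y) (hcom : ⁅Y, K⁆ = Y) :
    (Bad Y ∧ 32 ≤ Nat.card ↥Y) ∨ Nonempty (↥Y ≃* QuaternionGroup 2) := by
  classical
  haveI : Fact (Nat.Prime 2) := ⟨Nat.prime_two⟩
  obtain ⟨⟨hY2, hfr, hco⟩, hZc⟩ := hex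
  set Z := (center Y).map Y.subtype with hZ
  have hZ2 : Nat.card Z = 2 := by rw [hZ, Subgroup.card_map_of_injective Y.subtype_injective, hZc]
  have hZY : Z ≤ Y := Subgroup.map_subtype_le _
  have hZcen : ∀ a ∈ Z, ∀ b ∈ Y, a * b = b * a := by
    rintro _ ⟨a, ha, rfl⟩ b hb
    exact (congrArg Subtype.val (mem_center_iff.1 ha ⟨b, hb⟩)).symm
  have hsq : ∀ a ∈ Y, a ^ 2 ∈ Z := fun a ha =>
    ⟨⟨a, ha⟩ ^ 2, hfr ▸ H24.pow_mem_frattini hY2 ⟨a, ha⟩, rfl⟩
  have hbr : ∀ a ∈ Y, ∀ b ∈ Y, ⁅a, b⁆ ∈ Z := fun a ha b hb =>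
    ⟨⁅(⟨a, ha⟩ : Y), ⟨b, hb⟩⁆, hco ▸ commutator_mem_commutator (mem_top _) (mem_top _), rfl⟩
  have hcenZ : ∀ a ∈ Y, (∀ b ∈ Y, a * b = b * a) → a ∈ Z := fun a ha h =>
    ⟨⟨a, ha⟩, mem_center_iff.2 fun b => Subtype.ext (h b b.2).symm, rfl⟩
  have hexp4 : ∀ a ∈ Y, a ^ 4 = 1 := by
    intro a ha
    have := congrArg Subtype.val (pow_card_eq_one' (x := (⟨a ^ 2, hsq a ha⟩ : Z)))
    rw [hZ2] at this
    simpa [← pow_mul] using this
  have hrel : ∀ x ∈ Y, ∀ A : Subgroup G, A ≤ Y → Nat.card A ≤ 2 * Nat.card ↥(A ⊓ centralizer ({x} : Set G)) := by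
    intro x hx A hA
    have h := H24.relIndex_le_card_of_commutator A x (Z : Set G) fun g hg => hbr g (hA hg) x hx
    rw [show Nat.card ↥(Z : Set G) = 2 from hZ2] at h
    have h' := Subgroup.relIndex_mul_relIndex ⊥ (A ⊓ centralizer ({x} : Set G)) A bot_le inf_le_left
    rw [Subgroup.relIndex_bot_left, Subgroup.relIndex_bot_left] at h'
    rw [← h', mul_comm 2]
    exact Nat.mul_le_mul_left _ h
  obtain ⟨k, hk⟩ := IsPGroup.iff_card.1 hY2
  have hnab : ∃ a ∈ Y, ∃ b ∈ Y, a * b ≠ b * a := by
    by_contra h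
    push Not at h
    have hle : Y ≤ Z := fun a ha => hcenZ a ha (h a ha)
    have h2 := Subgroup.card_le_of_le hle
    rw [hZ2] at h2
    exact S.nontriv (le_centralizer_of_card_le_two S.odd hY2 h2 S.norm)
  have hk3 : 3 ≤ k := by
    by_contra h
    obtain ⟨a, ha, b, hb, hab⟩ := hnab
    apply hab
    have hc : IsMulCommutative ↥Y := by
      interval_cases k
      · exact isMulCommutative_of_forall fun u hu v hv => by
          have hs := (Nat.card_eq_one_iff_unique.1 (hk.trans (pow_zero 2))).1
          have e : u = v := congrArg Subtype.val (hs.elim (⟨u, hu⟩ : Y) ⟨v, hv⟩)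
          rw [e]
      · haveI := isCyclic_of_prime_card (p := 2) (α := Y) (by simpa using hk)
        exact isMulCommutative_of_forall fun u hu v hv =>
          congrArg Subtype.val ((IsCyclic.commutative (α := Y)).is_comm.comm ⟨u, hu⟩ ⟨v, hv⟩)
      · exact isMulCommutative_of_forall fun u hu v hv => congrArg Subtype.val
          ((IsPGroup.isMulCommutative_of_card_eq_prime_sq (p := 2) hk).is_comm.comm (⟨u, hu⟩ : Y) ⟨v, hv⟩)
    exact comm_of hc ha hb
  rcases Nat.lt_or_ge 3 k with hk4 | hk4
  · -- order at least sixteen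
    obtain ⟨x, hx, hxZ⟩ : ∃ x ∈ Y, x ∉ Z := by
      by_contra h
      push Not at h
      have := Subgroup.card_le_of_le (fun a ha => h a ha : Y ≤ Z)
      have : 2 ^ 3 ≤ Nat.card Y := hk ▸ Nat.pow_le_pow_right (by norm_num) hk3
      omega
    have h16 : 16 ≤ Nat.card Y := hk ▸ (show 16 = 2 ^ 4 by norm_num) ▸ Nat.pow_le_pow_right (by norm_num) hk4
    set C := Y ⊓ centralizer ({x} : Set G)
    have hC8 : 8 ≤ Nat.card C := by
      have h' : Nat.card Y ≤ 2 * Nat.card C := hrel x hx Y le_rfl
      omega
    have hZcomm : IsMulCommutative ↥Z := isMulCommutative_of_forall fun a ha b hb => hZcen a ha b (hZY hb)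
    set A0 := Z ⊔ zpowers x
    have hA0c : IsMulCommutative ↥A0 := H24.isMulCommutative_sup_zpowers hZcomm
      (mem_centralizer_iff.2 fun a ha => hZcen a ha x hx)
    have hA04 : Nat.card A0 ≤ 4 := by
      have hset : (A0 : Set G) ⊆ (fun p : G × G => p.1 * p.2) '' ((Z : Set G) ×ˢ ({1, x} : Set G)) := by
        intro a ha
        have hx2 := hsq x hx
        refine Subgroup.closure_induction (k := (Z : Set G) ∪ {x}) (p := fun a _ =>
          a ∈ (fun p : G × G => p.1 * p.2) '' ((Z : Set G) ×ˢ ({1, x} : Set G))) ?_ ?_ ?_ ?_ ?_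
        · rintro a (ha | rfl)
          · exact ⟨(a, 1), ⟨ha, Or.inl rfl⟩, mul_one a⟩
          · exact ⟨(1, a), ⟨one_mem Z, Or.inr rfl⟩, one_mul a⟩
        · exact ⟨(1, 1), ⟨one_mem Z, Or.inl rfl⟩, one_mul 1⟩
        · rintro _ _ _ _ ⟨⟨u, s⟩, ⟨hu, hs⟩, rfl⟩ ⟨⟨v, t⟩, ⟨hv, ht⟩, rfl⟩
          have hs' : s = 1 ∨ s = x := hs
          have ht' : t = 1 ∨ t = x := ht
          rcases hs' with e | e <;> rcases ht' with e' | e' <;> simp only [e, e', mul_one]
          · exact ⟨(u * v, 1), ⟨mul_mem hu hv, Or.inl rfl⟩, by simp⟩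
          · exact ⟨(u * v, x), ⟨mul_mem hu hv, Or.inr rfl⟩, by simp [mul_assoc]⟩
          · exact ⟨(u * v, x), ⟨mul_mem hu hv, Or.inr rfl⟩, by
              simp only; rw [mul_assoc u v, hZcen v hv x hx, mul_assoc]⟩
          · exact ⟨(u * v * x ^ 2, 1), ⟨mul_mem (mul_mem hu hv) hx2, Or.inl rfl⟩, by
              simp only [mul_one, pow_two]
              calc u * v * (x * x) = u * (v * x) * x := by group
                _ = u * (x * v) * x := by rw [hZcen v hv x hx]
                _ = u * x * (v * x) := by group⟩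
        · rintro _ _ ⟨⟨u, s⟩, ⟨hu, hs⟩, rfl⟩
          have hs' : s = 1 ∨ s = x := hs
          rcases hs' with e | e <;> simp only [e, mul_one]
          · exact ⟨(u⁻¹, 1), ⟨inv_mem hu, Or.inl rfl⟩, by simp⟩
          · exact ⟨((x ^ 2)⁻¹ * u⁻¹, x), ⟨mul_mem (inv_mem hx2) (inv_mem hu), Or.inr rfl⟩, by
              simp only [pow_two, mul_inv_rev]
              rw [mul_assoc _ u⁻¹ x, hZcen u⁻¹ (inv_mem hu) x hx]
              group⟩
        · have : A0 = closure ((Z : Set G) ∪ {x}) := by
            rw [Subgroup.closure_union, closure_eq, ← zpowers_eq_closure]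
          exact this ▸ ha
      have h' := (Set.ncard_le_ncard hset (Set.toFinite _)).trans (Set.ncard_image_le (Set.toFinite _))
      rw [Set.ncard_prod] at h'
      have h2 : ({1, x} : Set G).ncard ≤ 2 := (Set.ncard_insert_le _ _).trans (by simp)
      rw [← Nat.card_coe_set_eq, ← Nat.card_coe_set_eq (Z : Set G)] at h'
      change Nat.card A0 ≤ Nat.card Z * _ at h'
      rw [hZ2] at h'
      omega
    obtain ⟨y, hy, hyA⟩ : ∃ y ∈ C, y ∉ A0 := by
      by_contra h
      push Not at h
      have := Subgroup.card_le_of_le (fun a ha => h a ha : C ≤ A0)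
      omega
    set A := A0 ⊔ zpowers y
    have hA0Y : A0 ≤ Y := sup_le hZY (zpowers_le.2 hx)
    have hAY : A ≤ Y := sup_le hA0Y (zpowers_le.2 hy.1)
    have hA0cy : y ∈ centralizer (A0 : Set G) := by
      have : A0 ≤ centralizer ({y} : Set G) := sup_le
        (fun a ha => mem_centralizer_singleton_iff.2 (hZcen a ha y hy.1))
        (zpowers_le.2 (mem_centralizer_singleton_iff.2 (mem_centralizer_singleton_iff.1 hy.2).symm))
      exact mem_centralizer_iff.2 fun a ha => mem_centralizer_singleton_iff.1 (this ha)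
    have hAc : IsMulCommutative ↥A := H24.isMulCommutative_sup_zpowers hA0c hA0cy
    have hA04' : 4 ≤ Nat.card A0 := by
      rcases (Subgroup.card_le_of_le (show Z ≤ A0 from le_sup_left)).lt_or_eq with h | h
      · obtain ⟨j, hj⟩ := IsPGroup.iff_card.1 (hY2.to_le hA0Y)
        rw [hj] at h ⊢
        rw [hZ2] at h
        rcases Nat.lt_or_ge j 2 with h2 | h2
        · interval_cases j <;> norm_num at h
        · exact (show 4 = 2 ^ 2 by norm_num) ▸ Nat.pow_le_pow_right (by norm_num) h2
      · exact absurd ((Subgroup.eq_of_le_of_card_ge (show Z ≤ A0 from le_sup_left) h.ge) ▸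
          (mem_sup_right (mem_zpowers x) : x ∈ A0)) hxZ
    have hA8 : 8 ≤ Nat.card A := by
      refine eight_le_of_four_lt (hY2.to_le hAY) ?_
      rcases (Subgroup.card_le_of_le (show A0 ≤ A from le_sup_left)).lt_or_eq with h | h
      · omega
      · exact absurd ((Subgroup.eq_of_le_of_card_ge (show A0 ≤ A from le_sup_left) h.ge) ▸
          (mem_sup_right (mem_zpowers y) : y ∈ A)) hyA
    have hnc : ¬ IsCyclic ↥A := by
      intro hc
      haveI := hc
      obtain ⟨g, hg⟩ := IsCyclic.exists_generator (α := A)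
      have ho : orderOf g = Nat.card A := orderOf_eq_card_of_forall_mem_zpowers hg
      have : orderOf g ∣ 4 := orderOf_dvd_of_pow_eq_one (Subtype.ext (hexp4 g (hAY g.2)))
      have := Nat.le_of_dvd (by norm_num) this
      omega
    refine Or.inl ⟨bad_of_comm hY2 hAY hAc hnc hA8, ?_⟩
    by_contra h32
    have hk' : k = 4 := by
      by_contra hne
      have : 2 ^ 5 ≤ Nat.card Y := hk ▸ Nat.pow_le_pow_right (by norm_num) (by omega)
      omega
    subst hk'
    obtain ⟨u, hu, huA⟩ : ∃ u ∈ Y, u ∉ A := by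
      by_contra h
      push Not at h
      have e : Y = A := le_antisymm h hAY
      obtain ⟨a, ha, b, hb, hab⟩ := hnab
      exact hab (comm_of hAc (e ▸ ha) (e ▸ hb))
    have hgen : Y ≤ A ⊔ zpowers u := by
      have hle : A ⊔ zpowers u ≤ Y := sup_le hAY (zpowers_le.2 hu)
      refine (Subgroup.eq_of_le_of_card_ge hle ?_).ge
      obtain ⟨j, hj⟩ := IsPGroup.iff_card.1 (hY2.to_le hle)
      rw [hk, hj]
      have hlt : Nat.card A < Nat.card ↥(A ⊔ zpowers u) := by
        rcases (Subgroup.card_le_of_le (le_sup_left : A ≤ A ⊔ zpowers u)).lt_or_eq with h | h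
        · exact h
        · exact absurd ((Subgroup.eq_of_le_of_card_ge (le_sup_left : A ≤ A ⊔ zpowers u) h.ge) ▸
            (mem_sup_right (mem_zpowers u) : u ∈ A ⊔ zpowers u)) huA
      refine Nat.pow_le_pow_right (by norm_num) ?_
      by_contra h4
      have : 2 ^ j ≤ 2 ^ 3 := Nat.pow_le_pow_right (by norm_num) (by omega)
      omega
    have hle : A ⊓ centralizer ({u} : Set G) ≤ Z := by
      intro a ha
      refine hcenZ a (hAY ha.1) fun b hb => ?_
      have : A ⊔ zpowers u ≤ centralizer ({a} : Set G) := sup_le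
        (fun c hc => mem_centralizer_singleton_iff.2 (comm_of hAc hc ha.1))
        (zpowers_le.2 (mem_centralizer_singleton_iff.2 (mem_centralizer_singleton_iff.1 ha.2).symm))
      exact (mem_centralizer_singleton_iff.1 (this (hgen hb))).symm
    have h1 := hrel u hu A hAY
    have h2 := Subgroup.card_le_of_le hle
    omega
  · -- order eight
    have hk8 : Nat.card Y = 8 := by rw [hk, show k = 3 by omega]; norm_num
    obtain ⟨z, hzZ, hz1⟩ : ∃ z ∈ Z, z ≠ 1 := by
      by_contra h
      push Not at h
      have : Nat.card Z ≤ 1 := Finite.card_le_one_iff_subsingleton.2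
        ⟨fun a b => Subtype.ext ((h a a.2).trans (h b b.2).symm)⟩
      omega
    have hZz : ∀ a ∈ Z, a = 1 ∨ a = z := by
      intro a ha
      by_contra h
      push Not at h
      have hs : ({1, z, a} : Set G) ⊆ (Z : Set G) := by
        rintro w (rfl | rfl | rfl)
        · exact one_mem Z
        · exact hzZ
        · exact ha
      have h3 : ({1, z, a} : Set G).ncard = 3 := Set.ncard_eq_three.2
        ⟨1, z, a, Ne.symm hz1, Ne.symm h.1, Ne.symm h.2, rfl⟩
      have := Set.ncard_le_ncard hs (Set.toFinite _)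
      rw [h3, ← Nat.card_coe_set_eq] at this
      change _ ≤ Nat.card Z at this
      omega
    have hinv : ∀ t ∈ Y, t * t = 1 → t ∈ Z := by
      intro t ht ht2
      by_contra htZ
      haveI hZn : (center Y).Normal := inferInstance
      have hq4 : Nat.card (↥Y ⧸ center Y) = 4 := by
        have := Subgroup.card_mul_index (center Y)
        rw [hZc, hk8, Subgroup.index_eq_card] at this
        omega
      have hmk : ∀ a b : Y, (QuotientGroup.mk a : ↥Y ⧸ center Y) = QuotientGroup.mk b →
          ((a : G))⁻¹ * (b : G) ∈ Z := fun a b h => ⟨a⁻¹ * b, QuotientGroup.eq.1 h, rfl⟩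
      set U := Z ⊔ zpowers t
      have hUY : U ≤ Y := sup_le hZY (zpowers_le.2 ht)
      have hUmem : ∀ a ∈ Y, a ∈ U ↔ a ∈ Z ∨ a * t ∈ Z := by
        intro a ha
        refine ⟨fun h => ?_, ?_⟩
        · refine Subgroup.closure_induction (k := (Z : Set G) ∪ {t})
            (p := fun a _ => a ∈ Z ∨ a * t ∈ Z) ?_ (Or.inl (one_mem Z)) ?_ ?_ (?_ : a ∈ _)
          · rintro b (hb | rfl)
            · exact Or.inl hb
            · exact Or.inr (by rw [ht2]; exact one_mem Z)
          · rintro b c _ _ hb hc
            rcases hb with hb | hb <;> rcases hc with hc | hc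
            · exact Or.inl (mul_mem hb hc)
            · exact Or.inr (by rw [mul_assoc]; exact mul_mem hb hc)
            · refine Or.inr ?_
              rw [mul_assoc, hZcen c hc t ht, ← mul_assoc]
              exact mul_mem hb hc
            · refine Or.inl ?_
              have hcomm : t * (c * t) = (c * t) * t := (hZcen _ hc t ht).symm
              have e : b * t * (c * t) = b * c := by
                rw [mul_assoc b t, hcomm, mul_assoc c t t, ht2, mul_one]
              rw [← e]
              exact mul_mem hb hc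
          · rintro b _ hb
            rcases hb with hb | hb
            · exact Or.inl (inv_mem hb)
            · refine Or.inr ?_
              have hti : t⁻¹ = t := inv_eq_of_mul_eq_one_right ht2
              have hbt : b⁻¹ * t = t * (b * t)⁻¹ * t := by rw [mul_inv_rev, hti, ← mul_assoc t t, ht2, one_mul]
              rw [hbt, ← hZcen _ (inv_mem hb) t ht, mul_assoc, ht2, mul_one]
              exact inv_mem hb
          · rwa [Subgroup.closure_union, closure_eq, ← zpowers_eq_closure]
        · rintro (h | h)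
          · exact mem_sup_left h
          · have : a = a * t * t := by rw [mul_assoc, ht2, mul_one]
            rw [this]
            exact mul_mem (mem_sup_left h) (mem_sup_right (mem_zpowers t))
      have hU2 : ∀ a ∈ U, a * a = 1 := by
        intro a ha
        have hz2 : ∀ w ∈ Z, w * w = 1 := fun w hw => by
          have := congrArg Subtype.val (pow_card_eq_one' (x := (⟨w, hw⟩ : Z)))
          rw [hZ2] at this
          simpa [pow_two] using this
        rcases (hUmem a (hUY ha)).1 ha with h | h
        · exact hz2 a h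
        · have e : a = (a * t) * t := by rw [mul_assoc, ht2, mul_one]
          rw [e]
          calc a * t * t * (a * t * t) = (a * t) * (t * (a * t)) * t := by group
            _ = (a * t) * ((a * t) * t) * t := by rw [← hZcen _ h t ht]
            _ = ((a * t) * (a * t)) * (t * t) := by group
            _ = 1 := by rw [hz2 _ h, ht2, one_mul]
      have hUne : U ≠ Y := by
        intro e
        obtain ⟨a, ha, b, hb, hab⟩ := hnab
        apply hab
        have hi : ∀ w ∈ Y, w⁻¹ = w := fun w hw => inv_eq_of_mul_eq_one_right (hU2 w (e ▸ hw))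
        have := hi _ (mul_mem ha hb)
        rw [mul_inv_rev, hi a ha, hi b hb] at this
        exact this.symm
      have hU4 : 4 ≤ Nat.card U := by
        refine four_le_of_not_isCyclic (hY2.to_le hUY) (not_isCyclic_of_two (mem_sup_left hzZ)
          (mem_sup_right (mem_zpowers t)) ?_ ht2 hz1 (fun e => htZ (e ▸ one_mem Z))
          (fun e => htZ (e ▸ hzZ)))
        exact hU2 z (mem_sup_left hzZ)
      have hUc : ¬ K ≤ normalizer (U : Set G) := by
        intro hKU
        have hU4' : Nat.card U = 4 := by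
          obtain ⟨j, hj⟩ := Nat.exists_eq_succ_of_ne_zero
            (show Nat.card U ≠ 0 by omega)
          have hd := Subgroup.card_dvd_of_le hUY
          rw [hk8] at hd
          have hle := Nat.le_of_dvd (by norm_num) hd
          have hne : Nat.card U ≠ 8 := fun e8 => hUne (Subgroup.eq_of_le_of_card_ge hUY (by omega))
          interval_cases hc : Nat.card U <;> omega
        have hUc' : IsMulCommutative ↥U := isMulCommutative_of_forall fun a ha b hb => by
          have hi : ∀ w ∈ U, w⁻¹ = w := fun w hw => inv_eq_of_mul_eq_one_right (hU2 w hw)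
          have := hi _ (mul_mem ha hb)
          rw [mul_inv_rev, hi a ha, hi b hb] at this
          exact this.symm
        haveI := hUc'
        have hcop := coprime_of_odd S.odd (hY2.to_le hUY)
        obtain ⟨h1, h2⟩ := H20.abelian_decomposition hKU hcop
        have hlt : ⁅U, K⁆ ≠ U := by
          intro e
          rw [e, inf_assoc, inf_comm (centralizer _), ← inf_assoc, inf_idem] at h1
          have hKZ : K ≤ normalizer (Z : Set G) := H20.le_normalizer_map_characteristic S.norm _
          have hzc : z ∈ centralizer (K : Set G) :=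
            fix_comm (le_centralizer_of_card_le_two S.odd (hY2.to_le hZY) hZ2.le hKZ) hzZ
          exact hz1 ((mem_bot).1 (h1 ▸ ⟨mem_sup_left hzZ, hzc⟩ : z ∈ (⊥ : Subgroup G)))
        have hle := H20.commutator_le_of_le_normalizer hKU
        have hsmall : Nat.card ↥⁅U, K⁆ ≤ 2 := by
          have hd := Subgroup.card_dvd_of_le hle
          rw [hU4'] at hd
          have hne : Nat.card ↥⁅U, K⁆ ≠ 4 := fun e4 => hlt (Subgroup.eq_of_le_of_card_ge hle (by omega))
          have := Nat.le_of_dvd (by norm_num) hd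
          interval_cases hc : Nat.card ↥⁅U, K⁆ <;> omega
        have hfix : ⁅U, K⁆ ≤ centralizer (K : Set G) := fix_comm (le_centralizer_of_card_le_two S.odd
          ((hY2.to_le hUY).to_le hle) hsmall (Subgroup.normalizer_commutator_ge_right U K))
        have hUK : U ≤ centralizer (K : Set G) := by
          rw [← h2]
          exact sup_le inf_le_right hfix
        have hrel2 : U.relIndex Y = 2 := by
          have h := Subgroup.relIndex_mul_relIndex ⊥ U Y bot_le hUY
          rw [Subgroup.relIndex_bot_left, Subgroup.relIndex_bot_left, hU4', hk8] at h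
          omega
        have h0 := commutator_eq_bot_of_index_two S.odd hY2 S.norm hUY hrel2 hUK
        rw [h0] at hcom
        rw [← hcom, Subgroup.card_bot] at hk8
        omega
      rw [SetLike.not_le_iff_exists] at hUc
      obtain ⟨g, hgK, hgU⟩ := hUc
      have hgZ : ∀ w ∈ Z, g * w * g⁻¹ = w := fun w hw => by
        have hKZ : K ≤ normalizer (Z : Set G) := H20.le_normalizer_map_characteristic S.norm _
        rw [(mem_centralizer_iff.1 (le_centralizer_of_card_le_two S.odd (hY2.to_le hZY) hZ2.le hKZ hgK)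
          w hw).symm, mul_inv_cancel_right]
      have hcj : ∀ (h : G), h ∈ K → (∀ w ∈ Z, h * w * h⁻¹ = w) → h * t * h⁻¹ ∈ U →
          h ∈ normalizer (U : Set G) := by
        intro h hh hhZ hht
        refine H20.mem_normalizer_of_conj_smul_eq ?_
        refine Subgroup.eq_of_le_of_card_ge ?_ (H20.card_conj_smul h U).ge
        rw [show U = Z ⊔ zpowers t from rfl, Subgroup.smul_sup]
        refine sup_le ?_ ?_
        · intro w hw
          rw [H20.mem_conj_smul] at hw
          have := hhZ _ hw
          rw [show h * (h⁻¹ * w * h) * h⁻¹ = w by group] at this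
          rw [this]
          exact mem_sup_left hw
        · intro w hw
          rw [H20.mem_conj_smul, mem_zpowers_iff] at hw
          obtain ⟨n, hn⟩ := hw
          rw [show w = h * t ^ n * h⁻¹ by rw [hn]; group, ← conj_zpow]
          exact zpow_mem hht n
      have hg1 : g * t * g⁻¹ ∉ U := fun h => hgU (hcj g hgK hgZ h)
      have hg2 : g * g * t * (g * g)⁻¹ ∉ U := by
        intro h
        have hn2 := hcj (g * g) (mul_mem hgK hgK)
          (fun w hw => by
            calc g * g * w * (g * g)⁻¹ = g * (g * w * g⁻¹) * g⁻¹ := by group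
              _ = w := by rw [hgZ w hw, hgZ w hw]) h
        apply hgU
        obtain ⟨m, hm⟩ := Nat.odd_iff.2 (Nat.odd_iff.1 (S.odd.of_dvd_nat
          (Subgroup.orderOf_dvd_natCard (s := K) hgK)))
        have e : g = ((g * g) ^ m)⁻¹ := by
          refine eq_inv_of_mul_eq_one_right ?_
          rw [← pow_two, ← pow_mul, ← pow_succ, ← hm, pow_orderOf_eq_one]
        rw [e]
        exact inv_mem (pow_mem hn2 m)
      have hg12 : ¬ (g * t * g⁻¹)⁻¹ * (g * g * t * (g * g)⁻¹) ∈ Z := by
        intro h
        apply hg1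
        have h' : g⁻¹ * ((g * t * g⁻¹)⁻¹ * (g * g * t * (g * g)⁻¹)) * g ∈ Z := by
          have e := hgZ _ h
          have e2 : g⁻¹ * ((g * t * g⁻¹)⁻¹ * (g * g * t * (g * g)⁻¹)) * g
              = (g * t * g⁻¹)⁻¹ * (g * g * t * (g * g)⁻¹) := by
            nth_rewrite 1 [← e]
            group
          rw [e2]
          exact h
        have e3 : g * t * g⁻¹ = t * (g⁻¹ * ((g * t * g⁻¹)⁻¹ * (g * g * t * (g * g)⁻¹)) * g) := by group
        rw [e3]
        exact mul_mem (mem_sup_right (mem_zpowers t)) (mem_sup_left h')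
      -- some element squares to the involution
      obtain ⟨y, hy, hy2⟩ : ∃ y ∈ Y, y * y ≠ 1 := by
        by_contra hall
        push Not at hall
        obtain ⟨a, ha, b, hb, hab⟩ := hnab
        apply hab
        have hi : ∀ w ∈ Y, w⁻¹ = w := fun w hw => inv_eq_of_mul_eq_one_right (hall w hw)
        have := hi _ (mul_mem ha hb)
        rw [mul_inv_rev, hi a ha, hi b hb] at this
        exact this.symm
      have hY1 : g * t * g⁻¹ ∈ Y := H20.conj_mem_of_le_normalizer S.norm hgK ht
      have hY2' : g * g * t * (g * g)⁻¹ ∈ Y :=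
        H20.conj_mem_of_le_normalizer S.norm (mul_mem hgK hgK) ht
      -- squares are constant on cosets of the centre
      have hsq1 : ∀ s ∈ Y, s * s = 1 → ∀ w, s⁻¹ * w ∈ Z → w * w = 1 := by
        intro s hs hs2 w hw
        have hz2 : ∀ u ∈ Z, u * u = 1 := fun u hu => hU2 u (mem_sup_left hu)
        rw [show w = s * (s⁻¹ * w) by group]
        calc s * (s⁻¹ * w) * (s * (s⁻¹ * w)) = s * ((s⁻¹ * w) * s) * (s⁻¹ * w) := by group
          _ = s * (s * (s⁻¹ * w)) * (s⁻¹ * w) := by rw [hZcen _ hw s hs]
          _ = (s * s) * ((s⁻¹ * w) * (s⁻¹ * w)) := by group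
          _ = 1 := by rw [hz2 _ hw, hs2, one_mul]
      have hsqc : ∀ h : G, h * t * h⁻¹ * (h * t * h⁻¹) = 1 := fun h => by
        calc h * t * h⁻¹ * (h * t * h⁻¹) = h * (t * t) * h⁻¹ := by group
          _ = 1 := by rw [ht2, mul_one, mul_inv_cancel]
      let f : Fin 5 → ↥Y ⧸ center Y := ![QuotientGroup.mk (1 : Y), QuotientGroup.mk ⟨t, ht⟩,
        QuotientGroup.mk ⟨_, hY1⟩, QuotientGroup.mk ⟨_, hY2'⟩, QuotientGroup.mk ⟨y, hy⟩]
      have hUof : ∀ a, t⁻¹ * a ∈ Z → a ∈ U := fun a h => by
        rw [show a = t * (t⁻¹ * a) by group]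
        exact mul_mem (mem_sup_right (mem_zpowers t)) (mem_sup_left h)
      have hne : ∀ i j : Fin 5, i < j → f i ≠ f j := by
        intro i j hij he
        fin_cases i <;> fin_cases j <;> first
          | exact absurd hij (by decide)
          | (have h := hmk _ _ he
             first
               | exact htZ (by simpa using h)
               | exact hg1 (mem_sup_left (by simpa using h))
               | exact hg2 (mem_sup_left (by simpa using h))
               | exact hy2 (hsq1 1 (one_mem Y) (one_mul 1) y (by simpa using h))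
               | exact hg1 (hUof _ h)
               | exact hg2 (hUof _ h)
               | exact hy2 (hsq1 t ht ht2 y h)
               | exact hg12 h
               | exact hy2 (hsq1 _ hY1 (hsqc g) y h)
               | exact hy2 (hsq1 _ hY2' (hsqc (g * g)) y h))
      have hinj : Function.Injective f := fun i j he => by
        rcases lt_trichotomy i j with h | h | h
        · exact absurd he (hne i j h)
        · exact h
        · exact absurd he.symm (hne j i h)
      have := Nat.card_le_card_of_injective f hinj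
      rw [Nat.card_eq_fintype_card, Fintype.card_fin, hq4] at this
      omega
    have huniq : ∀ H H' : Subgroup Y, Nat.card H = 2 → Nat.card H' = 2 → H = H' := by
      have hall : ∀ H : Subgroup Y, Nat.card H = 2 → H = center Y := by
        intro H hH
        refine Subgroup.eq_of_le_of_card_ge (fun a ha => ?_) (by rw [hH, hZc])
        have ha2 : (a : G) * a = 1 := by
          have := congrArg (fun u : H => ((u : Y) : G)) (pow_card_eq_one' (x := (⟨a, ha⟩ : H)))
          rw [hH] at this
          simpa [pow_two] using this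
        obtain ⟨c, hc, hca⟩ := hinv _ a.2 ha2
        rwa [← show c = a from Subtype.ext hca]
      exact fun H H' h h' => (hall H h).trans (hall H' h').symm
    rcases H21.cyclic_or_quaternion 2 hY2 huniq with hc | ⟨-, n, ⟨e⟩⟩
    · haveI := hc
      obtain ⟨a, ha, b, hb, hab⟩ := hnab
      exact absurd (congrArg Subtype.val ((IsCyclic.commutative (α := Y)).is_comm.comm ⟨a, ha⟩ ⟨b, hb⟩)) hab
    · have h := Nat.card_congr e.toEquiv
      rw [hk8, Nat.card_eq_fintype_card, QuaternionGroup.card] at h
      have hn : 2 ^ n = 2 := by omega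
      rw [hn] at e
      exact Or.inr ⟨e⟩

end Cfsg.Agent.H60.EightFree
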