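import Cfsg.Agent.H60.QuadDegenAlg
import Cfsg.Agent.H61.LocalGlobal

/-!
For `p ≥ 5` a quadratic offender may be chosen normal in its normal closure (degeneration proof).
-/

set_option autoImplicit false

namespace Cfsg.Agent.H60

open Polynomial
open Cfsg.Agent.H61 (cj)

universe u v

namespace Degen

variable {p : ℕ} [hpr : Fact p.Prime]

/-- An invariant filtration of a finite module on which a finite `p`-group acts. -/
theorem exists_filtration {G : Type u} [Group G] [Finite G] (hG : IsPGroup p G) {M : Type v}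
    [AddCommGroup M] [Module (ZMod p) M] [Finite M] (φ : G →* MulAut (Multiplicative M)) :
    ∃ (N : ℕ) (F : ℕ → AddSubgroup M), F 0 = ⊤ ∧ (∀ i, F (i + 1) ≤ F i) ∧ (∀ i, N ≤ i → F i = ⊥) ∧
      ∀ g i, ∀ f ∈ F i, (φ g (Multiplicative.ofAdd f)).toAdd - f ∈ F (i + 1) := by
  have hM : IsPGroup p (Multiplicative M) := fun f => ⟨1, by
    rw [pow_one]
    exact congrArg Multiplicative.ofAdd (ZModModule.char_nsmul_eq_zero p f.toAdd)⟩
  let P := Multiplicative M ⋊[φ] G
  haveI : Finite P := Finite.of_equiv _ SemidirectProduct.equivProd.symm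
  have hP : IsPGroup p P := by
    obtain ⟨m, hm⟩ := IsPGroup.iff_card.1 hM
    obtain ⟨n, hn⟩ := IsPGroup.iff_card.1 hG
    exact IsPGroup.of_card (n := m + n) (by rw [SemidirectProduct.card, hm, hn, pow_add])
  haveI := hP.isNilpotent
  obtain ⟨n, hn⟩ := Group.IsNilpotent.nilpotent P
  let C : ℕ → AddSubgroup M := fun m =>
    Subgroup.toAddSubgroup' ((Subgroup.upperCentralSeries P m).comap SemidirectProduct.inl)
  have hC : ∀ m (f : M), f ∈ C m ↔
      (SemidirectProduct.inl (Multiplicative.ofAdd f) : P) ∈ Subgroup.upperCentralSeries P m :=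
    fun _ _ => Iff.rfl
  have hC0 : C 0 = ⊥ := by
    rw [eq_bot_iff]
    intro f hf
    rw [hC, Subgroup.upperCentralSeries_zero, Subgroup.mem_bot] at hf
    rw [AddSubgroup.mem_bot]
    exact congrArg Multiplicative.toAdd (SemidirectProduct.inl_injective (hf.trans (map_one SemidirectProduct.inl).symm))
  refine ⟨n, fun i => C (n - i), ?_, ?_, ?_, ?_⟩
  · rw [eq_top_iff]
    intro f _
    rw [hC, Nat.sub_zero, hn]
    exact Subgroup.mem_top _
  · intro i f hf
    rw [hC] at hf ⊢
    exact Subgroup.upperCentralSeries_mono P (by omega) hf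
  · intro i hi
    show C (n - i) = ⊥
    rw [Nat.sub_eq_zero_of_le hi, hC0]
  · intro g i f hf
    change f ∈ C (n - i) at hf
    rcases Nat.lt_or_ge i n with hi | hi
    · rw [hC, show n - i = n - (i + 1) + 1 by omega, Subgroup.mem_upperCentralSeries_succ_iff] at hf
      have h1 := Subgroup.inv_mem _ (hf (SemidirectProduct.inr g))
      rw [hC]
      convert h1 using 1
      rw [commutatorElement_def, mul_inv_rev, mul_inv_rev, mul_inv_rev, inv_inv, inv_inv, ← mul_assoc, ← mul_assoc,
        ← map_inv SemidirectProduct.inr, ← SemidirectProduct.inl_aut, ← map_inv, ← map_mul]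
      congr 1
      rw [← ofAdd_toAdd (φ g (Multiplicative.ofAdd f)), ← ofAdd_neg, ← ofAdd_add, sub_eq_add_neg]; rfl
    · rw [Nat.sub_eq_zero_of_le hi, hC0, AddSubgroup.mem_bot] at hf
      subst hf
      simp

variable {V : Type v} [AddCommGroup V] [Module (ZMod p) V]


variable {G : Type u} [Group G] (ρ : G →* (Module.End (ZMod p) V))

/-- `A` acts quadratically. -/
def IsQuad (A : Subgroup G) : Prop := ∀ a ∈ A, ∀ a' ∈ A, (ρ a - 1) * (ρ a' - 1) = 0

variable {ρ}

theorem rho_mul_sub {a a' : G} (h : (ρ a - 1) * (ρ a' - 1) = 0) :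
    ρ (a * a') - 1 = (ρ a - 1) + (ρ a' - 1) := by
  rw [map_mul]
  have : ρ a * ρ a' - 1 = (ρ a - 1) * (ρ a' - 1) + ((ρ a - 1) + (ρ a' - 1)) := by
    rw [mul_sub, sub_mul, mul_one, one_mul]; abel
  rw [this, h, zero_add]

theorem rho_inv_sub {a : G} (h : (ρ a - 1) * (ρ a - 1) = 0) : ρ a⁻¹ - 1 = -(ρ a - 1) := by
  have h1 : ρ a * (2 - ρ a) = 1 := by
    have : ρ a * (2 - ρ a) = 1 - (ρ a - 1) * (ρ a - 1) := by noncomm_ring
    rw [this, h, sub_zero]
  have h2 : ρ a⁻¹ = 2 - ρ a := by
    calc ρ a⁻¹ = ρ a⁻¹ * (ρ a * (2 - ρ a)) := by rw [h1, mul_one]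
      _ = _ := by rw [← mul_assoc, ← map_mul, inv_mul_cancel, map_one, one_mul]
  rw [h2, ← one_add_one_eq_two]; abel

/-- The subspace of `ρ a - 1`, `a ∈ A`, as a generated subgroup. -/
def sh (ρ : G →* (Module.End (ZMod p) V)) (A : Subgroup G) : AddSubgroup (Module.End (ZMod p) V) :=
  AddSubgroup.closure ((fun a => ρ a - 1) '' (A : Set G))

theorem mem_sh {A : Subgroup G} (hA : IsQuad ρ A) {y : (Module.End (ZMod p) V)} :
    y ∈ sh ρ A ↔ ∃ a ∈ A, ρ a - 1 = y := by
  refine ⟨fun h => ?_, ?_⟩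
  · induction h using AddSubgroup.closure_induction with
    | mem y hy => exact hy
    | zero => exact ⟨1, A.one_mem, by simp⟩
    | add y y' _ _ h h' =>
      obtain ⟨a, ha, rfl⟩ := h
      obtain ⟨a', ha', rfl⟩ := h'
      exact ⟨a * a', A.mul_mem ha ha', rho_mul_sub (hA a ha a' ha')⟩
    | neg y _ h =>
      obtain ⟨a, ha, rfl⟩ := h
      exact ⟨a⁻¹, A.inv_mem ha, rho_inv_sub (hA a ha a ha)⟩
  · rintro ⟨a, ha, rfl⟩
    exact AddSubgroup.subset_closure ⟨a, ha, rfl⟩

theorem sh_mul {A : Subgroup G} (hA : IsQuad ρ A) {y y' : (Module.End (ZMod p) V)} (h : y ∈ sh ρ A) (h' : y' ∈ sh ρ A) :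
    y * y' = 0 := by
  obtain ⟨a, ha, rfl⟩ := (mem_sh hA).1 h
  obtain ⟨a', ha', rfl⟩ := (mem_sh hA).1 h'
  exact hA a ha a' ha'

theorem card_sh {A : Subgroup G} (hA : IsQuad ρ A) (hρ : Function.Injective ρ) :
    Nat.card (sh ρ A) = Nat.card A := by
  refine (Nat.card_eq_of_bijective (fun a : A => (⟨ρ a - 1, (mem_sh hA).2 ⟨a, a.2, rfl⟩⟩ : sh ρ A)) ⟨?_, ?_⟩).symm
  · intro a b e
    exact Subtype.ext (hρ (sub_left_injective (congrArg Subtype.val e)))
  · rintro ⟨y, hy⟩
    obtain ⟨a, ha, rfl⟩ := (mem_sh hA).1 hy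
    exact ⟨⟨a, ha⟩, rfl⟩

/-- Fixed points. -/
def fixed (ρ : G →* (Module.End (ZMod p) V)) (A : Subgroup G) : Submodule (ZMod p) V := ⨅ a ∈ A, LinearMap.ker (ρ a - 1)

theorem mem_fixed {A : Subgroup G} {w : V} : w ∈ fixed ρ A ↔ ∀ a ∈ A, (ρ a - 1) w = 0 := by
  simp [fixed, Submodule.mem_iInf, LinearMap.mem_ker]

/-- The endomorphisms with image in a given submodule. -/
def into (W : Submodule (ZMod p) V) : AddSubgroup (Module.End (ZMod p) V) where
  carrier := {e | ∀ w, e w ∈ W}
  zero_mem' := fun _ => W.zero_mem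
  add_mem' := fun h h' w => W.add_mem (h w) (h' w)
  neg_mem' := fun h w => W.neg_mem (h w)

theorem card_into [Finite V] (W : Submodule (ZMod p) V) :
    Nat.card (into W) = Nat.card W ^ Module.finrank (ZMod p) V := by
  have e : into W ≃ (V →ₗ[ZMod p] W) :=
    { toFun := fun e => LinearMap.codRestrict W (e : (Module.End (ZMod p) V)) e.2
      invFun := fun f => ⟨W.subtype.comp f, fun w => (f w).2⟩
      left_inv := fun e => Subtype.ext (LinearMap.ext fun _ => rfl)
      right_inv := fun f => LinearMap.ext fun _ => Subtype.ext rfl }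
  rw [Nat.card_congr e, Module.natCard_eq_pow_finrank (K := ZMod p),
    Module.natCard_eq_pow_finrank (K := ZMod p) (V := W), Module.finrank_linearMap, ← pow_mul, mul_comm]

theorem twist_monomial (x a : (Module.End (ZMod p) V)) (n : ℕ) :
    twist x (monomial n a) =
      monomial n a + monomial (n + 1) (x * a - a * x) - monomial (n + 2) (x * a * x) := by
  rw [twist, ← monomial_one_one_eq_X, C_mul_monomial, mul_one]
  simp only [add_mul, mul_sub, one_mul, mul_one, monomial_mul_monomial, map_sub]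
  rw [show 1 + n + 1 = n + 2 by omega, add_comm 1 n]
  abel

theorem twist_add (x : (Module.End (ZMod p) V)) (q q' : (Polynomial (Module.End (ZMod p) V))) : twist x (q + q') = twist x q + twist x q' := by
  simp [twist, mul_add, add_mul]

theorem twist_twist (x : (Module.End (ZMod p) V)) (hx : x * x = 0) (q : (Polynomial (Module.End (ZMod p) V))) :
    twist x (twist (-x) q) = q ∧ twist (-x) (twist x q) = q := by
  obtain ⟨h1, h2⟩ := twist_inv x hx
  have e : ∀ q, twist (-x) q = (1 - C x * X) * q * (1 + C x * X) := fun q => by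
    simp [twist, sub_eq_add_neg]
  refine ⟨?_, ?_⟩
  · rw [e, twist, mul_assoc (1 - C x * X) q, ← mul_assoc (1 + C x * X) (1 - C x * X), h2, one_mul,
      mul_assoc, h2, mul_one]
  · rw [e, twist, mul_assoc (1 + C x * X) q, ← mul_assoc (1 - C x * X) (1 + C x * X), h1, one_mul,
      mul_assoc, h1, mul_one]

theorem natDegree_one_add (x : (Module.End (ZMod p) V)) :
    (1 + C x * X).natDegree ≤ 1 ∧ (1 - C x * X).natDegree ≤ 1 := by
  have h : (C x * X).natDegree ≤ 1 := natDegree_C_mul_le x X |>.trans natDegree_X_le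
  exact ⟨(natDegree_add_le _ _).trans (max_le (by simp) h), (natDegree_sub_le _ _).trans (max_le (by simp) h)⟩

theorem coeff_twist_mem {x : (Module.End (ZMod p) V)} {q : (Polynomial (Module.End (ZMod p) V))} {W K : AddSubgroup (Module.End (ZMod p) V)} (hq : ∀ i, q.coeff i ∈ W)
    (h0 : ∀ y ∈ W, y ∈ K) (h1 : ∀ y ∈ W, x * y - y * x ∈ K) (h2 : ∀ y ∈ W, x * y * x ∈ K) (d : ℕ) :
    (twist x q).coeff d ∈ K := by
  have hsum : twist x q = ∑ i ∈ Finset.range (q.natDegree + 1), twist x (monomial i (q.coeff i)) := by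
    conv_lhs => rw [q.as_sum_range]
    simp [twist, Finset.mul_sum, Finset.sum_mul]
  rw [hsum, finsetSum_coeff]
  refine sum_mem fun i _ => ?_
  rw [twist_monomial, coeff_sub, coeff_add, coeff_monomial, coeff_monomial, coeff_monomial]
  refine sub_mem (add_mem ?_ ?_) ?_ <;> split_ifs
  · exact h0 _ (hq i)
  · exact K.zero_mem
  · exact h1 _ (hq i)
  · exact K.zero_mem
  · exact h2 _ (hq i)
  · exact K.zero_mem

/-- Polynomials obtained from `W` by twisting. -/
noncomputable def twSub (x : (Module.End (ZMod p) V)) (W : AddSubgroup (Module.End (ZMod p) V)) : AddSubgroup (Polynomial (Module.End (ZMod p) V)) where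
  carrier := {q | ∀ i, (twist (-x) q).coeff i ∈ W}
  zero_mem' := by intro i; simp [twist]
  add_mem' := by
    intro q q' h h' i
    rw [twist_add, coeff_add]
    exact W.add_mem (h i) (h' i)
  neg_mem' := by
    intro q h i
    have : twist (-x) (-q) = -twist (-x) q := by simp [twist]
    rw [this, coeff_neg]
    exact W.neg_mem (h i)

theorem twSub_X (x : (Module.End (ZMod p) V)) (W : AddSubgroup (Module.End (ZMod p) V)) : ∀ q ∈ twSub x W, q * X ∈ twSub x W := by
  intro q hq i
  have : twist (-x) (q * X) = twist (-x) q * X := by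
    simp only [twist, mul_assoc, X_mul]
  rw [this]
  cases i with
  | zero => rw [coeff_mul_X_zero]; exact W.zero_mem
  | succ i => rw [coeff_mul_X]; exact hq i

theorem card_le_lead_tw [Finite V] (x : (Module.End (ZMod p) V)) (hx : x * x = 0) (W : AddSubgroup (Module.End (ZMod p) V)) :
    Nat.card W ≤ Nat.card (leadSub _ (twSub_X x W)) := by
  haveI : Finite (Module.End (ZMod p) V) := Finite.of_injective (fun e => (e : V → V)) DFunLike.coe_injective
  refine card_le_card_lead _ _ W (AddMonoidHom.mk' (twist x) (twist_add x)) ?_ ?_ ?_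
  · intro q q' e
    rw [← (twist_twist x hx q).2, ← (twist_twist x hx q').2]
    exact congrArg _ e
  · intro q
    refine natDegree_mul_le.trans ?_
    have := natDegree_mul_le (p := 1 + C x * X) (q := q)
    have := natDegree_one_add x
    omega
  · intro q hq i
    show (twist (-x) (twist x q)).coeff i ∈ W
    rw [(twist_twist x hx q).2]
    exact hq i

theorem two_mem {W : AddSubgroup (Module.End (ZMod p) V)} (hp : 5 ≤ p) {y : (Module.End (ZMod p) V)} (h : y + y ∈ W) : y ∈ W := by
  obtain ⟨k, hk⟩ : 2 ∣ p + 1 := by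
    obtain ⟨j, hj⟩ := hpr.out.odd_of_ne_two (by omega)
    exact ⟨j + 1, by omega⟩
  have h1 : k • (y + y) = y := by
    rw [← two_nsmul, ← mul_nsmul', mul_comm, ← hk, add_nsmul, ZModModule.char_nsmul_eq_zero, zero_add, one_nsmul]
  exact h1 ▸ W.nsmul_mem h k

/-- Conjugation by a quadratic element, expanded. -/
theorem conj_expand {b : G} (hb : (ρ b - 1) * (ρ b - 1) = 0) (f : (Module.End (ZMod p) V)) :
    ρ b * f * ρ b⁻¹ = f + ((ρ b - 1) * f - f * (ρ b - 1)) - (ρ b - 1) * f * (ρ b - 1) := by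
  have h1 : ρ b⁻¹ = 2 - ρ b := by
    have := rho_inv_sub hb
    calc ρ b⁻¹ = (ρ b⁻¹ - 1) + 1 := by abel
      _ = _ := by rw [this, ← one_add_one_eq_two]; abel
  rw [h1]; noncomm_ring

theorem quad_cj {A : Subgroup G} (hA : IsQuad ρ A) (g : G) : IsQuad ρ (cj g A) := by
  rintro _ ⟨a, ha, rfl⟩ _ ⟨a', ha', rfl⟩
  have e : ∀ a : G, ρ ((MulAut.conj g).toMonoidHom a) - 1 = ρ g * (ρ a - 1) * ρ g⁻¹ := by
    intro a
    rw [mul_sub, sub_mul, mul_one, ← map_mul, ← map_mul, ← map_mul, mul_inv_cancel, map_one]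
    simp [MulAut.conj_apply]
  rw [e, e, mul_assoc (ρ g * (ρ a - 1)), ← mul_assoc (ρ g⁻¹), ← mul_assoc (ρ g⁻¹), ← map_mul, inv_mul_cancel,
    map_one, one_mul, ← mul_assoc, mul_assoc (ρ g) (ρ a - 1), hA a ha a' ha', mul_zero, zero_mul]

theorem mem_sh_cj {A : Subgroup G} (hA : IsQuad ρ A) {b : G} (hb : (ρ b - 1) * (ρ b - 1) = 0) {y : (Module.End (ZMod p) V)}
    (hy : y ∈ sh ρ A) :
    y + ((ρ b - 1) * y - y * (ρ b - 1)) - (ρ b - 1) * y * (ρ b - 1) ∈ sh ρ (cj b A) := by
  obtain ⟨a, ha, rfl⟩ := (mem_sh hA).1 hy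
  rw [← conj_expand hb, mul_sub, sub_mul, mul_one, ← map_mul, ← map_mul, ← map_mul, mul_inv_cancel, map_one]
  exact (mem_sh (quad_cj hA b)).2 ⟨b * a * b⁻¹, ⟨a, ha, rfl⟩, rfl⟩

theorem bracket_mem (hp : 5 ≤ p) {A B : Subgroup G} (hA : IsQuad ρ A) (hB : IsQuad ρ B)
    (hBA : B ≤ Subgroup.normalizer (A : Set G)) {y z : (Module.End (ZMod p) V)} (hy : y ∈ sh ρ A) (hz : z ∈ sh ρ B) :
    y * z - z * y ∈ sh ρ A := by
  obtain ⟨c, hc, rfl⟩ := (mem_sh hB).1 hz
  have key : ∀ c ∈ B,
      y + ((ρ c - 1) * y - y * (ρ c - 1)) - (ρ c - 1) * y * (ρ c - 1) ∈ sh ρ A := by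
    intro c hc
    have := mem_sh_cj hA (hB c hc c hc) hy
    rwa [H61.cj_eq_self (hBA hc)] at this
  have h1 := key c hc
  have h2 := key c⁻¹ (B.inv_mem hc)
  rw [rho_inv_sub (hB c hc c hc)] at h2
  apply two_mem hp
  have h3 := sub_mem h2 h1
  simp only [neg_mul, mul_neg, neg_neg] at h3
  convert h3 using 1
  abel

variable [Finite V] [Finite G]

/-- The degeneration: a quadratic element `b` not normalizing a quadratic offender `A`, such that the
conjugates by `⟨b⟩` normalize each other, yields an offender lying deeper in the filtration. -/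
theorem improve (hp : 5 ≤ p) (hρ : Function.Injective ρ) {N : ℕ} {F : ℕ → AddSubgroup (Module.End (ZMod p) V)}
    (hF0 : F 0 = ⊤) (hFmono : ∀ i, F (i + 1) ≤ F i) (hFN : ∀ i, N ≤ i → F i = ⊥)
    (hF : ∀ g i, ∀ f ∈ F i, ρ g * f * ρ g⁻¹ - f ∈ F (i + 1))
    {A : Subgroup G} (hA : IsQuad ρ A) (hAne : A ≠ ⊥)
    (hoff : Nat.card V ≤ Nat.card A * Nat.card (fixed ρ A))
    {b : G} (hb : (ρ b - 1) * (ρ b - 1) = 0) (hbA : b ∉ Subgroup.normalizer (A : Set G))
    (hn : ∀ i j : Fin 3, cj (![1, b, b⁻¹] i) A ≤ Subgroup.normalizer ((cj (![1, b, b⁻¹] j) A : Subgroup G) : Set G)) :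
    ∃ A' : Subgroup G, A' ≠ ⊥ ∧ IsQuad ρ A' ∧ Nat.card V ≤ Nat.card A' * Nat.card (fixed ρ A') ∧
      ∑ i ∈ Finset.range (N + 1), Nat.card ↥(sh ρ A ⊓ F i) <
        ∑ i ∈ Finset.range (N + 1), Nat.card ↥(sh ρ A' ⊓ F i) := by
  haveI : Finite (Module.End (ZMod p) V) := Finite.of_injective (fun e => (e : V → V)) DFunLike.coe_injective
  set x := ρ b - 1 with hxdef
  set Y := sh ρ A with hY
  set L := leadSub _ (twSub_X x Y) with hL
  -- the three subspaces
  let B : Fin 3 → Subgroup G := fun i => cj (![1, b, b⁻¹] i) A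
  have hBq : ∀ i, IsQuad ρ (B i) := fun i => quad_cj hA _
  let K : Fin 3 → Submodule (ZMod p) (Module.End (ZMod p) V) := fun i => AddSubgroup.toZModSubmodule p (sh ρ (B i))
  set KK := ⨆ i, K i with hKK
  have hy0 : ∀ y ∈ Y, y ∈ KK := fun y hy => Submodule.mem_iSup_of_mem 0 (by
    show y ∈ sh ρ (cj (1 : G) A)
    rwa [H61.cj_one])
  have hy12 : ∀ y ∈ Y, (x * y - y * x ∈ KK) ∧ (x * y * x ∈ KK) := by
    intro y hy
    have h1 : y + (x * y - y * x) - x * y * x ∈ KK :=
      Submodule.mem_iSup_of_mem 1 (mem_sh_cj hA hb hy)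
    have hb' : (ρ b⁻¹ - 1) * (ρ b⁻¹ - 1) = 0 := by rw [rho_inv_sub hb, neg_mul_neg, hb]
    have h2 : y - (x * y - y * x) - x * y * x ∈ KK := by
      have := mem_sh_cj hA hb' hy
      rw [rho_inv_sub hb] at this
      refine Submodule.mem_iSup_of_mem 2 ?_
      show _ ∈ sh ρ (cj b⁻¹ A)
      convert this using 1
      rw [hxdef]; noncomm_ring
    refine ⟨two_mem (W := KK.toAddSubgroup) hp ?_, two_mem (W := KK.toAddSubgroup) hp ?_⟩
    · show _ ∈ KK
      convert sub_mem h1 h2 using 1
      abel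
    · show _ ∈ KK
      convert sub_mem (add_mem (hy0 y hy) (hy0 y hy)) (add_mem h1 h2) using 1
      abel
  -- leading coefficients lie in `KK` and multiply to zero
  have hLK : ∀ l ∈ L, l ∈ KK := by
    rintro _ ⟨q, hq, d, -, rfl⟩
    rw [← (twist_twist x hb q).1]
    exact coeff_twist_mem (K := KK.toAddSubgroup) hq hy0 (fun y hy => (hy12 y hy).1)
      (fun y hy => (hy12 y hy).2) d
  have hLL : ∀ l ∈ L, ∀ l' ∈ L, l * l' = 0 := by
    rintro _ ⟨q, hq, d, hd, rfl⟩ _ ⟨q', hq', d', hd', rfl⟩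
    rw [← coeff_mul_add_eq_of_natDegree_le hd hd']
    have h0 : twist (-x) q * twist (-x) q' = 0 := by
      ext i
      rw [coeff_mul, coeff_zero, Finset.sum_eq_zero]
      exact fun a _ => sh_mul hA (hq _) (hq' _)
    have : q * q' = 0 := by
      conv_lhs => rw [← (twist_twist x hb q).1, ← (twist_twist x hb q').1]
      obtain ⟨h1, -⟩ := twist_inv x hb
      generalize twist (-x) q = r at h0 ⊢
      generalize twist (-x) q' = r' at h0 ⊢
      rw [twist, twist, mul_assoc (1 + C x * X) r', mul_assoc ((1 + C x * X) * r),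
        ← mul_assoc (1 - C x * X) (1 + C x * X), h1, one_mul, ← mul_assoc, mul_assoc (1 + C x * X), h0,
        mul_zero, zero_mul]
    rw [this, coeff_zero]
  have h2 : ((2 : ℕ) : ZMod p) ≠ 0 := fun h => by
    rw [ZMod.natCast_eq_zero_iff] at h
    exact absurd (Nat.le_of_dvd (by norm_num) h) (by omega)
  have h3 : ((3 : ℕ) : ZMod p) ≠ 0 := fun h => by
    rw [ZMod.natCast_eq_zero_iff] at h
    exact absurd (Nat.le_of_dvd (by norm_num) h) (by omega)
  have hLG : ∀ l ∈ L, ∃ a, ρ a - 1 = l := by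
    intro l hl
    obtain ⟨a, ha⟩ := one_add_mem_of_sum K (by exact_mod_cast h2) (by exact_mod_cast h3)
      (fun i y hy y' hy' => sh_mul (hBq i) hy hy')
      (fun i j y hy z hz => bracket_mem hp (hBq i) (hBq j) (hn j i) hy hz)
      (MonoidHom.mrange ρ) (fun i y hy => by
        obtain ⟨a, -, rfl⟩ := (mem_sh (hBq i)).1 hy
        exact ⟨a, by abel⟩) (hLK l hl) (hLL l hl l hl)
    exact ⟨a, by rw [ha]; abel⟩
  -- the new offender
  let A' : Subgroup G :=
    { carrier := {a | ρ a - 1 ∈ L}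
      one_mem' := by simp
      mul_mem' := fun {a a'} h h' => by
        show ρ (a * a') - 1 ∈ L
        rw [rho_mul_sub (hLL _ h _ h')]
        exact L.add_mem h h'
      inv_mem' := fun {a} h => by
        show ρ a⁻¹ - 1 ∈ L
        rw [rho_inv_sub (hLL _ h _ h)]
        exact L.neg_mem h }
  have hA' : IsQuad ρ A' := fun a ha a' ha' => hLL _ ha _ ha'
  have hshA' : sh ρ A' = L := le_antisymm
    ((AddSubgroup.closure_le _).2 (by rintro _ ⟨a, ha, rfl⟩; exact ha))
    (fun l hl => by obtain ⟨a, rfl⟩ := hLG l hl; exact (mem_sh hA').2 ⟨a, hl, rfl⟩)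
  have hcard : Nat.card A ≤ Nat.card A' := by
    rw [← card_sh hA hρ, ← card_sh hA' hρ, hshA']
    exact card_le_lead_tw x hb Y
  -- fixed points
  have hfix : Nat.card (fixed ρ A) ≤ Nat.card (fixed ρ A') := by
    let S : AddSubgroup (Polynomial (Module.End (ZMod p) V)) :=
      { carrier := {q | ∀ i, ((1 - C x * X) * q).coeff i ∈ into (fixed ρ A)}
        zero_mem' := fun i => by simp
        add_mem' := fun {q q'} h h' i => by
          rw [mul_add, coeff_add]; exact AddSubgroup.add_mem _ (h i) (h' i)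
        neg_mem' := fun {q} h i => by
          show ((1 - C x * X) * -q).coeff i ∈ _
          rw [show (1 - C x * X) * -q = -((1 - C x * X) * q) from mul_neg (1 - C x * X) q, coeff_neg]; exact AddSubgroup.neg_mem _ (h i) }
    have hS : ∀ q ∈ S, q * X ∈ S := fun q hq i => by
      rw [← mul_assoc]
      cases i with
      | zero => rw [coeff_mul_X_zero]; exact AddSubgroup.zero_mem _
      | succ i => rw [coeff_mul_X]; exact hq i
    have h1 : Nat.card (into (fixed ρ A)) ≤ Nat.card (leadSub S hS) := by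
      refine card_le_card_lead S hS _ (AddMonoidHom.mulLeft (1 + C x * X)) ?_ ?_ ?_
      · intro q q' e
        have := congrArg ((1 - C x * X) * ·) e
        simpa [← mul_assoc, (twist_inv x hb).1] using this
      · intro q
        refine natDegree_mul_le.trans ?_
        have := natDegree_one_add x
        omega
      · intro q hq i
        show ((1 - C x * X) * ((1 + C x * X) * q)).coeff i ∈ _
        rw [← mul_assoc, (twist_inv x hb).1, one_mul]
        exact hq i
    have h2 : leadSub S hS ≤ into (fixed ρ A') := by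
      rintro _ ⟨q', hq', d', hd', rfl⟩ w
      rw [mem_fixed]
      intro a ha
      obtain ⟨q, hq, d, hd, e⟩ := (ha : ρ a - 1 ∈ L)
      rw [← e, ← Module.End.mul_apply, ← coeff_mul_add_eq_of_natDegree_le hd hd']
      have h0 : twist (-x) q * ((1 - C x * X) * q') = 0 := by
        ext i
        rw [coeff_mul, coeff_zero, Finset.sum_eq_zero]
        intro k _
        refine LinearMap.ext fun w => ?_
        obtain ⟨c, hc, ec⟩ := (mem_sh hA).1 (hq k.1)
        rw [← ec]
        exact mem_fixed.1 (hq' k.2 w) c hc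
      have : q * q' = 0 := by
        conv_lhs => rw [← (twist_twist x hb q).1]
        generalize twist (-x) q = r at h0 ⊢
        rw [twist, mul_assoc ((1 + C x * X) * r), mul_assoc (1 + C x * X), h0, mul_zero]
      rw [this, coeff_zero]; rfl
    have h3 := h1.trans (AddSubgroup.card_le_of_le h2)
    rw [card_into, card_into] at h3
    by_cases hn0 : Module.finrank (ZMod p) V = 0
    · haveI := Module.finrank_zero_iff.1 hn0
      exact (Nat.card_of_subsingleton (0 : fixed ρ A)).le.trans Nat.card_pos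
    · exact (Nat.pow_le_pow_iff_left hn0).1 h3
  -- the filtration is preserved by twisting
  have hFD : ∀ i, ∀ f ∈ F i, x * f - f * x ∈ F (i + 1) ∧ x * f * x ∈ F (i + 1) := by
    intro i f hf
    have h1 := hF b i f hf
    rw [conj_expand hb] at h1
    have h2 := hF b⁻¹ i f hf
    have hb' : (ρ b⁻¹ - 1) * (ρ b⁻¹ - 1) = 0 := by rw [rho_inv_sub hb, neg_mul_neg, hb]
    rw [conj_expand hb', rho_inv_sub hb] at h2
    refine ⟨two_mem hp ?_, two_mem hp ?_⟩
    · convert sub_mem h1 h2 using 1
      simp only [hxdef, neg_mul, mul_neg, neg_neg]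
      abel
    · convert neg_mem (add_mem h1 h2) using 1
      simp only [hxdef, neg_mul, mul_neg, neg_neg]
      abel
  have hmono : ∀ i, Nat.card ↥(Y ⊓ F i) ≤ Nat.card ↥(L ⊓ F i) := by
    intro i
    refine (card_le_lead_tw x hb (Y ⊓ F i)).trans (AddSubgroup.card_le_of_le ?_)
    rintro _ ⟨q, hq, d, hd, rfl⟩
    refine ⟨⟨q, fun j => (hq j).1, d, hd, rfl⟩, ?_⟩
    rw [← (twist_twist x hb q).1]
    exact coeff_twist_mem hq (fun y hy => hy.2) (fun y hy => hFmono i (hFD i y hy.2).1)
      (fun y hy => hFmono i (hFD i y hy.2).2) d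
  refine ⟨A', fun h => hAne (Subgroup.eq_bot_of_card_le A (hcard.trans_eq (by rw [h, Subgroup.card_bot]))),
    hA', hoff.trans (Nat.mul_le_mul hcard hfix), ?_⟩
  rw [hshA']
  by_contra hlt
  have heq : ∀ i, Nat.card ↥(L ⊓ F i) ≤ Nat.card ↥(Y ⊓ F i) := by
    intro i
    rcases Nat.lt_or_ge i (N + 1) with hi | hi
    · by_contra h
      exact hlt (Finset.sum_lt_sum (fun j _ => hmono j) ⟨i, Finset.mem_range.2 hi, not_le.1 h⟩)
    · simp [hFN i (by omega)]
  have inv : ∀ k i, N ≤ i + k → ∀ y ∈ Y ⊓ F i, x * y - y * x ∈ Y ∧ x * y * x ∈ Y := by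
    intro k
    induction k with
    | zero =>
      intro i hi y hy
      have : y = 0 := by
        have h0 : y ∈ F i := hy.2
        rwa [hFN i (by omega), AddSubgroup.mem_bot] at h0
      subst this
      simp
    | succ k ih =>
      intro i hi y hy
      have heq' : L ⊓ F (i + 1) = Y ⊓ F (i + 1) := by
        refine (SetLike.coe_injective (Set.eq_of_subset_of_ncard_le ?_ (heq (i + 1)) (Set.toFinite _))).symm
        intro z hz
        obtain ⟨e1, e2⟩ := ih (i + 1) (by omega) z hz
        refine ⟨⟨C z, fun j => ?_, 0, (natDegree_C z).le, coeff_C_zero⟩, hz.2⟩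
        refine coeff_twist_mem (W := Y ⊓ F (i + 1) ⊓ AddSubgroup.closure {z}) (K := Y) (fun m => ?_)
          (fun w hw => hw.1.1) (fun w hw => ?_) (fun w hw => ?_) j
        · rw [coeff_C]
          split_ifs
          · exact ⟨hz, AddSubgroup.subset_closure rfl⟩
          · exact AddSubgroup.zero_mem _
        · obtain ⟨e1, -⟩ := ih (i + 1) (by omega) w hw.1
          convert Y.neg_mem e1 using 1
          noncomm_ring
        · obtain ⟨-, e2⟩ := ih (i + 1) (by omega) w hw.1
          simpa using e2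
      have hin : ∀ l, l ∈ L → l ∈ F (i + 1) → l ∈ Y := fun l h h' =>
        (heq'.le ⟨h, h'⟩).1
      have e2 : x * y * x ∈ Y := by
        have hq : twist x (C y) ∈ twSub x Y := fun j => by
          rw [(twist_twist x hb _).2, coeff_C]
          split_ifs
          · exact hy.1
          · exact Y.zero_mem
        have := hin (-(x * y * x)) ⟨_, hq, 2, ?_, ?_⟩ ((F (i + 1)).neg_mem (hFD i y hy.2).2)
        · simpa using this
        · rw [← monomial_zero_left, twist_monomial]
          refine (natDegree_sub_le _ _).trans (max_le ((natDegree_add_le _ _).trans (max_le ?_ ?_)) ?_) <;>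
            exact (natDegree_monomial_le _).trans (by norm_num)
        · rw [← monomial_zero_left, twist_monomial]
          simp [coeff_monomial]
      refine ⟨?_, e2⟩
      have hq : twist x (monomial 0 y + monomial 2 (x * y * x)) ∈ twSub x Y := fun j => by
        rw [(twist_twist x hb _).2, coeff_add, coeff_monomial, coeff_monomial]
        refine Y.add_mem ?_ ?_ <;> split_ifs
        · exact hy.1
        · exact Y.zero_mem
        · exact e2
        · exact Y.zero_mem
      have e3 : twist x (monomial 0 y + monomial 2 (x * y * x)) =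
          monomial 0 y + monomial 1 (x * y - y * x) := by
        rw [twist_add, twist_monomial, twist_monomial]
        have z1 : x * (x * y * x) = 0 := by rw [← mul_assoc, ← mul_assoc, hb, zero_mul, zero_mul]
        have z2 : x * y * x * x = 0 := by rw [mul_assoc, hb, mul_zero]
        rw [z1, z2, sub_zero, zero_mul, monomial_zero_right, monomial_zero_right, sub_zero, add_zero]
        abel
      refine hin _ ⟨_, hq, 1, ?_, ?_⟩ (hFD i y hy.2).1
      · rw [e3]
        refine (natDegree_add_le _ _).trans (max_le ?_ ?_) <;>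
          exact (natDegree_monomial_le _).trans (by norm_num)
      · rw [e3]; simp [coeff_monomial]
  apply hbA
  refine H61.mem_normalizer_of_cj (H61.cj_eq_of_le ?_)
  rintro _ ⟨a, ha, rfl⟩
  have hy : ρ a - 1 ∈ Y := (mem_sh hA).2 ⟨a, ha, rfl⟩
  obtain ⟨e1, e2⟩ := inv N 0 (by omega) _ ⟨hy, by rw [hF0]; trivial⟩
  obtain ⟨a', ha', e⟩ := (mem_sh hA).1 (Y.sub_mem (Y.add_mem hy e1) e2)
  rw [hxdef, ← conj_expand hb, mul_sub, sub_mul, mul_one, ← map_mul, ← map_mul, ← map_mul, mul_inv_cancel,
    map_one] at e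
  rwa [show (MulAut.conj b).toMonoidHom a = a' from (hρ (sub_left_injective e)).symm]

/-- A quadratic offender may be chosen normalised by all its conjugates. -/
theorem exists_quad_normal (hp : 5 ≤ p) (hG : IsPGroup p G) (hρ : Function.Injective ρ)
    (hex : ∃ A : Subgroup G, A ≠ ⊥ ∧ IsQuad ρ A ∧ Nat.card V ≤ Nat.card A * Nat.card (fixed ρ A)) :
    ∃ A : Subgroup G, A ≠ ⊥ ∧ IsQuad ρ A ∧ Nat.card V ≤ Nat.card A * Nat.card (fixed ρ A) ∧
      ∀ g, cj g A ≤ Subgroup.normalizer (A : Set G) := by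
  classical
  haveI : Finite (Module.End (ZMod p) V) := Finite.of_injective (fun e => (e : V → V)) DFunLike.coe_injective
  let conjM : G →* MulAut (Multiplicative (Module.End (ZMod p) V)) :=
    { toFun := fun g => AddEquiv.toMultiplicative
        { toFun := fun f => ρ g * f * ρ g⁻¹
          invFun := fun f => ρ g⁻¹ * f * ρ g
          left_inv := fun f => by
            simp only [← mul_assoc, ← map_mul, inv_mul_cancel, map_one, one_mul]
            rw [mul_assoc, ← map_mul, inv_mul_cancel, map_one, mul_one]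
          right_inv := fun f => by
            simp only [← mul_assoc, ← map_mul, mul_inv_cancel, map_one, one_mul]
            rw [mul_assoc, ← map_mul, mul_inv_cancel, map_one, mul_one]
          map_add' := fun f f' => by rw [mul_add, add_mul] }
      map_one' := by ext f; simp
      map_mul' := fun g h => by
        ext f
        simp [mul_inv_rev, map_mul, mul_assoc] }
  obtain ⟨N, F, hF0, hFmono, hFN, hF⟩ := exists_filtration (p := p) hG conjM
  let m : Subgroup G → ℕ := fun A => ∑ i ∈ Finset.range (N + 1), Nat.card ↥(sh ρ A ⊓ F i)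
  obtain ⟨A, ⟨hAne, hA, hoff⟩, hmax⟩ := Set.exists_max_image
    {A : Subgroup G | A ≠ ⊥ ∧ IsQuad ρ A ∧ Nat.card V ≤ Nat.card A * Nat.card (fixed ρ A)} m
    (Set.toFinite _) hex
  refine ⟨A, hAne, hA, hoff, ?_⟩
  -- otherwise take a minimal overgroup in which `A` is not normal in its closure
  suffices h : ∀ n, ∀ H : Subgroup G, Nat.card H = n → A ≤ H → ∀ g ∈ H,
      cj g A ≤ Subgroup.normalizer (A : Set G) from fun g => h _ ⊤ rfl le_top g trivial
  intro n
  induction n using Nat.strong_induction_on with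
  | _ n ih =>
    intro H hn hAH g hg
    by_cases hHA : H ≤ A
    · rw [H61.cj_eq_self (Subgroup.le_normalizer (hHA hg))]
      exact Subgroup.le_normalizer
    -- a maximal subgroup of `H` containing `A`
    obtain ⟨M', hM', hAM'⟩ : ∃ M' : Subgroup H, IsCoatom M' ∧ A.subgroupOf H ≤ M' := by
      rcases eq_top_or_exists_le_coatom (A.subgroupOf H) with h | h
      · exact absurd (Subgroup.subgroupOf_eq_top.1 h) hHA
      · exact h
    haveI : Group.IsNilpotent H := (hG.to_subgroup H).isNilpotent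
    haveI hMn : M'.Normal := Subgroup.NormalizerCondition.normal_of_coatom M' Group.normalizerCondition_of_isNilpotent hM'
    set M := M'.map H.subtype with hM
    have hMH : M ≤ H := Subgroup.map_subtype_le _
    have hAM : A ≤ M := fun a ha => ⟨⟨a, hAH ha⟩, hAM' ha, rfl⟩
    have hMlt : Nat.card M < Nat.card H := by
      rw [hM, Subgroup.card_map_of_injective H.subtype_injective]
      exact lt_of_le_of_ne (Subgroup.card_le_card_group _) fun e =>
        hM'.1 (Subgroup.eq_top_of_le_card _ e.ge)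
    have hmM := ih (Nat.card M) (hn ▸ hMlt) M rfl hAM
    by_contra hcon
    obtain ⟨b, hbA, hbN⟩ := SetLike.not_le_iff_exists.1 hcon
    have hbM : b ∈ M := by
      obtain ⟨a, ha, rfl⟩ := hbA
      obtain ⟨a', ha', e⟩ := hAM ha
      refine ⟨⟨g, hg⟩ * a' * ⟨g, hg⟩⁻¹, hMn.conj_mem _ ha' _, ?_⟩
      simp [← e, MulAut.conj_apply]
    have hb2 : (ρ b - 1) * (ρ b - 1) = 0 := quad_cj hA g b hbA b hbA
    obtain ⟨A', h1, h2, h3, h4⟩ := improve hp hρ hF0 hFmono hFN
      (fun g i f hf => hF g i f hf) hA hAne hoff hb2 hbN (fun i j => by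
        have hmem : ∀ k : Fin 3, ![1, b, b⁻¹] k ∈ M := by
          intro k; fin_cases k
          · exact M.one_mem
          · exact hbM
          · exact M.inv_mem hbM
        have h := hmM ((![1, b, b⁻¹] j)⁻¹ * ![1, b, b⁻¹] i) (M.mul_mem (M.inv_mem (hmem j)) (hmem i))
        have h' := H61.cj_mono (![1, b, b⁻¹] j) h
        rw [H61.cj_cj, mul_inv_cancel_left] at h'
        exact h'.trans (Subgroup.le_normalizer_map _))
    exact absurd (hmax A' ⟨h1, h2, h3⟩) (not_le.2 h4)

end Degen

end Cfsg.Agent.H60
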