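import Mathlib

/-!
Ring-theoretic part of the degeneration argument for quadratic offenders: leading coefficients of
`(1 + tX) p (1 - tX)`, and the exponential of a sum of three mutually normalising square-zero subspaces.
-/

set_option autoImplicit false

namespace Cfsg.Agent.H60

open Polynomial

universe u

section Lead

variable {R : Type u} [Ring R]

/-- Conjugation by `1 + xX` in the polynomial ring. -/
noncomputable def twist (x : R) (q : R[X]) : R[X] := (1 + C x * X) * q * (1 - C x * X)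

theorem twist_inv (x : R) (hx : x * x = 0) :
    (1 - C x * X) * (1 + C x * X) = 1 ∧ (1 + C x * X) * (1 - C x * X) = (1 : R[X]) := by
  have h : C x * X * (C x * X) = (0 : R[X]) := by
    rw [mul_assoc, ← mul_assoc X (C x), X_mul, mul_assoc, ← mul_assoc (C x), ← map_mul, hx, map_zero,
      zero_mul]
  constructor <;> simp [mul_add, add_mul, sub_mul, mul_sub, h]

/-- Leading coefficients of an additive subgroup of polynomials. -/
def leadSet (S : AddSubgroup R[X]) : Set R :=
  {l | ∃ q ∈ S, ∃ d, q.natDegree ≤ d ∧ q.coeff d = l}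

/-- The leading coefficients form a subgroup when `S` is closed under multiplication by `X`. -/
def leadSub (S : AddSubgroup R[X]) (hS : ∀ q ∈ S, q * X ∈ S) : AddSubgroup R where
  carrier := leadSet S
  zero_mem' := ⟨0, S.zero_mem, 0, by simp, by simp⟩
  neg_mem' := by
    rintro l ⟨q, hq, d, hd, rfl⟩
    exact ⟨-q, S.neg_mem hq, d, by rwa [natDegree_neg], coeff_neg _ _⟩
  add_mem' := by
    rintro l l' ⟨q, hq, d, hd, rfl⟩ ⟨q', hq', d', hd', rfl⟩
    have hpow : ∀ q ∈ S, ∀ n : ℕ, q * X ^ n ∈ S := by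
      intro q hq n
      induction n with
      | zero => simpa using hq
      | succ n ih => rw [pow_succ, ← mul_assoc]; exact hS _ ih
    refine ⟨q * X ^ d' + q' * X ^ d, S.add_mem (hpow q hq d') (hpow q' hq' d), d + d', ?_, ?_⟩
    · refine (natDegree_add_le _ _).trans (max_le ?_ ?_)
      · exact natDegree_mul_le.trans (add_le_add hd (natDegree_X_pow_le _))
      · exact (natDegree_mul_le.trans (add_le_add hd' (natDegree_X_pow_le _))).trans_eq (add_comm _ _)
    · rw [coeff_add, coeff_mul_X_pow, add_comm d d', coeff_mul_X_pow]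

theorem mem_leadSub {S : AddSubgroup R[X]} {hS : ∀ q ∈ S, q * X ∈ S} {l : R} :
    l ∈ leadSub S hS ↔ ∃ q ∈ S, ∃ d, q.natDegree ≤ d ∧ q.coeff d = l := Iff.rfl

/-- Polynomials of `S` of bounded degree, counted by leading coefficients. -/
theorem card_deg_le [Finite R] (S : AddSubgroup R[X]) (hS : ∀ q ∈ S, q * X ∈ S) (n : ℕ) :
    Finite {q : R[X] // q ∈ S ∧ q.natDegree < n + 1} ∧
      Nat.card {q : R[X] // q ∈ S ∧ q.natDegree < n + 1} ≤ Nat.card (leadSub S hS) ^ (n + 1) := by
  let f : {q : R[X] // q ∈ S ∧ q.natDegree < n + 1} → Fin (n + 1) → R := fun q i => q.1.coeff i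
  have hf : Function.Injective f := by
    intro a b e
    ext i
    by_cases hi : i < n + 1
    · exact congrFun e ⟨i, hi⟩
    · rw [coeff_eq_zero_of_natDegree_lt (lt_of_lt_of_le a.2.2 (not_lt.1 hi)),
        coeff_eq_zero_of_natDegree_lt (lt_of_lt_of_le b.2.2 (not_lt.1 hi))]
  refine ⟨Finite.of_injective f hf, ?_⟩
  clear f hf
  induction n with
  | zero =>
    rw [pow_one]
    refine Nat.card_le_card_of_injective
      (fun q => (⟨q.1.coeff 0, q.1, q.2.1, 0, Nat.lt_succ_iff.1 q.2.2, rfl⟩ : leadSub S hS)) ?_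
    intro a b e
    have ha := Nat.lt_succ_iff.1 a.2.2
    have hb := Nat.lt_succ_iff.1 b.2.2
    rw [Subtype.ext_iff, eq_C_of_natDegree_le_zero ha, eq_C_of_natDegree_le_zero hb]
    exact congrArg C (Subtype.ext_iff.1 e)
  | succ n ih =>
    classical
    have hfinM : Finite {q : R[X] // q ∈ S ∧ q.natDegree < n + 1} := by
      refine Finite.of_injective (β := Fin (n + 1) → R) (fun q i => q.1.coeff i) ?_
      intro a b e
      ext i
      by_cases hi : i < n + 1
      · exact congrFun e ⟨i, hi⟩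
      · rw [coeff_eq_zero_of_natDegree_lt (lt_of_lt_of_le a.2.2 (not_lt.1 hi)),
          coeff_eq_zero_of_natDegree_lt (lt_of_lt_of_le b.2.2 (not_lt.1 hi))]
    let lead : {q : R[X] // q ∈ S ∧ q.natDegree < n + 1 + 1} → leadSub S hS := fun q =>
      ⟨q.1.coeff (n + 1), q.1, q.2.1, n + 1, Nat.lt_succ_iff.1 q.2.2, rfl⟩
    let rep : leadSub S hS → R[X] := fun l =>
      if h : ∃ q, lead q = l then (h.choose).1 else 0
    let g : {q : R[X] // q ∈ S ∧ q.natDegree < n + 1 + 1} →
        leadSub S hS × {q : R[X] // q ∈ S ∧ q.natDegree < n + 1} := fun q =>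
      (lead q, ⟨q.1 - rep (lead q), by
        have h : ∃ q', lead q' = lead q := ⟨q, rfl⟩
        have e : h.choose.1.coeff (n + 1) = q.1.coeff (n + 1) := congrArg Subtype.val h.choose_spec
        simp only [rep, dif_pos h]
        refine ⟨S.sub_mem q.2.1 h.choose.2.1, Nat.lt_succ_iff.2 (natDegree_le_iff_coeff_eq_zero.2 ?_)⟩
        intro N hN
        rw [coeff_sub]
        rcases Nat.lt_or_ge (n + 1) N with h1 | h1
        · rw [coeff_eq_zero_of_natDegree_lt (lt_of_lt_of_le q.2.2 h1),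
            coeff_eq_zero_of_natDegree_lt (lt_of_lt_of_le h.choose.2.2 h1), sub_zero]
        · rw [show N = n + 1 by omega, e, sub_self]⟩)
    have hg : Function.Injective g := by
      intro a b e
      obtain ⟨e1, e2⟩ := Prod.mk.inj e
      have e3 := congrArg Subtype.val e2
      simp only [e1] at e3
      exact Subtype.ext (sub_left_injective e3)
    calc Nat.card {q : R[X] // q ∈ S ∧ q.natDegree < n + 1 + 1}
        ≤ Nat.card (leadSub S hS × {q : R[X] // q ∈ S ∧ q.natDegree < n + 1}) :=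
          Nat.card_le_card_of_injective g hg
      _ ≤ Nat.card (leadSub S hS) * Nat.card (leadSub S hS) ^ (n + 1) := by
          rw [Nat.card_prod]; exact Nat.mul_le_mul_left _ ih
      _ = _ := (pow_succ' _ _).symm

/-- If degrees grow by at most two, there are at least as many leading coefficients as coefficients. -/
theorem card_le_card_lead [Finite R] (S : AddSubgroup R[X]) (hS : ∀ q ∈ S, q * X ∈ S) (W : AddSubgroup R)
    (φ : R[X] →+ R[X]) (hinj : Function.Injective φ) (hdeg : ∀ q, (φ q).natDegree ≤ q.natDegree + 2)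
    (hW : ∀ q : R[X], (∀ i, q.coeff i ∈ W) → φ q ∈ S) :
    Nat.card W ≤ Nat.card (leadSub S hS) := by
  set w := Nat.card W
  set l := Nat.card (leadSub S hS) with hl
  have key : ∀ n, w ^ (n + 1) ≤ l ^ (n + 3) := by
    intro n
    obtain ⟨hfin, hcard⟩ := card_deg_le S hS (n + 2)
    classical
    let mk : (Fin (n + 1) → W) → R[X] := fun c => ∑ i : Fin (n + 1), monomial (i : ℕ) (c i : R)
    have hc : ∀ c (j : Fin (n + 1)), (mk c).coeff j = (c j : R) := by
      intro c j
      simp [mk, finsetSum_coeff, coeff_monomial, Fin.val_inj]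
    have hd : ∀ c, (mk c).natDegree ≤ n := fun c => natDegree_sum_le_of_forall_le _ _ fun i _ =>
      (natDegree_monomial_le _).trans (Nat.lt_succ_iff.1 i.2)
    have hm : ∀ c i, (mk c).coeff i ∈ W := by
      intro c i
      rw [finsetSum_coeff]
      refine sum_mem fun j _ => ?_
      rw [coeff_monomial]
      split_ifs
      · exact (c j).2
      · exact W.zero_mem
    have h1 := Nat.card_le_card_of_injective
      (fun c => (⟨φ (mk c), hW _ (hm c), Nat.lt_succ_of_le ((hdeg _).trans (by have := hd c; omega))⟩ :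
        {q : R[X] // q ∈ S ∧ q.natDegree < n + 2 + 1})) (by
        intro c c' e
        have e1 := hinj (congrArg Subtype.val e)
        funext j
        exact Subtype.ext (by rw [← hc, e1, hc]))
    rw [Nat.card_fun, Nat.card_fin] at h1
    exact h1.trans hcard
  by_contra hlt
  push Not at hlt
  have hl0 : 0 < l := Nat.card_pos
  set n := l ^ 4 with hn
  have b : ∀ m, l ^ m * (l + m) ≤ (l + 1) ^ m * l := by
    intro m
    induction m with
    | zero => simp
    | succ m ih =>
      calc l ^ (m + 1) * (l + (m + 1)) = l ^ m * (l * (l + m + 1)) := by ring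
        _ ≤ l ^ m * ((l + 1) * (l + m)) := Nat.mul_le_mul_left _ (by nlinarith)
        _ = (l + 1) * (l ^ m * (l + m)) := by ring
        _ ≤ (l + 1) * ((l + 1) ^ m * l) := Nat.mul_le_mul_left _ ih
        _ = _ := by ring
  have h1 : (l + 1) ^ (n + 1) ≤ l ^ (n + 3) := (Nat.pow_le_pow_left hlt _).trans (key n)
  have h2 : l ^ n * (l + n) * (l + 1) ≤ l ^ n * l ^ 4 := by
    calc l ^ n * (l + n) * (l + 1) ≤ (l + 1) ^ n * l * (l + 1) := Nat.mul_le_mul_right _ (b n)
      _ = (l + 1) ^ (n + 1) * l := by ring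
      _ ≤ l ^ (n + 3) * l := Nat.mul_le_mul_right _ h1
      _ = _ := by ring
  rw [mul_assoc] at h2
  have h3 := Nat.le_of_mul_le_mul_left h2 (pow_pos hl0 n)
  rw [hn] at h3
  nlinarith

end Lead

section Exp

variable {k : Type*} [Field k] {R : Type u} [Ring R] [Algebra k R] (F : Fin 3 → Submodule k R)

/-- Products of four elements vanish. -/
theorem prod_four_eq_zero (hsq : ∀ i, ∀ a ∈ F i, ∀ b ∈ F i, a * b = 0)
    (hbr : ∀ i j, ∀ a ∈ F i, ∀ b ∈ F j, a * b - b * a ∈ F i) :
    ∀ a ∈ ⨆ i, F i, ∀ b ∈ ⨆ i, F i, ∀ c ∈ ⨆ i, F i, ∀ d ∈ ⨆ i, F i, a * b * c * d = 0 := by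
  have hbr' : ∀ i j, ∀ a ∈ F i, ∀ b ∈ F j, a * b - b * a ∈ F j := fun i j a ha b hb => by
    rw [← neg_sub]; exact (F j).neg_mem (hbr j i b hb a ha)
  have h3 : ∀ i j, ∀ a ∈ F i, ∀ b ∈ F j, ∀ a' ∈ F i, a * b * a' = 0 := fun i j a ha b hb a' ha' => by
    have := hsq i a ha _ (hbr' j i b hb a' ha')
    rw [mul_sub, ← mul_assoc a b a', ← mul_assoc a a' b, hsq i a ha a' ha', zero_mul, sub_zero] at this
    exact this
  have h4 : ∀ i j l m, ∀ a ∈ F i, ∀ b ∈ F j, ∀ c ∈ F l, ∀ d ∈ F m, a * b * c * d = 0 := by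
    intro i j l m a ha b hb c hc d hd
    have hcase : i = j ∨ i = l ∨ i = m ∨ j = l ∨ j = m ∨ l = m := by omega
    rcases hcase with rfl | rfl | rfl | rfl | rfl | rfl
    · rw [hsq _ a ha b hb, zero_mul, zero_mul]
    · rw [h3 _ _ a ha b hb c hc, zero_mul]
    · have h := h3 i j a ha b hb _ (hbr' l i c hc d hd)
      rw [mul_sub, ← mul_assoc (a * b) c d, ← mul_assoc (a * b) d c, h3 i j a ha b hb d hd, zero_mul,
        sub_zero] at h
      exact h
    · rw [mul_assoc a b c, hsq _ b hb c hc, mul_zero, zero_mul]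
    · rw [mul_assoc, mul_assoc, ← mul_assoc b c d, h3 _ _ b hb c hc d hd, mul_zero]
    · rw [mul_assoc, hsq _ c hc d hd, mul_zero]
  intro a ha b hb c hc d hd
  induction hd using Submodule.iSup_induction' with
  | zero => simp
  | add d d' _ _ h h' => simp [mul_add, h, h']
  | mem m d hd =>
  induction hc using Submodule.iSup_induction' with
  | zero => simp
  | add d d' _ _ h h' => simp [mul_add, add_mul, h, h']
  | mem l c hc =>
  induction hb using Submodule.iSup_induction' with
  | zero => simp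
  | add d d' _ _ h h' => simp [mul_add, add_mul, h, h']
  | mem j b hb =>
  induction ha using Submodule.iSup_induction' with
  | zero => simp
  | add d d' _ _ h h' => simp [add_mul, h, h']
  | mem i a ha => exact h4 i j l m a ha b hb c hc d hd

/-- Square-zero elements of the sum give elements of every monoid containing all `1 + F i`. -/
theorem one_add_mem_of_sum (h2 : (2 : k) ≠ 0) (h3 : (3 : k) ≠ 0)
    (hsq : ∀ i, ∀ a ∈ F i, ∀ b ∈ F i, a * b = 0)
    (hbr : ∀ i j, ∀ a ∈ F i, ∀ b ∈ F j, a * b - b * a ∈ F i)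
    (Γ : Submonoid R) (hΓ : ∀ i, ∀ a ∈ F i, 1 + a ∈ Γ)
    {l : R} (hl : l ∈ ⨆ i, F i) (hl2 : l * l = 0) : 1 + l ∈ Γ := by
  have hle : ⨆ i, F i ≤ F 0 ⊔ F 1 ⊔ F 2 := iSup_le fun i => by
    fin_cases i
    · exact le_sup_left.trans le_sup_left
    · exact le_sup_right.trans le_sup_left
    · exact le_sup_right
  obtain ⟨s, hs, u, hu, rfl⟩ := Submodule.mem_sup.1 (hle hl)
  obtain ⟨y, hy, z, hz, rfl⟩ := Submodule.mem_sup.1 hs
  set t := y + z with ht
  have hbr' : ∀ i j, ∀ a ∈ F i, ∀ b ∈ F j, a * b - b * a ∈ F j := fun i j a ha b hb => by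
    rw [← neg_sub]; exact (F j).neg_mem (hbr j i b hb a ha)
  have hT : t ∈ ⨆ i, F i := add_mem (Submodule.mem_iSup_of_mem 0 hy) (Submodule.mem_iSup_of_mem 1 hz)
  have hU : u ∈ ⨆ i, F i := Submodule.mem_iSup_of_mem 2 hu
  have q4 := prod_four_eq_zero F hsq hbr
  -- the element for `t`
  have hh : ((2 : k)⁻¹ : k) • (z * y - y * z) ∈ F 1 := (F 1).smul_mem _ (hbr 1 0 z hz y hy)
  have hh0 : ((2 : k)⁻¹ : k) • (z * y - y * z) ∈ F 0 := (F 0).smul_mem _ (hbr' 1 0 z hz y hy)
  have hyy := hsq 0 y hy y hy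
  have hzz := hsq 1 z hz z hz
  have et : (1 + y) * (1 + z) * (1 + ((2 : k)⁻¹ : k) • (z * y - y * z)) =
      1 + t + ((2 : k)⁻¹ : k) • (t * t) := by
    have aux : ∀ h : R, y * h = 0 → z * h = 0 → (1 + y) * (1 + z) * (1 + h) = 1 + y + z + y * z + h := by
      intro h e1 e2
      simp only [add_mul, mul_add, one_mul, mul_one, mul_assoc, e1, e2, mul_zero, add_zero]
      abel
    rw [aux _ (hsq 0 y hy _ hh0) (hsq 1 z hz _ hh)]
    simp only [ht, add_mul, mul_add, hyy, hzz, add_zero, zero_add, smul_add, smul_sub]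
    match_scalars <;> field_simp <;> ring
  have hexp : 1 + t + ((2 : k)⁻¹ : k) • (t * t) ∈ Γ := by
    rw [← et]; exact mul_mem (mul_mem (hΓ 0 y hy) (hΓ 1 z hz)) (hΓ 1 _ hh)
  -- the factor in `F 2`
  have hD : ∀ v ∈ F 2, t * v - v * t ∈ F 2 := fun v hv => by
    rw [ht, add_mul, mul_add, add_sub_add_comm]
    exact add_mem (hbr' 0 2 y hy v hv) (hbr' 1 2 z hz v hv)
  set u' := u - ((2 : k)⁻¹ : k) • (t * u - u * t) +
    ((6 : k)⁻¹ : k) • (t * (t * u - u * t) - (t * u - u * t) * t) with hu'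
  have hu'F : u' ∈ F 2 := add_mem (sub_mem hu ((F 2).smul_mem _ (hD u hu)))
    ((F 2).smul_mem _ (hD _ (hD u hu)))
  have h6 : (6 : k) ≠ 0 := by
    rw [show (6 : k) = 2 * 3 by norm_num]
    exact mul_ne_zero h2 h3
  have uu : u * u = 0 := hsq 2 u hu u hu
  have utu : u * (t * u) = 0 := by
    have := hsq 2 u hu _ (hD u hu)
    rwa [mul_sub, ← mul_assoc u u t, uu, zero_mul, sub_zero] at this
  have ttt : t * (t * t) = 0 := by
    have e1 : y * z * y = 0 := by
      have := hsq 0 y hy _ (hbr' 1 0 z hz y hy)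
      rwa [mul_sub, ← mul_assoc y z y, ← mul_assoc y y z, hyy, zero_mul, sub_zero] at this
    have e2 : z * y * z = 0 := by
      have := hsq 1 z hz _ (hbr' 0 1 y hy z hz)
      rwa [mul_sub, ← mul_assoc z y z, ← mul_assoc z z y, hzz, zero_mul, sub_zero] at this
    simp only [ht, add_mul, mul_add, ← mul_assoc, hyy, hzz, zero_mul, e1, e2, add_zero, zero_add]
  have z4 : ∀ a b c d : R, a = t ∨ a = u → b = t ∨ b = u → c = t ∨ c = u → d = t ∨ d = u →
      a * (b * (c * d)) = 0 := by
    intro a b c d ha hb hc hd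
    have hm : ∀ v, v = t ∨ v = u → v ∈ ⨆ i, F i := fun v hv => hv.elim (· ▸ hT) (· ▸ hU)
    rw [← mul_assoc, ← mul_assoc]
    exact q4 a (hm a ha) b (hm b hb) c (hm c hc) d (hm d hd)
  have eu : (1 + t + ((2 : k)⁻¹ : k) • (t * t)) * (1 + u') =
      1 + (t + u) + ((2 : k)⁻¹ : k) • ((t + u) * (t + u)) +
        ((6 : k)⁻¹ : k) • ((t + u) * (t + u) * (t + u)) := by
    simp only [hu', mul_add, add_mul, mul_sub, sub_mul, one_mul, mul_one, mul_assoc, mul_smul_comm,
      smul_mul_assoc, uu, utu, ttt, mul_zero, zero_mul, smul_zero, add_zero, zero_add, sub_zero, smul_add,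
      smul_sub, smul_smul,
      z4 t t t u (Or.inl rfl) (Or.inl rfl) (Or.inl rfl) (Or.inr rfl),
      z4 t t u t (Or.inl rfl) (Or.inl rfl) (Or.inr rfl) (Or.inl rfl),
      z4 t u t t (Or.inl rfl) (Or.inr rfl) (Or.inl rfl) (Or.inl rfl)]
    match_scalars <;> field_simp <;> ring
  have hres := mul_mem hexp (hΓ 2 u' hu'F)
  rw [eu, hl2, smul_zero, add_zero, zero_mul, smul_zero, add_zero] at hres
  exact hres

end Exp

end Cfsg.Agent.H60
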