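import Mathlib
import Cfsg.Agent.H22.PResidual

/-! An odd permutation gives a subgroup of index 2. -/

set_option autoImplicit false

namespace Cfsg.Agent.H60

/-- A permutation of order dividing `2^k` all whose cycles have length `2^k` on a set of size `2^k * odd` is odd. -/
theorem sign_eq_neg_one_of_semiregular {α : Type*} [Fintype α] [DecidableEq α] (σ : Equiv.Perm α) {k : ℕ}
    (hk : 1 ≤ k) (h1 : σ ^ 2 ^ k = 1) (h2 : ∀ a, (σ ^ 2 ^ (k - 1)) a ≠ a) (hcard : ¬ 2 ^ (k + 1) ∣ Fintype.card α) :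
    Equiv.Perm.sign σ = -1 := by
  have hlen : ∀ l ∈ σ.cycleType, l = 2 ^ k := by
    intro l hl
    have hd : l ∣ 2 ^ k := (Equiv.Perm.dvd_of_mem_cycleType hl).trans (orderOf_dvd_of_pow_eq_one h1)
    obtain ⟨i, hi, rfl⟩ := (Nat.dvd_prime_pow Nat.prime_two).1 hd
    by_contra hne
    have hik : i ≤ k - 1 := by
      rcases lt_or_eq_of_le hi with h | h
      · omega
      · exact absurd (by rw [h]) hne
    rw [Equiv.Perm.cycleType_def, Multiset.mem_map] at hl
    obtain ⟨c, hc, hcl⟩ := hl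
    have hcyc := Equiv.Perm.mem_cycleFactorsFinset_iff.1 hc
    obtain ⟨a, ha⟩ : c.support.Nonempty := Finset.card_pos.1 (by
      simp only [Function.comp_apply] at hcl; rw [hcl]; positivity)
    have hpow : ∀ m : ℕ, (σ ^ m) a = (c ^ m) a ∧ (c ^ m) a ∈ c.support := by
      intro m
      induction m with
      | zero => simpa using ha
      | succ m ih =>
        refine ⟨?_, Equiv.Perm.pow_apply_mem_support.2 ha⟩
        rw [pow_succ', pow_succ', Equiv.Perm.mul_apply, Equiv.Perm.mul_apply, ih.1, hcyc.2 _ ih.2]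
    apply h2 a
    rw [(hpow _).1]
    have hord : orderOf c = 2 ^ i := by rw [hcyc.1.orderOf]; exact hcl
    have : c ^ 2 ^ (k - 1) = 1 := orderOf_dvd_iff_pow_eq_one.1 (by rw [hord]; exact pow_dvd_pow 2 hik)
    rw [this]; rfl
  have hsum : σ.cycleType.sum = Fintype.card α := by
    rw [Equiv.Perm.sum_cycleType]
    have : σ.support = Finset.univ := Finset.eq_univ_iff_forall.2 fun a => by
      rw [Equiv.Perm.mem_support]
      intro ha
      exact h2 a (by
        clear hlen
        induction 2 ^ (k - 1) with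
        | zero => rfl
        | succ m ih => rw [pow_succ, Equiv.Perm.mul_apply, ha, ih])
    rw [this, Finset.card_univ]
  have hrep : σ.cycleType = Multiset.replicate (Multiset.card σ.cycleType) (2 ^ k) :=
    Multiset.eq_replicate_card.2 hlen
  set r := Multiset.card σ.cycleType with hr
  have hodd : Odd r := by
    rw [hrep, Multiset.sum_replicate, smul_eq_mul] at hsum
    rw [← Nat.not_even_iff_odd]
    rintro ⟨s, hs⟩
    exact hcard ⟨s, by rw [← hsum, hs, pow_succ]; ring⟩
  rw [Equiv.Perm.sign_of_cycleType, hrep, Multiset.sum_replicate, Multiset.card_replicate, smul_eq_mul]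
  refine Odd.neg_one_pow ?_
  have : Even (r * 2 ^ k) := by
    obtain ⟨j, rfl⟩ : ∃ j, k = j + 1 := ⟨k - 1, by omega⟩
    exact ⟨r * 2 ^ j, by rw [pow_succ]; ring⟩
  exact this.add_odd hodd

/-- An element acting freely on the cosets of a subgroup of suitable index gives a map onto `{±1}`. -/
theorem exists_hom_eq_neg_one {G : Type*} [Group G] [Finite G] (W : Subgroup G) (x : G) {k : ℕ} (hk : 1 ≤ k)
    (hx : x ^ 2 ^ k = 1) (hfree : ∀ g : G, g⁻¹ * x ^ 2 ^ (k - 1) * g ∉ W) (hidx : ¬ 2 ^ (k + 1) ∣ W.index) :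
    ∃ f : G →* ℤˣ, f x = -1 := by
  classical
  have : Fintype (G ⧸ W) := Fintype.ofFinite _
  refine ⟨Equiv.Perm.sign.comp (MulAction.toPermHom G (G ⧸ W)), ?_⟩
  refine sign_eq_neg_one_of_semiregular _ hk (by rw [← map_pow, hx, map_one]) ?_ ?_
  · intro a ha
    obtain ⟨g, rfl⟩ := QuotientGroup.mk_surjective a
    apply hfree g
    rw [← map_pow] at ha
    change ((x ^ 2 ^ (k - 1) * g : G) : G ⧸ W) = (g : G ⧸ W) at ha
    rw [eq_comm, QuotientGroup.eq, ← mul_assoc] at ha
    exact ha
  · rwa [← Nat.card_eq_fintype_card]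

/-- `{±1}` is a 2-group. -/
theorem isPGroup_two_units_int : IsPGroup 2 ℤˣ := IsPGroup.of_card (n := 1) (by simp)

/-- A group equal to its `O^2` has no homomorphism onto `{±1}`. -/
theorem hom_units_int_trivial {G : Type*} [Group G] (h : Cfsg.pResidual 2 G = ⊤) (f : G →* ℤˣ) (x : G) : f x = 1 :=
  H22.pResidual_le_ker f isPGroup_two_units_int (h ▸ Subgroup.mem_top x)

end Cfsg.Agent.H60
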