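import Mathlib
import Cfsg.Agent.H24.PGroupBasic
import Cfsg.Agent.H21.UniqueSubgroup

/-!
2-groups without a non-cyclic abelian subgroup of order eight.
-/

set_option autoImplicit false

open Subgroup
open scoped commutatorElement

namespace Cfsg.Agent.H60.EightFree

variable {G : Type*} [Group G] [Finite G]

/-- `Y` contains a non-cyclic abelian subgroup of order eight. -/
def Bad (Y : Subgroup G) : Prop :=
  ∃ A : Subgroup G, A ≤ Y ∧ IsMulCommutative ↥A ∧ ¬ IsCyclic ↥A ∧ Nat.card ↥A = 8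

theorem Bad.mono {X Y : Subgroup G} (h : Bad X) (hXY : X ≤ Y) : Bad Y :=
  h.imp fun _ hA => ⟨hA.1.trans hXY, hA.2⟩

/-- Two distinct involutions prevent cyclicity. -/
theorem not_isCyclic_of_two {A : Subgroup G} {s t : G} (hs : s ∈ A) (ht : t ∈ A) (hs2 : s * s = 1)
    (ht2 : t * t = 1) (hs1 : s ≠ 1) (ht1 : t ≠ 1) (hst : s ≠ t) : ¬ IsCyclic ↥A := by
  classical
  intro hc
  haveI := Fintype.ofFinite A
  have h := IsCyclic.card_pow_eq_one_le (α := A) (show 0 < 2 by norm_num)
  have h3 : ({1, ⟨s, hs⟩, ⟨t, ht⟩} : Finset A) ⊆ Finset.univ.filter (fun a : A => a ^ 2 = 1) := by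
    intro x hx
    simp only [Finset.mem_insert, Finset.mem_singleton] at hx
    simp only [Finset.mem_filter, Finset.mem_univ, true_and]
    rcases hx with rfl | rfl | rfl
    · simp
    · exact Subtype.ext (by simpa [pow_two] using hs2)
    · exact Subtype.ext (by simpa [pow_two] using ht2)
  have hc3 : ({1, ⟨s, hs⟩, ⟨t, ht⟩} : Finset A).card = 3 := by
    rw [Finset.card_eq_three]
    refine ⟨1, ⟨s, hs⟩, ⟨t, ht⟩, ?_, ?_, ?_, rfl⟩
    · exact fun e => hs1 (congrArg Subtype.val e).symm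
    · exact fun e => ht1 (congrArg Subtype.val e).symm
    · exact fun e => hst (congrArg Subtype.val e)
  have := Finset.card_le_card h3
  omega

theorem isMulCommutative_of_forall {A : Subgroup G} (h : ∀ a ∈ A, ∀ b ∈ A, a * b = b * a) :
    IsMulCommutative ↥A :=
  ⟨⟨fun a b => Subtype.ext (h _ a.2 _ b.2)⟩⟩

theorem comm_of {A : Subgroup G} (hA : IsMulCommutative ↥A) {a b : G} (ha : a ∈ A) (hb : b ∈ A) :
    a * b = b * a :=
  congrArg Subtype.val (hA.is_comm.comm (⟨a, ha⟩ : A) ⟨b, hb⟩)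

theorem eight_le_of_four_lt {A : Subgroup G} (hA : IsPGroup 2 ↥A) (h : 4 < Nat.card ↥A) :
    8 ≤ Nat.card ↥A := by
  haveI : Fact (Nat.Prime 2) := ⟨Nat.prime_two⟩
  obtain ⟨k, hk⟩ := IsPGroup.iff_card.1 hA
  rw [hk] at h ⊢
  rcases lt_or_ge k 3 with hlt | hge
  · interval_cases k <;> norm_num at h
  · exact (show 8 = 2 ^ 3 by norm_num) ▸ Nat.pow_le_pow_right (by norm_num) hge

theorem four_le_of_not_isCyclic {A : Subgroup G} (hA : IsPGroup 2 ↥A) (hc : ¬ IsCyclic ↥A) :
    4 ≤ Nat.card ↥A := by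
  haveI : Fact (Nat.Prime 2) := ⟨Nat.prime_two⟩
  obtain ⟨k, hk⟩ := IsPGroup.iff_card.1 hA
  rw [hk]
  rcases lt_or_ge k 2 with hlt | hge
  · exfalso
    apply hc
    interval_cases k
    · haveI := (Nat.card_eq_one_iff_unique.1 (hk.trans (pow_zero 2))).1
      infer_instance
    · exact isCyclic_of_prime_card (p := 2) (by simpa using hk)
  · exact (show 4 = 2 ^ 2 by norm_num) ▸ Nat.pow_le_pow_right (by norm_num) hge

/-- A non-cyclic abelian subgroup of order at least eight yields one of order eight. -/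
theorem bad_of_comm {Y A : Subgroup G} (hY : IsPGroup 2 ↥Y) (hAY : A ≤ Y)
    (hA : IsMulCommutative ↥A) (hc : ¬ IsCyclic ↥A) (h8 : 8 ≤ Nat.card ↥A) : Bad Y := by
  haveI : Fact (Nat.Prime 2) := ⟨Nat.prime_two⟩
  have hA2 : IsPGroup 2 ↥A := hY.to_le hAY
  obtain ⟨H, K, hH, hK, hne⟩ : ∃ H K : Subgroup A, Nat.card H = 2 ∧ Nat.card K = 2 ∧ H ≠ K := by
    by_contra h
    push Not at h
    exact hc (H21.isCyclic_of_comm_unique hA2 fun H K hH hK => h H K hH hK)
  have hKn : K.Normal := ⟨fun n hn g => by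
    rw [hA.is_comm.comm g n, mul_inv_cancel_right]; exact hn⟩
  have hHK : Nat.card ↥(H ⊔ K) = 2 ^ 2 := by
    have hbot : K ⊓ H = ⊥ := by
      have h := Subgroup.card_dvd_of_le (inf_le_left : K ⊓ H ≤ K)
      rw [hK] at h
      rcases (Nat.dvd_prime Nat.prime_two).1 h with h1 | h2
      · exact Subgroup.eq_bot_of_card_eq _ h1
      · exfalso
        apply hne
        have e1 : K ⊓ H = K := Subgroup.eq_of_le_of_card_ge inf_le_left (by omega)
        exact (Subgroup.eq_of_le_of_card_ge (inf_eq_left.1 e1) (by omega)).symm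
    have h := Subgroup.relIndex_mul_relIndex ⊥ K (H ⊔ K) bot_le le_sup_right
    rw [Subgroup.relIndex_bot_left, Subgroup.relIndex_bot_left, Subgroup.relIndex_sup_right,
      ← Subgroup.inf_relIndex_right, hbot, Subgroup.relIndex_bot_left, hH, hK] at h
    rw [← h]; norm_num
  obtain ⟨k, hk⟩ := IsPGroup.iff_card.1 hA2
  have h3 : 2 ^ 3 ∣ Nat.card A := by
    rw [hk]
    refine pow_dvd_pow 2 ?_
    by_contra hlt
    have : 2 ^ k ≤ 2 ^ 2 := Nat.pow_le_pow_right (by norm_num) (by omega)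
    omega
  obtain ⟨B, hB, hle⟩ := Sylow.exists_subgroup_card_pow_prime_le 2 h3 (H ⊔ K) hHK (by norm_num)
  obtain ⟨s, hs⟩ := exists_prime_orderOf_dvd_card' (G := H) 2 (by rw [hH])
  obtain ⟨t, ht⟩ := exists_prime_orderOf_dvd_card' (G := K) 2 (by rw [hK])
  have hsA : orderOf ((s : A) : G) = 2 := by rw [Subgroup.orderOf_coe, Subgroup.orderOf_coe]; exact hs
  have htA : orderOf ((t : A) : G) = 2 := by rw [Subgroup.orderOf_coe, Subgroup.orderOf_coe]; exact ht
  refine ⟨B.map A.subtype, (Subgroup.map_subtype_le B).trans hAY,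
    isMulCommutative_of_forall fun a ha b hb => comm_of hA (Subgroup.map_subtype_le B ha)
      (Subgroup.map_subtype_le B hb), ?_, ?_⟩
  · refine not_isCyclic_of_two (s := ((s : A) : G)) (t := ((t : A) : G))
      (mem_map_of_mem _ (hle (mem_sup_left s.2))) (mem_map_of_mem _ (hle (mem_sup_right t.2)))
      (by rw [← pow_two, ← hsA, pow_orderOf_eq_one]) (by rw [← pow_two, ← htA, pow_orderOf_eq_one])
      (fun e => by rw [e, orderOf_one] at hsA; omega) (fun e => by rw [e, orderOf_one] at htA; omega)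
      fun e => hne ?_
    have e' : (s : A) = t := Subtype.ext e
    have h1 : zpowers (s : A) = H := Subgroup.eq_of_le_of_card_ge (zpowers_le.2 s.2)
      (by rw [Nat.card_zpowers, Subgroup.orderOf_coe, hs, hH])
    have h2 : zpowers (t : A) = K := Subgroup.eq_of_le_of_card_ge (zpowers_le.2 t.2)
      (by rw [Nat.card_zpowers, Subgroup.orderOf_coe, ht, hK])
    rw [← h1, ← h2, e']
  · rw [Subgroup.card_map_of_injective A.subtype_injective, hB]; norm_num

/-- A non-cyclic central subgroup of a group without bad subgroup is everything. -/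
theorem eq_of_central {Y V : Subgroup G} (hY : IsPGroup 2 ↥Y) (hnb : ¬ Bad Y) (hVY : V ≤ Y)
    (hVc : V ≤ centralizer (Y : Set G)) (hV : ¬ IsCyclic ↥V) : Y = V ∧ Nat.card ↥Y = 4 := by
  have hVcomm : IsMulCommutative ↥V := isMulCommutative_of_forall fun a ha b hb =>
    mem_centralizer_iff.1 (hVc hb) a (hVY ha)
  have h4 : 4 ≤ Nat.card ↥V := four_le_of_not_isCyclic (hY.to_le hVY) hV
  have hYV : Y = V := by
    refine le_antisymm (fun x hx => ?_) hVY
    by_contra hxV
    have hxc : x ∈ centralizer (V : Set G) :=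
      mem_centralizer_iff.2 fun v hv => (mem_centralizer_iff.1 (hVc hv) x hx).symm
    set A := V ⊔ zpowers x
    have hAY : A ≤ Y := sup_le hVY (zpowers_le.2 hx)
    have hA4 : 4 < Nat.card ↥A := by
      rcases (Subgroup.card_le_of_le (show V ≤ A from le_sup_left)).lt_or_eq with h | h
      · omega
      · exact absurd ((Subgroup.eq_of_le_of_card_ge (le_sup_left : V ≤ A) h.ge) ▸
          (mem_sup_right (mem_zpowers x) : x ∈ A)) hxV
    exact hnb (bad_of_comm hY hAY (H24.isMulCommutative_sup_zpowers hVcomm hxc)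
      (fun hc => hV (by haveI := hc; exact Subgroup.isCyclic_of_le (le_sup_left : V ≤ A)))
      (eight_le_of_four_lt (hY.to_le hAY) hA4))
  refine ⟨hYV, ?_⟩
  by_contra h
  exact hnb (bad_of_comm hY hVY hVcomm hV (eight_le_of_four_lt (hY.to_le hVY) (by rw [hYV] at h; omega)))

theorem quaternion_center_sq {m : ℕ} [NeZero m] (hm : 1 < m) :
    ∀ g : QuaternionGroup m, g ∈ center (QuaternionGroup m) → g * g = 1 := by
  intro g hg
  cases g with
  | a i =>
    have h := mem_center_iff.1 hg (QuaternionGroup.xa 0)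
    simp only [QuaternionGroup.xa_mul_a, QuaternionGroup.a_mul_xa, zero_add, zero_sub,
      QuaternionGroup.xa.injEq] at h
    rw [QuaternionGroup.a_mul_a, QuaternionGroup.one_def]
    congr 1
    linear_combination h
  | xa i =>
    exfalso
    have h := mem_center_iff.1 hg (QuaternionGroup.a 1)
    simp only [QuaternionGroup.xa_mul_a, QuaternionGroup.a_mul_xa, QuaternionGroup.xa.injEq] at h
    have h2 : ((2 : ℕ) : ZMod (2 * m)) = 0 := by push_cast; linear_combination -h
    rw [ZMod.natCast_eq_zero_iff] at h2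
    have := Nat.le_of_dvd (by norm_num) h2
    omega

/-- The Frattini subgroup, if it has no bad subgroup, is cyclic or a four-group. -/
theorem frattini_cases {Y : Subgroup G} (hY : IsPGroup 2 ↥Y)
    (hnb : ¬ Bad ((frattini Y).map Y.subtype)) :
    IsCyclic ↥((frattini Y).map Y.subtype) ∨
      (Nat.card ↥((frattini Y).map Y.subtype) = 4 ∧ IsMulCommutative ↥((frattini Y).map Y.subtype) ∧
        ¬ IsCyclic ↥((frattini Y).map Y.subtype)) := by
  haveI : Fact (Nat.Prime 2) := ⟨Nat.prime_two⟩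
  set Φ := (frattini Y).map Y.subtype with hΦ
  have hΦY : Φ ≤ Y := Subgroup.map_subtype_le _
  have hΦ2 : IsPGroup 2 ↥Φ := hY.to_le hΦY
  by_cases hc : IsCyclic ↥Φ
  · exact Or.inl hc
  right
  set T := (center Φ).map Φ.subtype with hT
  have hTΦ : T ≤ Φ := Subgroup.map_subtype_le _
  have hTc : T ≤ centralizer (Φ : Set G) := by
    rintro _ ⟨t, ht, rfl⟩
    exact mem_centralizer_iff.2 fun a ha => congrArg Subtype.val (mem_center_iff.1 ht ⟨a, ha⟩)
  by_cases hTcyc : IsCyclic ↥T
  swap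
  · obtain ⟨h1, h2⟩ := eq_of_central hΦ2 hnb hTΦ hTc hTcyc
    exact ⟨h2, isMulCommutative_of_forall fun a ha b hb =>
      mem_centralizer_iff.1 (hTc (h1 ▸ hb)) a ha, hc⟩
  exfalso
  have h4 : 2 ^ 2 ≤ Nat.card (frattini Y) := by
    have := four_le_of_not_isCyclic hΦ2 hc
    rw [hΦ, Subgroup.card_map_of_injective Y.subtype_injective] at this
    simpa using this
  obtain ⟨k, hk⟩ := IsPGroup.iff_card.1 (hY.to_subgroup (frattini Y))
  have hk2 : 2 ≤ k := (Nat.pow_le_pow_iff_right (by norm_num)).1 (hk ▸ h4)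
  obtain ⟨L, hLn, hLle, hLc⟩ := H24.exists_normal_le_card hY hk hk2
  have hLne : L ≠ ⊥ := fun e => by rw [e, Subgroup.card_bot] at hLc; norm_num at hLc
  obtain ⟨z, hzL, hzc, hzo⟩ := H24.exists_central_orderOf hY hLne
  haveI hZn : (zpowers z).Normal := H24.normal_of_le_center (zpowers_le.2 hzc)
  have hzc2 : Nat.card (zpowers z) = 2 := by rw [Nat.card_zpowers, hzo]
  have hne : zpowers z ≠ L := fun e => by rw [e, hLc] at hzc2; norm_num at hzc2
  obtain ⟨K, -, hK1, hK2, hK3, hK4⟩ := H24.exists_normal_between hY (zpowers_le.2 hzL) hne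
  have hKL : K = L := Subgroup.eq_of_le_of_card_ge hK2 (by rw [hK3, hLc, hzc2]; norm_num)
  subst hKL
  have hcen : frattini Y ≤ centralizer (K : Set Y) := by
    intro f hf
    refine mem_centralizer_iff.2 fun l hl => ?_
    have hmem : ∀ x : Y, ⁅x, l⁆ ∈ zpowers z := fun x => hK4 (commutator_mem_commutator (mem_top x) hl)
    have hzz : ∀ a ∈ zpowers z, a ∈ center Y := fun a ha => zpowers_le.2 hzc ha
    letI : CommGroup (zpowers z) :=
      { (inferInstance : Group (zpowers z)) with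
        mul_comm := fun a b => Subtype.ext (mem_center_iff.1 (hzz _ b.2) a) }
    let φ : Y →* zpowers z := MonoidHom.mk' (fun x => ⟨⁅x, l⁆, hmem x⟩) fun a b => Subtype.ext (by
      show ⁅a * b, l⁆ = ⁅a, l⁆ * ⁅b, l⁆
      have h' := mem_center_iff.1 (hzz _ (hmem b))
      calc ⁅a * b, l⁆ = a * ⁅b, l⁆ * a⁻¹ * ⁅a, l⁆ := by simp only [commutatorElement_def]; group
        _ = ⁅b, l⁆ * ⁅a, l⁆ := by rw [h' a]; group
        _ = ⁅a, l⁆ * ⁅b, l⁆ := (h' ⁅a, l⁆).symm)
    have hker : frattini Y ≤ φ.ker := H24.frattini_le_of (p := 2) _ (Abelianization.commutator_subset_ker φ)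
      fun x => by
        rw [MonoidHom.mem_ker, map_pow]
        exact orderOf_dvd_iff_pow_eq_one.1 (hzc2 ▸ orderOf_dvd_natCard (φ x))
    exact (commutatorElement_eq_one_iff_mul_comm.1 (congrArg Subtype.val (hker hf))).symm
  have hLT : K.map Y.subtype ≤ T := by
    rintro _ ⟨l, hl, rfl⟩
    refine ⟨⟨(l : G), mem_map_of_mem _ (hLle hl)⟩, mem_center_iff.2 ?_, rfl⟩
    rintro ⟨_, f, hf, rfl⟩
    apply Subtype.ext
    exact congrArg (fun u : Y => (u : G)) (mem_centralizer_iff.1 (hcen hf) l hl).symm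
  have hT4 : 4 ≤ Nat.card ↥T := by
    refine le_trans ?_ (Subgroup.card_le_of_le hLT)
    rw [Subgroup.card_map_of_injective Y.subtype_injective, hLc]; norm_num
  have hzT : ((z : Y) : G) ∈ T := hLT (mem_map_of_mem _ hzL)
  have hz2 : ((z : Y) : G) * (z : G) = 1 := by
    rw [← Subgroup.coe_mul, ← pow_two, ← hzo, pow_orderOf_eq_one, Subgroup.coe_one]
  have hz1 : ((z : Y) : G) ≠ 1 := fun e => by
    rw [show z = 1 from Subtype.ext e, orderOf_one] at hzo; omega
  have hinv : ∀ t ∈ Φ, t * t = 1 → t ≠ 1 → t = (z : G) := by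
    intro t ht ht2 ht1
    by_contra hne'
    have htT : t ∉ T := fun h => not_isCyclic_of_two h hzT ht2 hz2 ht1 hz1 hne' hTcyc
    set A := T ⊔ zpowers t
    have hAΦ : A ≤ Φ := sup_le hTΦ (zpowers_le.2 ht)
    have htA : t ∈ A := mem_sup_right (mem_zpowers t)
    have hA4 : 4 < Nat.card ↥A := by
      rcases (Subgroup.card_le_of_le (show T ≤ A from le_sup_left)).lt_or_eq with h | h
      · omega
      · exact absurd ((Subgroup.eq_of_le_of_card_ge (le_sup_left : T ≤ A) h.ge) ▸ htA) htT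
    have hTcomm : IsMulCommutative ↥T := isMulCommutative_of_forall fun a ha b hb =>
      mem_centralizer_iff.1 (hTc hb) a (hTΦ ha)
    refine hnb (bad_of_comm hΦ2 hAΦ (H24.isMulCommutative_sup_zpowers hTcomm
      (mem_centralizer_iff.2 fun a ha => (mem_centralizer_iff.1 (hTc ha) t ht).symm))
      (not_isCyclic_of_two (mem_sup_right (mem_zpowers t)) (mem_sup_left hzT) ht2 hz2 ht1 hz1 hne')
      (eight_le_of_four_lt (hΦ2.to_le hAΦ) hA4))
  have huniq : ∀ H K : Subgroup Φ, Nat.card H = 2 → Nat.card K = 2 → H = K := by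
    have hall : ∀ H : Subgroup Φ, Nat.card H = 2 → H.map Φ.subtype = zpowers (z : G) := by
      intro H hH
      obtain ⟨s, hs⟩ := exists_prime_orderOf_dvd_card' (G := H) 2 (by rw [hH])
      have hso : orderOf ((s : Φ) : G) = 2 := by rw [Subgroup.orderOf_coe, Subgroup.orderOf_coe]; exact hs
      have hsz : ((s : Φ) : G) = (z : G) := hinv _ (s : Φ).2
        (by rw [← pow_two, ← hso, pow_orderOf_eq_one]) (fun e => by rw [e, orderOf_one] at hso; omega)
      refine (Subgroup.eq_of_le_of_card_ge ?_ ?_).symm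
      · rw [zpowers_le, ← hsz]; exact mem_map_of_mem _ s.2
      · rw [Subgroup.card_map_of_injective Φ.subtype_injective, hH, Nat.card_zpowers, ← hsz, hso]
    exact fun H K hH hK => Subgroup.map_injective Φ.subtype_injective ((hall H hH).trans (hall K hK).symm)
  rcases H21.cyclic_or_quaternion 2 hΦ2 huniq with h | ⟨-, n, ⟨e⟩⟩
  · exact hc h
  rcases Nat.eq_zero_or_pos n with rfl | hn
  · rw [pow_zero] at e
    haveI := QuaternionGroup.quaternionGroup_one_isCyclic
    exact hc (isCyclic_of_surjective e.symm.toMonoidHom e.symm.surjective)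
  · have hsq : ∀ t : G, t ∈ T → t * t = 1 := by
      rintro _ ⟨t, ht, rfl⟩
      have h : e t * e t = 1 := quaternion_center_sq (Nat.one_lt_two_pow hn.ne') (e t)
        (mem_center_iff.2 fun g => by
          obtain ⟨g', rfl⟩ := e.surjective g
          rw [← map_mul, ← map_mul, mem_center_iff.1 ht g'])
      rw [← map_mul] at h
      exact congrArg Subtype.val (e.map_eq_one_iff.1 h)
    have hT2 : ∀ t ∈ T, t = 1 ∨ t = (z : G) := fun t ht => by
      by_cases h1 : t = 1
      · exact Or.inl h1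
      · exact Or.inr (hinv t (hTΦ ht) (hsq t ht) h1)
    have : Nat.card ↥T ≤ 2 := by
      have h : (T : Set G) ⊆ {1, (z : G)} := fun t ht => hT2 t ht
      have h' := Set.ncard_le_ncard h (Set.toFinite _)
      rw [Set.ncard_pair (Ne.symm hz1)] at h'
      rwa [← Nat.card_coe_set_eq] at h'
    omega

end Cfsg.Agent.H60.EightFree
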