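import Cfsg.Agent.H96.SmallElements
import Cfsg.Agent.H22.Frobenius

/-!
Normal `p`-complements from a filtration of the elements of small order.
-/

set_option autoImplicit false

namespace Cfsg.Agent.H60

open scoped commutatorElement

/-- A finite `p`-group has an automorphism-invariant subgroup of elements of order dividing `p` (or `4`)
on which the automorphisms of order prime to `p` act faithfully. -/
theorem exists_small_faithful {Q : Type*} [Group Q] [Finite Q] {p : ℕ} [Fact p.Prime] (hQ : IsPGroup p Q) :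
    ∃ C : Subgroup Q, (∀ x ∈ C, x ^ p = 1 ∨ (p = 2 ∧ x ^ 4 = 1)) ∧
      (∀ (a : MulAut Q), ∀ x ∈ C, a x ∈ C) ∧
      ∀ b : MulAut Q, (orderOf b).Coprime p → (∀ x ∈ C, b x = x) → b = 1 := by
  obtain ⟨H, hHchar, hHc, hHp, -, hHcent⟩ := H24.exists_critical hQ
  have hclass : ∀ u ∈ H, ∀ v ∈ H, ∀ w ∈ H, Commute ⁅v⁻¹, u⁻¹⁆ w := fun u hu v hv w hw =>
    ((Subgroup.mem_centralizer_iff.1 (hHc _ (H.inv_mem hv) _ (H.inv_mem hu))) w hw).symm
  let C₀ : Subgroup Q :=
    { carrier := {x | x ∈ H ∧ x ^ H96.smallExp p = 1}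
      one_mem' := ⟨H.one_mem, one_pow _⟩
      inv_mem' := fun {a} ha => ⟨H.inv_mem ha.1, by rw [inv_pow, ha.2, inv_one]⟩
      mul_mem' := by
        rintro u v ⟨hu, hu'⟩ ⟨hv, hv'⟩
        refine ⟨H.mul_mem hu hv, ?_⟩
        have hc : v * u = u * v * ⁅v⁻¹, u⁻¹⁆ := by rw [commutatorElement_def]; group
        have hcp : ⁅v⁻¹, u⁻¹⁆ ^ p = 1 := by
          have hvp : ∀ m : ℕ, v * u ^ m = u ^ m * v * ⁅v⁻¹, u⁻¹⁆ ^ m := by
            intro m
            induction m with
            | zero => simp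
            | succ m ih =>
              rw [pow_succ, ← mul_assoc, ih, mul_assoc (u ^ m * v),
                ((hclass u hu v hv u hu).pow_left m).eq, mul_assoc (u ^ m), ← mul_assoc v, hc, pow_succ']
              simp only [mul_assoc]
          have h1 := hvp p
          have h2 : v * u ^ p = u ^ p * v := (Subgroup.mem_centralizer_iff.1 (hHp u hu)) v hv
          rw [h2] at h1
          exact mul_eq_left.1 h1.symm
        rw [H84.mul_pow_of_central_comm hc (hclass u hu v hv u hu) (hclass u hu v hv v hv), hu', hv',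
          one_mul, one_mul]
        have hdvd : p ∣ (H96.smallExp p).choose 2 := by
          rw [H96.smallExp]
          split_ifs with h
          · subst h; exact ⟨3, rfl⟩
          · exact (Fact.out : p.Prime).dvd_choose_self (by norm_num)
              (lt_of_le_of_ne (Fact.out : p.Prime).two_le (Ne.symm h))
        obtain ⟨k, hk⟩ := hdvd
        rw [hk, pow_mul, hcp, one_pow] }
  have hHinv : ∀ (b : MulAut Q) (x : Q), x ∈ H → b x ∈ H :=
    fun b x hx => Subgroup.characteristic_iff_le_comap.mp hHchar b hx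
  refine ⟨C₀, fun x hx => H96.small_of_pow_smallExp hx.2,
    fun a x hx => ⟨hHinv a x hx.1, by rw [← map_pow, hx.2, map_one]⟩, fun b hbco hfix => ?_⟩
  let c : MulAut H :=
    { toFun := fun x => ⟨b x, hHinv b x x.2⟩
      invFun := fun x => ⟨b⁻¹ x, hHinv b⁻¹ x x.2⟩
      left_inv := fun x => Subtype.ext (b.symm_apply_apply x)
      right_inv := fun x => Subtype.ext (b.apply_symm_apply x)
      map_mul' := fun x y => Subtype.ext (map_mul b (x : Q) y) }
  have hcco : (orderOf c).Coprime p := by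
    refine Nat.Coprime.coprime_dvd_left (orderOf_dvd_of_pow_eq_one ?_) hbco
    have : ∀ (m : ℕ) (x : H), (((c ^ m) x : H) : Q) = (b ^ m) (x : Q) := by
      intro m
      induction m with
      | zero => exact fun x => rfl
      | succ m ih =>
        intro x
        rw [pow_succ', pow_succ', MulAut.mul_apply, MulAut.mul_apply, ← ih]
        rfl
    exact MulEquiv.ext fun x => Subtype.ext (by rw [this, pow_orderOf_eq_one]; rfl)
  have hc1 : c = 1 := by
    refine H84.aut_eq_one_of_fixes (hQ.to_subgroup H) c hcco fun v hv => Subtype.ext ?_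
    refine hfix _ ⟨v.2, ?_⟩
    rw [← Subgroup.coe_pow, H96.pow_smallExp hv, Subgroup.coe_one]
  have hbH : ∀ x ∈ H, b x = x := fun x hx => congrArg Subtype.val (DFunLike.congr_fun hc1 ⟨x, hx⟩)
  refine MulEquiv.ext fun x => ?_
  rw [MulAut.one_apply]
  refine H96.apply_eq_of_fix_displacement hQ hbco (hbH _ (hHcent (Subgroup.mem_centralizer_iff.2 ?_)))
  intro h hh
  have h1 := hbH _ ((Subgroup.normal_of_characteristic H).conj_mem h hh x)
  rw [map_mul, map_mul, map_inv, hbH h hh] at h1
  calc h * (x⁻¹ * b x) = x⁻¹ * (x * h * x⁻¹) * b x := by group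
    _ = x⁻¹ * (b x * h * (b x)⁻¹) * b x := by rw [h1]
    _ = x⁻¹ * b x * h := by group

/-- If conjugation by a `p'`-element normalising a `p`-subgroup lowers the level of every small element in a
finite filtration, it centralises the subgroup. -/
theorem mem_centralizer_of_levels {G : Type*} [Group G] [Finite G] {p : ℕ} [Fact p.Prime] {Q : Subgroup G}
    (hQ : IsPGroup p Q) {g : G} (hg : g ∈ Subgroup.normalizer (Q : Set G)) (hco : (orderOf g).Coprime p)
    (n : ℕ) (L : ℕ → Set G) (h0 : ∀ a ∈ L 0, a = 1)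
    (hn : ∀ a ∈ Q, (a ^ p = 1 ∨ (p = 2 ∧ a ^ 4 = 1)) → a ∈ L n)
    (hstep : ∀ i, ∀ a ∈ L (i + 1), a ∈ Q → (a ^ p = 1 ∨ (p = 2 ∧ a ^ 4 = 1)) →
      a⁻¹ * (g * a * g⁻¹) ∈ L i) :
    g ∈ Subgroup.centralizer (Q : Set G) := by
  obtain ⟨C, hC, hCinv, hfaith⟩ := exists_small_faithful hQ
  let φ : ↥(Subgroup.normalizer (Q : Set G)) →* MulAut Q := Q.normalizerMonoidHom
  set b := φ ⟨g, hg⟩ with hb
  have hbco : (orderOf b).Coprime p :=
    hco.coprime_dvd_left ((orderOf_map_dvd φ _).trans (by rw [Subgroup.orderOf_mk]))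
  have hbv : ∀ x : Q, ((b x : Q) : G) = g * x * g⁻¹ := fun x => rfl
  have hsmall : ∀ x ∈ C, (x : G) ^ p = 1 ∨ (p = 2 ∧ (x : G) ^ 4 = 1) := fun x hx => by
    rcases hC x hx with h | ⟨h2, h⟩
    · exact Or.inl (by simpa using congrArg Subtype.val h)
    · exact Or.inr ⟨h2, by simpa using congrArg Subtype.val h⟩
  have key : ∀ i, ∀ x ∈ C, (x : G) ∈ L i → b x = x := by
    intro i
    induction i with
    | zero =>
      intro x _ hx
      rw [show x = 1 from Subtype.ext (h0 _ hx), map_one]
    | succ i ih =>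
      intro x hx hxL
      refine H96.apply_eq_of_fix_displacement hQ hbco (ih _ (C.mul_mem (C.inv_mem hx) (hCinv b x hx)) ?_)
      exact hstep i _ hxL x.2 (hsmall x hx)
  have h1 : b = 1 := hfaith b hbco fun x hx => key n x hx (hn _ x.2 (hsmall x hx))
  rw [Subgroup.mem_centralizer_iff]
  intro v hv
  have h := congrArg Subtype.val (DFunLike.congr_fun h1 ⟨v, hv⟩)
  rw [hbv] at h
  exact (mul_inv_eq_iff_eq_mul.mp h).symm

end Cfsg.Agent.H60
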