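import Mathlib
import Cfsg.Prelude.Def_Transfer
import Cfsg.Agent.H89.HallWielandt
import Cfsg.Agent.H24.PGroupBasic
import Cfsg.Agent.H49.Fusion

/-! A group without subgroup of index 2 whose Sylow 2-subgroup is a linear group of degree 3
containing an elementary abelian group of order 8 has abelian Sylow 2-subgroup: otherwise the
transfer of the determinant does not kill the central involution `-1`. -/

set_option autoImplicit false

namespace Cfsg.Agent.H60.ThreeDim

open Subgroup

section linear

variable {F : Type*} [Field F] {V : Type*} [AddCommGroup V] [Module F V]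
  {X : Type*} [Group X] (ρ : X →* Module.End F V)

theorem map_mul_apply' (x y : X) (v : V) : ρ (x * y) v = ρ x (ρ y v) := by
  rw [map_mul]; rfl

theorem span_eigen (h2 : (2 : F) ≠ 0) (E : Subgroup X)
    (hEc : ∀ a ∈ E, ∀ b ∈ E, a * b = b * a) (hE2 : ∀ e ∈ E, e ^ 2 = 1) (s : Finset ↥E) :
    Submodule.span F {v : V | ∀ e ∈ s, ρ (e : X) v = v ∨ ρ (e : X) v = -v} = ⊤ := by
  classical
  induction s using Finset.induction with
  | empty => simp
  | insert a s has ih =>
    rw [eq_top_iff, ← ih, Submodule.span_le]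
    intro v hv
    have haa : ρ (a : X) (ρ (a : X) v) = v := by
      rw [← map_mul_apply' ρ, ← pow_two, hE2 a a.2, map_one]; rfl
    have key : ∀ e ∈ s, ∀ c : F, ρ (e : X) (v + c • ρ (a : X) v) = v + c • ρ (a : X) v ∨
        ρ (e : X) (v + c • ρ (a : X) v) = -(v + c • ρ (a : X) v) := by
      intro e he c
      have hcomm : ρ (e : X) (ρ (a : X) v) = ρ (a : X) (ρ (e : X) v) := by
        rw [← map_mul_apply' ρ, ← map_mul_apply' ρ, hEc e e.2 a a.2]
      rcases hv e he with h | h
      · left; rw [map_add, map_smul, hcomm, h]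
      · right; rw [map_add, map_smul, hcomm, h, map_neg, smul_neg, neg_add]
    have h1 : v + (1 : F) • ρ (a : X) v ∈ {v : V | ∀ e ∈ insert a s, ρ (e : X) v = v ∨ ρ (e : X) v = -v} := by
      intro e he
      rcases Finset.mem_insert.1 he with rfl | he
      · left; rw [one_smul, map_add, haa, add_comm]
      · exact key e he 1
    have h3 : v + (-1 : F) • ρ (a : X) v ∈ {v : V | ∀ e ∈ insert a s, ρ (e : X) v = v ∨ ρ (e : X) v = -v} := by
      intro e he
      rcases Finset.mem_insert.1 he with rfl | he
      · right; rw [neg_one_smul, map_add, map_neg, haa, neg_add, neg_neg, add_comm]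
      · exact key e he (-1)
    have : v = (2 : F)⁻¹ • ((v + (1 : F) • ρ (a : X) v) + (v + (-1 : F) • ρ (a : X) v)) := by
      rw [one_smul, neg_one_smul, show v + ρ (a : X) v + (v + -ρ (a : X) v) = (2 : F) • v by
        rw [two_smul]; abel, smul_smul, inv_mul_cancel₀ h2, one_smul]
    rw [SetLike.mem_coe, this]
    exact Submodule.smul_mem _ _ (add_mem (Submodule.subset_span h1) (Submodule.subset_span h3))

/-- An elementary abelian group of order 8 in degree 3 consists of all sign matrices. -/
theorem exists_sign_basis [FiniteDimensional F V] (h2 : (2 : F) ≠ 0) (hV : Module.finrank F V = 3)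
    (hρ : Function.Injective ρ) (E : Subgroup X) (hEc : ∀ a ∈ E, ∀ b ∈ E, a * b = b * a)
    (hE2 : ∀ e ∈ E, e ^ 2 = 1) (hE8 : Nat.card E = 8) :
    ∃ b : Module.Basis (Fin 3) F V, ∀ s : Fin 3 → Bool,
      ∃ e ∈ E, ∀ i, ρ e (b i) = if s i then -b i else b i := by
  classical
  have : Finite ↥E := Nat.finite_of_card_ne_zero (by omega)
  haveI : Fintype ↥E := Fintype.ofFinite _
  set T := {v : V | ∀ e ∈ (Finset.univ : Finset ↥E), ρ (e : X) v = v ∨ ρ (e : X) v = -v}
  have hT : Submodule.span F T = ⊤ := span_eigen ρ h2 E hEc hE2 Finset.univ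
  obtain ⟨t, htT, htspan, hli⟩ := exists_linearIndependent F T
  let bb : Module.Basis t F V := Module.Basis.mk hli (by rw [Subtype.range_coe, htspan, hT])
  let b := bb.reindex (bb.indexEquiv (Module.finBasisOfFinrankEq F V hV))
  have hb : ∀ i, b i ∈ T := by
    intro i
    have : b i = (((bb.indexEquiv (Module.finBasisOfFinrankEq F V hV)).symm i : t) : V) := by
      simp [b, bb]
    rw [this]
    exact htT ((bb.indexEquiv (Module.finBasisOfFinrankEq F V hV)).symm i).2
  have hne : ∀ i, b i ≠ -b i := by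
    intro i h
    apply b.ne_zero i
    have h' : (2 : F) • b i = 0 := by rw [two_smul]; nth_rewrite 2 [h]; exact add_neg_cancel _
    exact (smul_eq_zero.1 h').resolve_left h2
  let σ : ↥E → Fin 3 → Bool := fun e i => decide (ρ (e : X) (b i) = -b i)
  have hσ : ∀ (e : ↥E) i, ρ (e : X) (b i) = if σ e i then -b i else b i := by
    intro e i
    rcases hb i e (Finset.mem_univ _) with h | h
    · have hn : ¬ ρ (e : X) (b i) = -b i := by rw [h]; exact hne i
      simp only [σ, decide_eq_true_eq, if_neg hn]
      exact h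
    · simp only [σ, decide_eq_true_eq, if_pos h]
      exact h
  have hinj : Function.Injective σ := by
    intro e e' h
    apply Subtype.ext
    apply hρ
    exact b.ext fun i => by rw [hσ e i, hσ e' i, h]
  have hbij := hinj.bijective_of_nat_card_le (by rw [hE8]; simp)
  refine ⟨b, fun s => ?_⟩
  obtain ⟨e, he⟩ := hbij.2 s
  exact ⟨e, e.2, fun i => by rw [← he]; exact hσ e i⟩

variable (h2 : (2 : F) ≠ 0) {E : Subgroup X} {b : Module.Basis (Fin 3) F V}
  (hb : ∀ s : Fin 3 → Bool, ∃ e ∈ E, ∀ i, ρ e (b i) = if s i then -b i else b i)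

include h2 hb

/-- The centralizer of the sign group is diagonal. -/
theorem exists_diag {x : X} (hx : ∀ e ∈ E, e * x = x * e) (i : Fin 3) :
    ∃ c : F, ρ x (b i) = c • b i := by
  obtain ⟨e, heE, he⟩ := hb (fun j => decide (j = i))
  have hneg : ρ e (ρ x (b i)) = -ρ x (b i) := by
    rw [← map_mul_apply' ρ, hx e heE, map_mul_apply' ρ, he i]
    simp
  refine ⟨b.repr (ρ x (b i)) i, ?_⟩
  conv_lhs => rw [← b.sum_repr (ρ x (b i))]
  rw [Finset.sum_eq_single i]
  · intro j _ hj
    have hcoord : (b.coord j).comp (ρ e) = b.coord j := by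
      refine b.ext fun k => ?_
      rw [LinearMap.comp_apply, he k]
      by_cases hk : k = i
      · subst hk
        simp [b.repr_self, Finsupp.single_eq_of_ne hj]
      · simp [hk]
    have h := LinearMap.congr_fun hcoord (ρ x (b i))
    rw [LinearMap.comp_apply, hneg, map_neg] at h
    have h0 : b.repr (ρ x (b i)) j = 0 := by
      have h' : (2 : F) * b.coord j (ρ x (b i)) = 0 := by
        rw [two_mul]; nth_rewrite 1 [← h]; exact neg_add_cancel _
      exact (mul_eq_zero.1 h').resolve_left h2
    rw [h0, zero_smul]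
  · intro h; exact absurd (Finset.mem_univ i) h

theorem commute_of_centralize (hρ : Function.Injective ρ) {x y : X}
    (hx : ∀ e ∈ E, e * x = x * e) (hy : ∀ e ∈ E, e * y = y * e) : x * y = y * x := by
  apply hρ
  refine b.ext fun i => ?_
  obtain ⟨c, hc⟩ := exists_diag ρ h2 hb hx i
  obtain ⟨d, hd⟩ := exists_diag ρ h2 hb hy i
  rw [map_mul_apply' ρ, map_mul_apply' ρ, hd, map_smul, hc, map_smul, hd, smul_comm]

theorem mem_of_centralize_sq (hρ : Function.Injective ρ) {x : X} (hx : ∀ e ∈ E, e * x = x * e)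
    (hx2 : x ^ 2 = 1) : x ∈ E := by
  classical
  have hv : ∀ i, ρ x (b i) = b i ∨ ρ x (b i) = -b i := by
    intro i
    obtain ⟨c, hc⟩ := exists_diag ρ h2 hb hx i
    have h : (c * c) • b i = (1 : F) • b i := by
      rw [← smul_smul, ← hc, ← map_smul, ← hc, ← map_mul_apply' ρ, ← pow_two, hx2, map_one, one_smul]
      rfl
    have hcc : c * c = 1 := smul_left_injective F (b.ne_zero i) h
    rcases mul_self_eq_one_iff.1 hcc with h | h
    · left; rw [hc, h, one_smul]
    · right; rw [hc, h, neg_one_smul]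
  obtain ⟨e, heE, he⟩ := hb fun i => decide (ρ x (b i) = -b i)
  suffices x = e by rwa [this]
  apply hρ
  refine b.ext fun i => ?_
  rw [he i]
  by_cases h : ρ x (b i) = -b i
  · simp [h]
  · simp only [decide_eq_true_eq, if_neg h]
    exact (hv i).resolve_right h

omit h2 in
theorem exists_neg_one : ∃ z ∈ E, ρ z = -1 := by
  obtain ⟨z, hzE, hz⟩ := hb fun _ => true
  exact ⟨z, hzE, b.ext fun i => by rw [hz i]; rfl⟩

end linear

/-- The transfer of a character does not vanish on a central involution of value `-1` which is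
fixed by the normalizer. -/
theorem transfer_eq_neg_one {G : Type*} [Group G] [Finite G] (X : Sylow 2 G) {F : Type*} [Field F]
    (h2 : (2 : F) ≠ 0) (ψ : ↥(X : Subgroup G) →* Fˣ) {w : G} (hw : w ∈ (X : Subgroup G))
    (hw2 : w ^ 2 = 1) (hwψ : ψ ⟨w, hw⟩ = -1)
    (hcent : ∀ x ∈ (X : Subgroup G), x * w = w * x)
    (hfix : ∀ g ∈ normalizer ((X : Subgroup G) : Set G), g⁻¹ * w * g = w) :
    MonoidHom.transfer ψ w = -1 := by
  classical
  haveI := Fintype.ofFinite (G ⧸ (X : Subgroup G))
  have h11 : (1 : Fˣ) ≠ -1 := by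
    intro h
    apply h2
    have h' : (1 : F) = -1 := by simpa using congrArg Units.val h
    linear_combination h'
  have hsq : ∀ g : G, H89.extOne ψ (g⁻¹ * w * g) = 1 ∨ H89.extOne ψ (g⁻¹ * w * g) = -1 := by
    intro g
    unfold H89.extOne
    split_ifs with h
    · have h' : (ψ ⟨_, h⟩) ^ 2 = 1 := by
        rw [← map_pow]
        convert map_one ψ
        ext
        show (g⁻¹ * w * g) ^ 2 = 1
        rw [show (g⁻¹ * w * g) ^ 2 = g⁻¹ * w ^ 2 * g by simp [pow_two, mul_assoc], hw2]
        simp
      rcases sq_eq_one_iff.1 (show ((ψ ⟨_, h⟩ : Fˣ) : F) ^ 2 = 1 by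
        rw [← Units.val_pow_eq_pow_val, h', Units.val_one]) with h'' | h''
      · left; exact Units.ext h''
      · right; exact Units.ext (by rw [h'', Units.val_neg, Units.val_one])
    · exact Or.inl rfl
  have hpow : ∃ n, orderOf w = 2 ^ n := by
    rcases (Nat.dvd_prime Nat.prime_two).1 (orderOf_dvd_of_pow_eq_one hw2) with h | h
    · exact ⟨0, by rw [h, pow_zero]⟩
    · exact ⟨1, by rw [h, pow_one]⟩
  rw [H89.transfer_eq_prod_fixed Nat.prime_two ψ w hpow (fun g k hk => by
    obtain ⟨m, rfl⟩ := hk
    rw [pow_mul, hw2, one_pow, mul_one, inv_mul_cancel, H89.extOne_of_mem ψ (one_mem _)]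
    exact map_one ψ)]
  rw [Finset.prod_filter_of_ne (fun q _ hq => ?_)]
  swap
  · by_contra hne
    apply hq
    rw [H89.extOne, dif_neg]
    intro hmem
    apply hne
    induction q using QuotientGroup.induction_on with
    | H g =>
      show ((w * g : G) : G ⧸ (X : Subgroup G)) = (g : G)
      obtain ⟨h, hh⟩ := QuotientGroup.mk_out_eq_mul (X : Subgroup G) g
      rw [hh] at hmem
      refine (QuotientGroup.eq.2 ?_).symm
      have := mul_mem (mul_mem h.2 hmem) (inv_mem h.2)
      rw [show g⁻¹ * (w * g) = (h : G) * ((g * h)⁻¹ * w * (g * h)) * (h : G)⁻¹ by group]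
      exact this
  set S : Set (G ⧸ (X : Subgroup G)) := {q | H89.extOne ψ (q.out⁻¹ * w * q.out) = -1}
  rw [Finset.prod_congr rfl (g := fun q => if q ∈ S then (-1 : Fˣ) else 1) (fun q _ => ?_)]
  swap
  · by_cases h : q ∈ S
    · rw [if_pos h]; exact h
    · rw [if_neg h]; exact (hsq q.out).resolve_right h
  rw [Finset.prod_ite, Finset.prod_const, Finset.prod_const_one, mul_one]
  refine Odd.neg_one_pow ?_
  let S' : SubMulAction ↥(X : Subgroup G) (G ⧸ (X : Subgroup G)) :=
    { carrier := S
      smul_mem' := by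
        intro x q hq
        induction q using QuotientGroup.induction_on with
        | H g =>
          show H89.extOne ψ (((((x : G) * g : G)) : G ⧸ (X : Subgroup G)).out⁻¹ * w *
            ((((x : G) * g : G)) : G ⧸ (X : Subgroup G)).out) = -1
          rw [H89.extOne_out]
          have hq' : H89.extOne ψ ((g : G ⧸ (X : Subgroup G)).out⁻¹ * w *
            (g : G ⧸ (X : Subgroup G)).out) = -1 := hq
          rw [H89.extOne_out] at hq'
          rw [← hq']
          congr 1
          calc ((x : G) * g)⁻¹ * w * ((x : G) * g) = g⁻¹ * ((x : G)⁻¹ * (w * x)) * g := by group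
            _ = g⁻¹ * ((x : G)⁻¹ * (x * w)) * g := by rw [← hcent _ x.2]
            _ = g⁻¹ * w * g := by group }
  have hfp : ∀ q : G ⧸ (X : Subgroup G), (∀ x : ↥(X : Subgroup G), x • q = q) → q ∈ S := by
    intro q hq
    induction q using QuotientGroup.induction_on with
    | H g =>
      have hgn : g⁻¹ ∈ normalizer ((X : Subgroup G) : Set G) := by
        refine H49.mem_normalizer_iff_map.2 ?_
        refine Subgroup.eq_of_le_of_card_ge ?_ (by
          rw [Subgroup.card_map_of_injective (MulAut.conj g⁻¹).injective])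
        rintro - ⟨x, hx, rfl⟩
        have h : ((x * g : G) : G ⧸ (X : Subgroup G)) = (g : G) := hq ⟨x, hx⟩
        have h' := QuotientGroup.eq.1 h.symm
        simpa [mul_assoc] using h'
      have hgn' : g ∈ normalizer ((X : Subgroup G) : Set G) := by simpa using inv_mem hgn
      show H89.extOne ψ _ = -1
      rw [H89.extOne_out, hfix g hgn', H89.extOne_of_mem ψ hw]
      exact hwψ
  have hmod := X.2.card_modEq_card_fixedPoints (p := 2) ↥S'
  have hmod' := X.2.card_modEq_card_fixedPoints (p := 2) (G ⧸ (X : Subgroup G))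
  have hsame : Nat.card (MulAction.fixedPoints ↥(X : Subgroup G) ↥S') =
      Nat.card (MulAction.fixedPoints ↥(X : Subgroup G) (G ⧸ (X : Subgroup G))) := by
    refine Nat.card_congr
      { toFun := fun q => ⟨(q.1 : G ⧸ (X : Subgroup G)), fun x => congrArg Subtype.val (q.2 x)⟩
        invFun := fun q => ⟨⟨q.1, hfp q.1 q.2⟩, fun x => Subtype.ext (q.2 x)⟩
        left_inv := fun _ => rfl
        right_inv := fun _ => rfl }
  have hodd : ¬ 2 ∣ Nat.card (G ⧸ (X : Subgroup G)) := X.not_dvd_index
  have hcard : Nat.card ↥S' = (Finset.univ.filter fun q => q ∈ S).card := by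
    rw [show Nat.card ↥S' = Nat.card {q // q ∈ S} from rfl, Nat.card_eq_fintype_card,
      Fintype.card_subtype]
  rw [← hcard, Nat.odd_iff]
  unfold Nat.ModEq at hmod hmod'
  omega

/-- The main theorem. -/
theorem isMulCommutative_sylow {G : Type*} [Group G] [Finite G] (hG : ∀ H : Subgroup G, H.index ≠ 2)
    (X : Sylow 2 G) {F : Type*} [Field F] [Fintype F] (hF : Odd (Fintype.card F))
    (f : ↥(X : Subgroup G) →* GL (Fin 3) F) (hf : Function.Injective f)
    (E : Subgroup G) (hE : E ≤ (X : Subgroup G)) (hEa : Cfsg.IsElementaryAbelian 2 E)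
    (hE8 : Nat.card E = 8) :
    IsMulCommutative (X : Subgroup G) := by
  classical
  have h2 : (2 : F) ≠ 0 := by
    apply Ring.two_ne_zero
    intro h
    have := FiniteField.even_card_iff_char_two.1 h
    rw [Nat.odd_iff] at hF
    omega
  let ρ : ↥(X : Subgroup G) →* Module.End F (Fin 3 → F) :=
    (Matrix.toLinAlgEquiv' (R := F) (n := Fin 3)).toRingEquiv.toMonoidHom.comp
      ((Units.coeHom _).comp f)
  have hρ : Function.Injective ρ :=
    (Matrix.toLinAlgEquiv' (R := F) (n := Fin 3)).injective.comp (Units.val_injective.comp hf)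
  set E' : Subgroup ↥(X : Subgroup G) := E.subgroupOf X with hE'
  have hE'c : ∀ a ∈ E', ∀ b ∈ E', a * b = b * a := fun a ha b hb => Subtype.ext
    (by simpa using congrArg Subtype.val (hEa.1.is_comm.comm (⟨(a : G), ha⟩ : ↥E) ⟨(b : G), hb⟩))
  have hE'2 : ∀ e ∈ E', e ^ 2 = 1 := fun e he => Subtype.ext (by
    simpa using hEa.2 (e : G) he)
  have hE'8 : Nat.card E' = 8 := by
    rw [← hE8]; exact Nat.card_congr (Subgroup.subgroupOfEquivOfLe hE).toEquiv
  obtain ⟨b, hb⟩ := exists_sign_basis ρ h2 (by simp) hρ E' hE'c hE'2 hE'8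
  obtain ⟨z, hzE, hz⟩ := exists_neg_one ρ hb
  by_contra hna
  let ψ : ↥(X : Subgroup G) →* Fˣ := Matrix.GeneralLinearGroup.det.comp f
  have hzc : z ∈ center ↥(X : Subgroup G) := by
    rw [mem_center_iff]
    intro x
    apply hρ
    rw [map_mul, map_mul, hz]
    exact LinearMap.ext fun v => map_neg (ρ x) v
  have hzψ : ψ z = -1 := by
    apply Units.ext
    have hm : ((f z : GL (Fin 3) F) : Matrix (Fin 3) (Fin 3) F) = -1 := by
      apply (Matrix.toLinAlgEquiv' (R := F) (n := Fin 3)).injective
      rw [map_neg, map_one]; exact hz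
    show ((f z : GL (Fin 3) F) : Matrix (Fin 3) (Fin 3) F).det = _
    rw [hm, Matrix.det_neg, Matrix.det_one, Fintype.card_fin]
    norm_num
  -- the central involutions lie in `E'`
  set W := E' ⊓ center ↥(X : Subgroup G) with hW
  have hmemW : ∀ w, w ^ 2 = 1 → w ∈ center ↥(X : Subgroup G) → w ∈ W := fun w hw2 hwc =>
    mem_inf.2 ⟨mem_of_centralize_sq ρ h2 hb hρ (fun e _ => mem_center_iff.1 hwc e) hw2, hwc⟩
  have hW4 : Nat.card W ≤ 4 := by
    have hd : Nat.card W ∣ 8 := hE'8 ▸ Subgroup.card_dvd_of_le inf_le_left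
    have hle := Nat.le_of_dvd (by norm_num) hd
    have hne : Nat.card W ≠ 8 := by
      intro h8
      have hEW : W = E' := Subgroup.eq_of_le_of_card_ge inf_le_left (by rw [hE'8, h8])
      have hcen : ∀ e ∈ E', e ∈ center ↥(X : Subgroup G) := fun e he =>
        (mem_inf.1 (hEW.symm ▸ he : e ∈ W)).2
      exact hna ⟨⟨fun x y => commute_of_centralize ρ h2 hb hρ
        (fun e he => (mem_center_iff.1 (hcen e he) x).symm)
        (fun e he => (mem_center_iff.1 (hcen e he) y).symm)⟩⟩
    by_contra h
    interval_cases hc : Nat.card W <;> simp_all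
  -- the involution in the derived group
  obtain ⟨u, huD, huc, huo⟩ := H24.exists_central_orderOf (p := 2) X.2
    (N := commutator ↥(X : Subgroup G)) (by
      intro h
      apply hna
      refine ⟨⟨fun x y => ?_⟩⟩
      have := Subgroup.commutator_mem_commutator (mem_top x) (mem_top y)
      rw [← _root_.commutator_def, h, mem_bot, commutatorElement_eq_one_iff_mul_comm] at this
      exact this)
  have hker : ∀ x ∈ commutator ↥(X : Subgroup G), ψ x = 1 := fun x hx =>
    MonoidHom.mem_ker.1 (Abelianization.commutator_subset_ker ψ hx)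
  have hu2 : u ^ 2 = 1 := orderOf_dvd_iff_pow_eq_one.1 (dvd_of_eq huo)
  have hu1 : u ≠ 1 := by intro h; rw [h, orderOf_one] at huo; norm_num at huo
  have hz2 : z ^ 2 = 1 := hE'2 z hzE
  have h11 : (1 : Fˣ) ≠ -1 := by
    intro h
    apply h2
    have h' : (1 : F) = -1 := by simpa using congrArg Units.val h
    linear_combination h'
  have hz1 : z ≠ 1 := fun h => h11 ((map_one ψ).symm.trans (h ▸ hzψ))
  have hψu := hker u huD
  have hψuz : ψ (u * z) = -1 := by rw [map_mul, hψu, hzψ, one_mul]
  have huz2 : (u * z) ^ 2 = 1 := by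
    rw [(show Commute u z from mem_center_iff.1 hzc u).mul_pow, hu2, hz2, mul_one]
  have hsub : ({1, u, z, u * z} : Set ↥(X : Subgroup G)) = (W : Set ↥(X : Subgroup G)) := by
    refine Set.eq_of_subset_of_ncard_le ?_ ?_ (Set.toFinite _)
    · rintro x (rfl | rfl | rfl | rfl)
      · exact one_mem _
      · exact hmemW x hu2 huc
      · exact hmemW x hz2 hzc
      · exact hmemW _ huz2 (mul_mem huc hzc)
    · have e1 : (W : Set ↥(X : Subgroup G)).ncard ≤ 4 := by
        rw [← Nat.card_coe_set_eq]; exact hW4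
      refine e1.trans (le_of_eq ?_)
      rw [Set.ncard_insert_of_notMem, Set.ncard_insert_of_notMem, Set.ncard_pair]
      · intro h; exact hu1 (mul_eq_right.1 h.symm)
      · rintro (h | h)
        · exact h11 (hψu.symm.trans (by rw [h]; exact hzψ))
        · exact hz1 (mul_eq_left.1 h.symm)
      · rintro (h | h | h)
        · exact hu1 h.symm
        · exact hz1 h.symm
        · exact h11 ((map_one ψ).symm.trans (by rw [h]; exact hψuz))
  -- the normalizer fixes `z`
  have key : ∀ g ∈ normalizer ((X : Subgroup G) : Set G),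
      g * (u : G) * g⁻¹ = u ∧ (g * (z : G) * g⁻¹ = z ∨ g * (z : G) * g⁻¹ = u * z) := by
    intro g hg
    let φ : ↥(X : Subgroup G) ≃* ↥(X : Subgroup G) :=
      { toFun := fun x => ⟨g * x * g⁻¹, (Subgroup.mem_normalizer_iff.1 hg _).1 x.2⟩
        invFun := fun x => ⟨g⁻¹ * x * g, by
          have := (Subgroup.mem_normalizer_iff.1 (inv_mem hg) _).1 x.2; simpa using this⟩
        left_inv := fun x => Subtype.ext (by simp [mul_assoc])
        right_inv := fun x => Subtype.ext (by simp [mul_assoc])
        map_mul' := fun x y => Subtype.ext (by simp [mul_assoc]) }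
    have hφW : ∀ x, x ^ 2 = 1 → x ∈ center ↥(X : Subgroup G) →
        φ x ∈ ({1, u, z, u * z} : Set ↥(X : Subgroup G)) := by
      intro x hx2 hxc
      rw [hsub]
      refine hmemW _ (by rw [← map_pow, hx2, map_one]) (mem_center_iff.2 fun y => ?_)
      obtain ⟨y, rfl⟩ := φ.surjective y
      rw [← map_mul, ← map_mul, mem_center_iff.1 hxc y]
    have hφu : φ u ∈ commutator ↥(X : Subgroup G) := by
      have hchar : (commutator ↥(X : Subgroup G)).map φ.toMonoidHom = commutator ↥(X : Subgroup G) :=
        Subgroup.characteristic_iff_map_eq.1 inferInstance φ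
      rw [← hchar]; exact mem_map_of_mem _ huD
    have hφu' : φ u = u := by
      rcases hφW u hu2 huc with h | h | h | h
      · exact absurd (φ.injective (h.trans (map_one φ).symm)) hu1
      · exact h
      · exact absurd ((hker _ hφu).symm.trans (by rw [h]; exact hzψ)) h11
      · rw [Set.mem_singleton_iff] at h
        exact absurd ((hker _ hφu).symm.trans (by rw [h]; exact hψuz)) h11
    refine ⟨congrArg Subtype.val hφu', ?_⟩
    rcases hφW z hz2 hzc with h | h | h | h
    · exact absurd (φ.injective (h.trans (map_one φ).symm)) hz1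
    · exfalso
      rw [← hφu'] at h
      apply h11
      exact hψu.symm.trans (by rw [← φ.injective h]; exact hzψ)
    · exact Or.inl (congrArg Subtype.val h)
    · rw [Set.mem_singleton_iff] at h
      exact Or.inr (congrArg Subtype.val h)
  have hfix : ∀ g ∈ normalizer ((X : Subgroup G) : Set G), g⁻¹ * (z : G) * g = z := by
    intro g hg
    suffices g * (z : G) * g⁻¹ = z by
      conv_lhs => rw [← this]
      group
    by_contra hne
    obtain ⟨hu, hz'⟩ := key g hg
    have hgz := hz'.resolve_left hne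
    have hsqz : g * (g * (z : G) * g⁻¹) * g⁻¹ = z := by
      rw [hgz, show g * ((u : G) * z) * g⁻¹ = (g * u * g⁻¹) * (g * z * g⁻¹) by group, hu, hgz,
        ← mul_assoc, show (u : G) * u = 1 by
          simpa [pow_two] using congrArg Subtype.val hu2, one_mul]
    have hev : ∀ k : ℕ, g ^ (2 * k) * (z : G) * (g ^ (2 * k))⁻¹ = z := by
      intro k
      induction k with
      | zero => simp
      | succ k ih =>
        calc g ^ (2 * (k + 1)) * (z : G) * (g ^ (2 * (k + 1)))⁻¹
            = g * (g * (g ^ (2 * k) * (z : G) * (g ^ (2 * k))⁻¹) * g⁻¹) * g⁻¹ := by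
              rw [show 2 * (k + 1) = 1 + 1 + 2 * k by ring, pow_add, pow_add, pow_one]
              group
          _ = z := by rw [ih]; exact hsqz
    set N := normalizer ((X : Subgroup G) : Set G)
    have hm : Odd ((X : Subgroup G).subgroupOf N).index := by
      rw [Nat.odd_iff]
      have h1 : ((X : Subgroup G).subgroupOf N).index ∣ (X : Subgroup G).index :=
        Subgroup.relIndex_dvd_index_of_le Subgroup.le_normalizer
      have h3 : ¬ 2 ∣ (X : Subgroup G).index := X.not_dvd_index
      by_contra h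
      exact h3 ((Nat.dvd_of_mod_eq_zero (by omega)).trans h1)
    haveI : ((X : Subgroup G).subgroupOf N).Normal := Subgroup.normal_in_normalizer
    obtain ⟨k, hk⟩ := hm
    have hmem : g ^ ((X : Subgroup G).subgroupOf N).index ∈ (X : Subgroup G) :=
      ((X : Subgroup G).subgroupOf N).pow_index_mem ⟨g, hg⟩
    rw [hk] at hmem
    apply hne
    have hcomm : g ^ (2 * k + 1) * (z : G) * (g ^ (2 * k + 1))⁻¹ = z := by
      have := congrArg Subtype.val (mem_center_iff.1 hzc ⟨_, hmem⟩)
      simp only [Subgroup.coe_mul] at this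
      rw [this, mul_inv_cancel_right]
    rw [pow_succ'] at hcomm
    conv_lhs => rw [← hev k]
    conv_rhs => rw [← hcomm]
    group
  have htr := transfer_eq_neg_one X h2 ψ (w := (z : G)) z.2
    (by simpa using congrArg Subtype.val hz2) hzψ
    (fun x hx => congrArg Subtype.val (mem_center_iff.1 hzc ⟨x, hx⟩)) hfix
  set V := MonoidHom.transfer ψ
  haveI : Finite V.range := inferInstance
  set n := Nat.card V.range
  have hn2 : 2 ∣ n := by
    have : orderOf (⟨-1, ⟨(z : G), htr⟩⟩ : V.range) ∣ n := orderOf_dvd_natCard _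
    rwa [← Subgroup.orderOf_coe, orderOf_eq_prime (p := 2) (by simp) (Ne.symm h11)] at this
  obtain ⟨c, hc⟩ := IsCyclic.exists_generator (α := V.range)
  let π : G →* Fˣ := (powMonoidHom (n / 2)).comp V
  apply hG π.ker
  rw [Subgroup.index_ker]
  have hπ : ∀ g : G, π g = 1 ∨ π g = -1 := by
    intro g
    have h : (π g) ^ 2 = 1 := by
      show ((V g) ^ (n / 2)) ^ 2 = 1
      rw [← pow_mul, Nat.div_mul_cancel hn2]
      have := pow_card_eq_one' (G := V.range) (x := ⟨V g, g, rfl⟩)
      exact congrArg Subtype.val this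
    rcases sq_eq_one_iff.1 (show ((π g : Fˣ) : F) ^ 2 = 1 by
      rw [← Units.val_pow_eq_pow_val, h, Units.val_one]) with h'' | h''
    · left; exact Units.ext h''
    · right; exact Units.ext (by rw [h'', Units.val_neg, Units.val_one])
  obtain ⟨g0, hg0⟩ := c.2
  have hne : π g0 ≠ 1 := by
    show (V g0) ^ (n / 2) ≠ 1
    rw [hg0]
    intro h
    have h' : c ^ (n / 2) = 1 := Subtype.ext h
    have hd := orderOf_dvd_of_pow_eq_one h'
    rw [orderOf_eq_card_of_forall_mem_zpowers hc] at hd
    have hpos : 0 < n := Nat.card_pos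
    have := Nat.le_of_dvd (by omega) hd
    omega
  have hrange : (π.range : Set Fˣ) = {1, -1} := by
    refine Set.Subset.antisymm ?_ ?_
    · rintro _ ⟨g, rfl⟩
      exact hπ g
    · rintro x (rfl | rfl)
      · exact one_mem _
      · exact ⟨g0, (hπ g0).resolve_left hne⟩
  rw [show Nat.card π.range = (π.range : Set Fˣ).ncard from (Nat.card_coe_set_eq _), hrange,
    Set.ncard_pair h11]

end Cfsg.Agent.H60.ThreeDim
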